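import Mathlib

/-!
Invariant positive definite Hermitian forms on complex representations of finite groups.
-/

set_option autoImplicit false
set_option linter.unusedSectionVars false
set_option linter.unusedVariables false
set_option linter.unusedSimpArgs false

namespace Cfsg.Agent.Lib.OddDeg

open Module

variable {G : Type*} [Group G] {V : Type*} [AddCommGroup V] [Module ℂ V]

/-- An invariant positive definite Hermitian form, linear in the first variable. -/
structure IH (ρ : Representation ℂ G V) where
  B : V → V → ℂ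
  add_left : ∀ u v w, B (u + v) w = B u w + B v w
  smul_left : ∀ (c : ℂ) u w, B (c • u) w = c * B u w
  symm : ∀ u v, B v u = star (B u v)
  pos : ∀ u, u ≠ 0 → 0 < (B u u).re
  inv : ∀ g u v, B (ρ g u) (ρ g v) = B u v

theorem exists_IH [Finite G] [FiniteDimensional ℂ V] (ρ : Representation ℂ G V) : Nonempty (IH ρ) := by
  classical
  cases nonempty_fintype G
  let b := Module.finBasis ℂ V
  refine ⟨⟨fun u v => ∑ g : G, ∑ i, b.repr (ρ g u) i * star (b.repr (ρ g v) i), ?_, ?_, ?_, ?_, ?_⟩⟩
  · intro u v w
    simp only [map_add, Finsupp.add_apply, add_mul, Finset.sum_add_distrib]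
  · intro c u w
    simp only [map_smul, Finsupp.smul_apply, smul_eq_mul, Finset.mul_sum, mul_assoc]
  · intro u v
    simp only [star_sum, star_mul', star_star]
    refine Finset.sum_congr rfl fun g _ => Finset.sum_congr rfl fun i _ => ?_
    ring
  · intro u hu
    simp only [Complex.re_sum]
    have h0 : ∀ (g : G) (i), 0 ≤ (b.repr (ρ g u) i * star (b.repr (ρ g u) i)).re := by
      intro g i
      rw [Complex.star_def, Complex.mul_conj]
      simpa using Complex.normSq_nonneg _
    have hne : ∃ i, b.repr (ρ 1 u) i ≠ 0 := by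
      by_contra hc
      push Not at hc
      apply hu
      have : b.repr (ρ 1 u) = 0 := by
        ext i
        simpa using hc i
      simpa using this
    obtain ⟨i, hi⟩ := hne
    have h1 : 0 < (b.repr (ρ 1 u) i * star (b.repr (ρ 1 u) i)).re := by
      rw [Complex.star_def, Complex.mul_conj]
      simpa using Complex.normSq_pos.2 hi
    calc 0 < (b.repr (ρ 1 u) i * star (b.repr (ρ 1 u) i)).re := h1
      _ ≤ ∑ i, (b.repr (ρ 1 u) i * star (b.repr (ρ 1 u) i)).re :=
        Finset.single_le_sum (f := fun i => (b.repr (ρ 1 u) i * star (b.repr (ρ 1 u) i)).re) (fun j _ => h0 1 j) (Finset.mem_univ i)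
      _ ≤ ∑ g : G, ∑ i, (b.repr (ρ g u) i * star (b.repr (ρ g u) i)).re :=
        Finset.single_le_sum (f := fun g : G => ∑ i, (b.repr (ρ g u) i * star (b.repr (ρ g u) i)).re)
          (fun g _ => Finset.sum_nonneg fun j _ => h0 g j) (Finset.mem_univ (1 : G))
  · intro g u v
    have h := Equiv.sum_comp (Equiv.mulRight g) (fun g' : G => ∑ i, b.repr (ρ g' u) i * star (b.repr (ρ g' v) i))
    rw [← h]
    refine Finset.sum_congr rfl fun g' _ => ?_
    simp only [Equiv.coe_mulRight, map_mul]
    rfl

namespace IH

variable {ρ : Representation ℂ G V} (I : IH ρ)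

lemma add_right (u v w : V) : I.B u (v + w) = I.B u v + I.B u w := by
  rw [I.symm (v + w) u, I.add_left, star_add, ← I.symm, ← I.symm]

lemma smul_right (c : ℂ) (u v : V) : I.B u (c • v) = star c * I.B u v := by
  rw [I.symm (c • v) u, I.smul_left, star_mul', ← I.symm]

@[simp] lemma zero_left (w : V) : I.B 0 w = 0 := by
  have := I.smul_left 0 0 w
  simpa using this

@[simp] lemma zero_right (w : V) : I.B w 0 = 0 := by
  have := I.smul_right 0 w 0
  simpa using this

lemma neg_left (u w : V) : I.B (-u) w = - I.B u w := by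
  have := I.smul_left (-1) u w
  simpa using this

lemma neg_right (u w : V) : I.B w (-u) = - I.B w u := by
  have := I.smul_right (-1) w u
  simpa using this

lemma sub_left (u v w : V) : I.B (u - v) w = I.B u w - I.B v w := by
  rw [sub_eq_add_neg, I.add_left, I.neg_left, sub_eq_add_neg]

lemma sub_right (u v w : V) : I.B w (u - v) = I.B w u - I.B w v := by
  rw [sub_eq_add_neg, I.add_right, I.neg_right, sub_eq_add_neg]

lemma sum_left {α : Type*} (s : Finset α) (f : α → V) (w : V) : I.B (∑ a ∈ s, f a) w = ∑ a ∈ s, I.B (f a) w := by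
  classical
  induction s using Finset.induction_on with
  | empty => simp
  | insert a s ha ih => rw [Finset.sum_insert ha, Finset.sum_insert ha, I.add_left, ih]

lemma sum_right {α : Type*} (s : Finset α) (f : α → V) (w : V) : I.B w (∑ a ∈ s, f a) = ∑ a ∈ s, I.B w (f a) := by
  classical
  induction s using Finset.induction_on with
  | empty => simp
  | insert a s ha ih => rw [Finset.sum_insert ha, Finset.sum_insert ha, I.add_right, ih]

/-- The adjoint of a group element. -/
lemma adj (g : G) (u v : V) : I.B (ρ g u) v = I.B u (ρ g⁻¹ v) := by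
  have h : ρ g (ρ g⁻¹ v) = v := by
    rw [← Module.End.mul_apply, ← map_mul, mul_inv_cancel, map_one]
    rfl
  conv_lhs => rw [← h]
  exact I.inv g u _

lemma adj' (g : G) (u v : V) : I.B u (ρ g v) = I.B (ρ g⁻¹ u) v := by
  rw [I.adj, inv_inv]

lemma self_ne_zero {u : V} (hu : u ≠ 0) : I.B u u ≠ 0 := by
  intro h
  have := I.pos u hu
  rw [h] at this
  simp at this

lemma eq_zero_of_self {u : V} (hu : I.B u u = 0) : u = 0 := by
  by_contra h
  exact I.self_ne_zero h hu

lemma eq_zero_of_forall {u : V} (h : ∀ w, I.B u w = 0) : u = 0 := I.eq_zero_of_self (h u)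

lemma im_self (u : V) : (I.B u u).im = 0 := by
  have := I.symm u u
  have h2 := congrArg Complex.im this
  simp only [Complex.star_def, Complex.conj_im] at h2
  linarith

lemma self_re (u : V) : I.B u u = ((I.B u u).re : ℂ) := by
  apply Complex.ext <;> simp [I.im_self]

lemma re_nonneg (u : V) : 0 ≤ (I.B u u).re := by
  by_cases h : u = 0
  · simp [h]
  · exact (I.pos u h).le

include I in
/-- Eigenvalues of group elements have norm one. -/
lemma eig_star {g : G} {u : V} {μ : ℂ} (hu : u ≠ 0) (h : ρ g u = μ • u) : μ * star μ = 1 := by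
  have h1 := I.inv g u u
  rw [h, I.smul_left, I.smul_right, ← mul_assoc] at h1
  have h2 := I.self_ne_zero hu
  exact mul_right_cancel₀ h2 (by rw [h1, one_mul])

include I in
lemma eig_inv {g : G} {u : V} {μ : ℂ} (hu : u ≠ 0) (h : ρ g u = μ • u) : star μ = μ⁻¹ := by
  have h1 := I.eig_star hu h
  have h2 : μ ≠ 0 := by
    rintro rfl
    simp at h1
  field_simp
  linear_combination h1

end IH

end Cfsg.Agent.Lib.OddDeg
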