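import Cfsg.Agent.Lib.OddDeg.Form

/-!
The `A`-lemma: a vector fixed by a root group and an eigenvector of the torus cannot be moved by
the Weyl element to a vector killed by the root-group sum.
-/

set_option autoImplicit false

namespace Cfsg.Agent.Lib.OddDeg

theorem A_lemma {G : Type*} [Group G] {V : Type*} [AddCommGroup V] [Module ℂ V]
    {ρ : Representation ℂ G V} (I : IH ρ) {F : Type*} [Field F] [Fintype F]
    (X : F → G) (hX : ∀ r s, X (r + s) = X r * X s) (n : G) (d : Fˣ → G)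
    (hrel : ∀ r : Fˣ, n⁻¹ * X r * n =
      X (-((r⁻¹ : Fˣ) : F)) * d r⁻¹ * n * X (-((r⁻¹ : Fˣ) : F)))
    {u : V} (hu : u ≠ 0) (hfix : ∀ r, ρ (X r) u = u) (κ₀ : Fˣ → ℂ)
    (heig : ∀ t, ρ (d t) u = κ₀ t • u) : ∑ r, ρ (X r) (ρ n u) ≠ 0 := by
  classical
  intro hsum
  have hq : ((Fintype.card F : ℕ) : ℂ) ≠ 0 := by
    exact_mod_cast Fintype.card_ne_zero
  -- `v ⟂ u`
  have h0 : I.B (ρ n u) u = 0 := by
    have h1 : ∀ r, I.B (ρ (X r) (ρ n u)) u = I.B (ρ n u) u := by
      intro r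
      have := I.inv (X r) (ρ n u) u
      rwa [hfix r] at this
    have h2 : I.B (∑ r, ρ (X r) (ρ n u)) u = 0 := by rw [hsum]; simp
    rw [I.sum_left] at h2
    simp only [h1, Finset.sum_const, Finset.card_univ, nsmul_eq_mul] at h2
    exact (mul_eq_zero.1 h2).resolve_left hq
  -- the terms with `r ≠ 0`
  have h3 : ∀ r : F, r ≠ 0 → I.B (ρ (X r) (ρ n u)) (ρ n u) = 0 := by
    intro r hr
    set r' : Fˣ := Units.mk0 r hr with hr'
    have hrr : ((r' : Fˣ) : F) = r := rfl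
    have e1 : I.B (ρ (X r) (ρ n u)) (ρ n u) = I.B (ρ (n⁻¹ * X r * n) u) u := by
      have := I.inv n⁻¹ (ρ (X r) (ρ n u)) (ρ n u)
      rw [← this]
      congr 1
      · rw [map_mul, map_mul]
        rfl
      · rw [← Module.End.mul_apply, ← map_mul, inv_mul_cancel, map_one]
        rfl
    rw [e1, ← hrr, hrel r']
    set s : F := -((r'⁻¹ : Fˣ) : F) with hs
    have e2 : ρ (X s * d r'⁻¹ * n * X s) u = ρ (X s) (ρ (d r'⁻¹) (ρ n u)) := by
      rw [map_mul, map_mul, map_mul]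
      simp only [Module.End.mul_apply, hfix]
    rw [e2]
    have e3 : I.B (ρ (X s) (ρ (d r'⁻¹) (ρ n u))) u = I.B (ρ (d r'⁻¹) (ρ n u)) u := by
      have := I.inv (X s) (ρ (d r'⁻¹) (ρ n u)) u
      rwa [hfix s] at this
    rw [e3]
    -- eigenvalue nonzero
    have hk : κ₀ r'⁻¹ ≠ 0 := by
      intro hk
      have h4 := heig r'⁻¹
      rw [hk, zero_smul] at h4
      apply hu
      have : ρ (d r'⁻¹)⁻¹ (ρ (d r'⁻¹) u) = u := by
        rw [← Module.End.mul_apply, ← map_mul, inv_mul_cancel, map_one]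
        rfl
      rw [← this, h4, map_zero]
    have e4 : u = (κ₀ r'⁻¹)⁻¹ • ρ (d r'⁻¹) u := by
      rw [heig, smul_smul, inv_mul_cancel₀ hk, one_smul]
    have e5 : I.B (ρ (d r'⁻¹) (ρ n u)) u
        = star ((κ₀ r'⁻¹)⁻¹) * I.B (ρ n u) u := by
      conv_lhs => rw [e4]
      rw [I.smul_right, I.inv]
      rw [← e4]
    rw [e5, h0, mul_zero]
  -- conclude
  have h5 : I.B (∑ r, ρ (X r) (ρ n u)) (ρ n u) = 0 := by rw [hsum]; simp
  rw [I.sum_left, Finset.sum_eq_single (0 : F)] at h5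
  · have hX0 : X 0 = 1 := by
      have := hX 0 0
      rw [add_zero] at this
      exact (mul_eq_left.1 this.symm)
    rw [hX0, map_one] at h5
    have h6 : I.B (ρ n u) (ρ n u) = I.B u u := I.inv n u u
    rw [Module.End.one_apply, h6] at h5
    exact I.self_ne_zero hu h5
  · intro r _ hr
    exact h3 r hr
  · intro h
    exact absurd (Finset.mem_univ _) h

end Cfsg.Agent.Lib.OddDeg
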