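import Cfsg.Agent.Lib.OddDeg.Supp

/-!
`D_lemma`: on the fixed space of the root groups of a tower, the torus eigenvalue `θ` agrees with the eigenvalue
`lam` on the highest-weight line, as soon as the Weyl element of the two lower planes moves the vector orthogonally.
-/

set_option autoImplicit false
set_option linter.unusedSectionVars false
set_option linter.unusedVariables false
set_option linter.unusedSimpArgs false
set_option linter.ambiguousOpen false

namespace Cfsg.Agent.Lib.OddDeg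

open Matrix Module Cfsg Cfsg.Geo
open Cfsg.Agent.Lib.Geo.Basic Cfsg.Agent.Lib.Geo.QForm Cfsg.Agent.Lib.QuadFn
open Cfsg.Agent.Lib.GeoOmega.Basic Cfsg.Agent.Lib.GeoOmega.Eichler
open Cfsg.Agent.Lib.MinDeg Cfsg.Agent.Lib.MinDeg.Hyp Cfsg.Agent.Lib.Classical.MatrixBridge
open Cfsg.Agent.Lib.WtSpace.Basic Cfsg.Agent.Lib.MinDeg.Wt
open scoped _root_.Classical MatrixGroups

variable {ι κ κ' κ'' : Type} [Fintype ι] [DecidableEq ι] [Fintype κ] [DecidableEq κ] [Fintype κ'] [DecidableEq κ']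
  [Fintype κ''] [DecidableEq κ''] {F : Type*} [Field F] [Fintype F]
  {Q : (ι → F) → F} {Q' : (κ → F) → F} {Q'' : (κ' → F) → F} {Q''' : (κ'' → F) → F}

/-- The similitude `(p, p', c) ↦ (p, t² p', t c)` of the coordinates of a hyperbolic extension. -/
noncomputable def fS (M : HL Q' Q'') (t : Fˣ) : (κ → F) ≃ (κ → F) where
  toFun b := M.vec (b M.he.p0) ((t : F) ^ 2 * b M.he.p1) ((t : F) • M.he.dn b)
  invFun b := M.vec (b M.he.p0) (((t⁻¹ : Fˣ) : F) ^ 2 * b M.he.p1) (((t⁻¹ : Fˣ) : F) • M.he.dn b)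
  left_inv b := by
    have ht : (t : F) ≠ 0 := t.ne_zero
    conv_rhs => rw [← M.he.vec_coord b]
    simp only [HE.vec_p0, HE.vec_p1, HE.dn_vec, smul_smul, t_inv, ← mul_assoc, ← mul_pow,
      inv_mul_cancel₀ ht, one_pow, one_mul, one_smul]
  right_inv b := by
    have ht : (t : F) ≠ 0 := t.ne_zero
    conv_rhs => rw [← M.he.vec_coord b]
    simp only [HE.vec_p0, HE.vec_p1, HE.dn_vec, smul_smul, t_inv, ← mul_assoc, ← mul_pow,
      mul_inv_cancel₀ ht, one_pow, one_mul, one_smul]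

lemma fS_vec (M : HL Q' Q'') (t : Fˣ) (p p' : F) (c : κ' → F) :
    fS M t (M.vec p p' c) = M.vec p ((t : F) ^ 2 * p') ((t : F) • c) := by
  show M.vec _ _ _ = _
  simp only [HE.vec_p0, HE.vec_p1, HE.dn_vec]

/-- The action of an element of `Ω`, as a bijection. -/
def actE (g : Omega F Q') : (κ → F) ≃ (κ → F) where
  toFun := act g
  invFun := act g⁻¹
  left_inv := act_inv_act g
  right_inv := act_act_inv g

variable (L : HL Q Q') (M : HL Q' Q'') (K : HL Q'' Q''')

lemma x_act_lf (g : Omega F Q') (b : κ → F) : L.x (act g b) * L.lf g = L.lf g * L.x b := by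
  have h := L.lf_x g b
  rw [mul_inv_eq_iff_eq_mul] at h
  exact h.symm

lemma x_lf (g : Omega F Q') (b : κ → F) : L.x b * L.lf g = L.lf g * L.x (act g⁻¹ b) := by
  have h := x_act_lf L g (act g⁻¹ b)
  rwa [act_act_inv] at h

lemma pol_act (g : Omega F Q') (c b : κ → F) : pol Q' (act g c) (act g b) = pol Q' c b :=
  pol_isometry g.1.1 g.1.2 c b

variable {V : Type*} [AddCommGroup V] [Module ℂ V] [FiniteDimensional ℂ V] (ρ : Representation ℂ (Omega F Q) V)
  {ψ : AddChar F ℂ} (hψ : ψ 1 ≠ 1)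

include hψ

/-- The vector `w = n' u` and its weights. -/
theorem D_lemma
    (hw : ∀ c, c ≠ 0 → finrank ℂ (Vc (Q' := Q') ρ L.x ψ c) = if Q' c = 0 then 1 else 0)
    (I : IH ρ) {u : V} (hu : u ≠ 0) (hC : InC L M K ρ u) {θ : Fˣ → ℂ}
    (hθ : ∀ t, ρ (E2 L M K t) u = θ t • u) (hB : I.B (ρ (L.lf (nW M K)) u) u = 0)
    {lam : Fˣ → ℂ}
    (hlam : ∀ t, ∀ v ∈ Vc (Q' := Q') ρ L.x ψ M.he.P0, ρ (dG L M.swap t) v = lam t • v)
    (t : Fˣ) : θ t = lam t := by
  classical
  have nd1 := L.nd'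
  have nd2 := M.nd'
  have nd3 := K.nd'
  set n' : Omega F Q := L.lf (nW M K) with hn'
  set w : V := ρ n' u with hw'
  let zf : (κ' → F) → Omega F Q := fun b => L.lf (M.x b)
  have hzf : ∀ b b', zf (b + b') = zf b * zf b' := fun b b' => zf_add L M b b'
  have hxa : ∀ b b', L.x (b + b') = L.x b * L.x b' := L.x_add
  -- `w` is fixed by the root groups `zf (K.vec p 0 c)`.
  have h1 : ∀ p c, ρ (zf (K.vec p 0 c)) w = w := by
    intro p c
    have e : zf (K.vec p 0 c) * n' = n' * (zf (K.vec p 0 0) * L.lf (M.lf (K.x c))) := by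
      simp only [zf, hn']
      rw [← map_mul, ← map_mul, ← map_mul, nW_x_mid M K]
    rw [hw', ← rho_mul, e, rho_mul, rho_mul, hC.k1, hC.hz]
  -- The weights of `w`.
  have h2 : ∀ s, EE (Q' := Q'') ρ zf ψ s w ≠ 0 → ∃ α, s = K.vec α 0 0 := by
    intro s hs
    have hform : ∀ p c, pol Q'' s (K.vec p 0 c) = 0 := by
      intro p c
      refine weight_form hzf nd2 hψ (b := K.vec p 0 c) (l := 0) (fun r => ?_) hs
      rw [M_smul K, mul_zero, AddChar.map_zero_eq_one, one_smul]
      exact h1 _ _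
    obtain ⟨α, β, e, rfl⟩ := K_coord K s
    have hβ : β = 0 := by
      have := hform 1 0
      rw [M_pol K, pol_zero_right nd3] at this
      simpa using this
    have he : e = 0 := by
      by_contra he
      obtain ⟨d, hd⟩ := (nd3.nondegenerate e he).2
      have := hform 0 d
      rw [M_pol K] at this
      apply hd
      simpa using this
    exact ⟨α, by rw [hβ, he]⟩
  -- A nonzero weight occurs.
  have h3 : ∃ α : F, α ≠ 0 ∧ EE (Q' := Q'') ρ zf ψ (K.vec α 0 0) w ≠ 0 := by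
    by_contra hcon
    push Not at hcon
    have hall : ∀ s, s ≠ 0 → EE (Q' := Q'') ρ zf ψ s w = 0 := by
      intro s hs
      by_contra hne
      obtain ⟨α, rfl⟩ := h2 s hne
      have hα : α ≠ 0 := by
        rintro rfl
        exact hs K.he.vec_zero
      exact hne (hcon α hα)
    have hfix : ∀ b, ρ (zf b) w = w := fix_of_EE hzf nd2 hψ hall
    have e' : zf (K.vec 0 1 0) * n' = n' * L.lf (M.y (K.vec 1 0 0)) := by
      simp only [zf, hn']
      rw [← map_mul, ← map_mul, X_nW M K]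
    have hy : ρ (L.lf (M.y (K.vec 1 0 0))) u = u := by
      have h5 := hfix (K.vec 0 1 0)
      rw [hw', ← rho_mul, e', rho_mul] at h5
      have h6 := congrArg (ρ n'⁻¹) h5
      rwa [rho_inv_rho, rho_inv_rho] at h6
    have hwu : w = u := by
      rw [hw', hn', nW, map_mul L.lf, map_mul L.lf, rho_mul, rho_mul, hC.hz, hy, hC.hz]
    rw [hwu] at hB
    exact I.self_ne_zero hu hB
  obtain ⟨α, hα, hζ⟩ := h3
  set s : κ' → F := K.vec α 0 0 with hs
  set ζ : V := EE (Q' := Q'') ρ zf ψ s w with hζdef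
  -- `w` and `ζ` are fixed by the root groups `x`.
  have hwU : ∀ b, ρ (L.x b) w = w := by
    intro b
    rw [hw', ← rho_mul, hn', x_lf, rho_mul, hC.hx]
  have hζU : ∀ b, ρ (L.x b) ζ = ζ := fun b => EZ_U L M ρ hwU s b
  -- `E2` acts on `ζ` via `θ`.
  have hE2w : ∀ t', ρ (E2 L M K t') w = θ t' • w := by
    intro t'
    rw [hw', ← rho_mul, hn', E2_nm, rho_mul, hθ, map_smul]
  have hs0 : s ≠ 0 := by
    intro h0
    apply hα
    have := congrFun h0 K.he.p0
    simpa [hs] using this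
  have hζE : ∀ t', ρ (E2 L M K t') ζ = θ t' • ζ := by
    intro t'
    have hf : ∀ b, zf (fS K.swap t' b) * E2 L M K t' = E2 L M K t' * zf b := by
      intro b
      obtain ⟨p, p', c, rfl⟩ := K_coord K.swap b
      rw [fS_vec]
      simp only [zf, HL.swap_vec]
      exact (E2_zz L M K t' p' p c).symm
    have hc : ∀ b, pol Q'' s (fS K.swap t' b) = pol Q'' s b := by
      intro b
      obtain ⟨p, p', c, rfl⟩ := K_coord K.swap b
      rw [fS_vec]
      simp only [HL.swap_vec, hs, M_pol K, pol_zero_left nd3]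
      ring
    have := EE_move hzf nd2 hψ (ρ := ρ) (g := E2 L M K t') (fS K.swap t') hf (c := s) (c' := s) hc w
    rw [hE2w, map_smul] at this
    exact this
  -- The vector `v`.
  set v : V := ρ (nW L M) ζ with hv
  have hv0 : v ≠ 0 := by
    intro h0
    apply hζ
    have := congrArg (ρ (nW L M)⁻¹) h0
    rwa [hv, rho_inv_rho, map_zero] at this
  have hvE1 : ∀ t', ρ (E1 L M K t') v = θ t' • v := by
    intro t'
    rw [hv, ← rho_mul, E1_nW, rho_mul, hζE, map_smul]
  have hvz : ∀ b, ρ (zf b) v = v := by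
    intro b
    rw [hv]
    simp only [zf]
    rw [← rho_mul, zz_nW, rho_mul, hζU]
  have hvw : ∀ p c', ρ (L.x (M.vec p 0 c')) v = ψ (pol Q'' s c') • v := by
    intro p c'
    refine nW_weight L M ρ hζU (fun b => ?_) p c'
    exact x_EE hzf nd2 hψ (ρ := ρ) b s w
  -- The weights of `v`.
  have hc : ∀ c, EE (Q' := Q') ρ L.x ψ c v ≠ 0 → ∃ a, c = M.vec a 0 s := by
    intro c hne
    have hform : ∀ p c', pol Q' c (M.vec p 0 c') = pol Q'' s c' := by
      intro p c'
      refine weight_form hxa nd1 hψ (b := M.vec p 0 c') (l := pol Q'' s c') (fun r => ?_) hne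
      rw [M_smul M, mul_zero, hvw, pol_smul_right nd2]
    obtain ⟨a, a', e, rfl⟩ := M_coord M c
    have ha' : a' = 0 := by
      have := hform 1 0
      rw [M_pol M, pol_zero_right nd2, pol_zero_right nd2] at this
      simpa using this
    have he : e = s := by
      by_contra hne'
      obtain ⟨d, hd⟩ := (nd2.nondegenerate (e - s) (sub_ne_zero.2 hne')).2
      have := hform 0 d
      rw [M_pol M] at this
      apply hd
      show pol Q'' (e - s) d = 0
      rw [pol_sub_left nd2]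
      simp only [mul_zero, add_zero, zero_add] at this
      rw [this, sub_self]
    exact ⟨a, by rw [ha', he]⟩
  -- A weight exists.
  obtain ⟨c₁, hc₁⟩ : ∃ c, EE (Q' := Q') ρ L.x ψ c v ≠ 0 := by
    by_contra hcon
    push Not at hcon
    apply hv0
    rw [← sum_EE_apply hxa nd1 hψ (ρ := ρ) v]
    exact Finset.sum_eq_zero fun c _ => hcon c
  -- The root groups `zf` move weights.
  have hmove : ∀ c b, EE (Q' := Q') ρ L.x ψ c v ≠ 0 →
      EE (Q' := Q') ρ L.x ψ (act (M.x b) c) v ≠ 0 := by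
    intro c b hne h0
    apply hne
    have h4 := EE_move hxa nd1 hψ (ρ := ρ) (g := L.lf (M.x b)) (actE (M.x b))
      (fun b' => x_act_lf L (M.x b) b') (c := c) (c' := act (M.x b) c)
      (fun b' => pol_act (M.x b) c b') v
    have h5 : ρ (L.lf (M.x b)) v = v := hvz b
    rw [h5, h0] at h4
    have h6 := congrArg (ρ (L.lf (M.x b))⁻¹) h4
    rwa [rho_inv_rho, map_zero] at h6
  obtain ⟨a, rfl⟩ := hc c₁ hc₁
  set c₀ : κ → F := M.vec 0 0 s with hc₀
  have hc₀ne : EE (Q' := Q') ρ L.x ψ c₀ v ≠ 0 := by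
    obtain ⟨b₀, hb₀⟩ := (nd2.nondegenerate s hs0).2
    have h6 := hmove _ ((-a / pol Q'' s b₀) • b₀) hc₁
    rw [M.x_vec, pol_smul_right nd2] at h6
    have e1 : a + -a / pol Q'' s b₀ * pol Q'' s b₀ - Q'' ((-a / pol Q'' s b₀) • b₀) * 0 = 0 := by
      field_simp
      ring
    rw [e1, zero_smul, sub_zero] at h6
    exact h6
  set v₁ : V := EE (Q' := Q') ρ L.x ψ c₀ v with hv₁
  have hc₀0 : c₀ ≠ 0 := by
    intro h0
    apply hs0
    have := congrArg M.he.dn h0
    simpa [hc₀] using this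
  have hQs : Q'' s = 0 := by
    rw [hs, M_Q K, Q_zero nd3]
    ring
  have hQc₀ : Q' c₀ = 0 := by
    rw [hc₀, M_Q M, hQs]
    ring
  have hline : finrank ℂ (Vc (Q' := Q') ρ L.x ψ c₀) = 1 := by
    rw [hw c₀ hc₀0, if_pos hQc₀]
  -- `E1 t` acts on `v₁` by `θ t`.
  have hE1v₁ : ρ (E1 L M K t) v₁ = θ t • v₁ := by
    have hf : ∀ b, L.x (((actE (dG M K.swap t)).trans (fS M t)) b) * E1 L M K t = E1 L M K t * L.x b := by
      intro b
      simp only [Equiv.trans_apply]
      rw [E1, mul_assoc, E2_x, ← mul_assoc, ← mul_assoc]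
      congr 1
      show L.x (fS M t (act (dG M K.swap t) b)) * dG L M t = dG L M t * L.x (act (dG M K.swap t) b)
      generalize act (dG M K.swap t) b = b'
      obtain ⟨p, p', c, rfl⟩ := M_coord M b'
      rw [fS_vec, dd_x]
    have hcc : ∀ b, pol Q' c₀ (((actE (dG M K.swap t)).trans (fS M t)) b) = pol Q' c₀ b := by
      intro b
      obtain ⟨p, p', c, rfl⟩ := M_coord M b
      obtain ⟨a₁, a₂, e, rfl⟩ := K_coord K c
      simp only [Equiv.trans_apply]
      show pol Q' c₀ (fS M t (act (dG M K.swap t) (M.vec p p' (K.vec a₁ a₂ e)))) = _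
      rw [AA_vec, fS_vec, hc₀, M_pol M, M_pol M, pol_smul_right nd2, hs, M_pol K, M_pol K,
        pol_zero_left nd3, t_inv]
      have ht : (t : F) ≠ 0 := t.ne_zero
      field_simp
      ring
    have := EE_move hxa nd1 hψ (ρ := ρ) (g := E1 L M K t) ((actE (dG M K.swap t)).trans (fS M t)) hf
      (c := c₀) (c' := c₀) hcc v
    rw [hvE1, map_smul] at this
    exact this
  -- The highest-weight line.
  have hP0 : M.he.P0 ≠ 0 := by
    intro h0
    have := congrFun h0 M.he.p0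
    simp at this
  have hQP0 : Q' M.he.P0 = 0 := M.he.Q_P0 M.nd'
  have hlineP : finrank ℂ (Vc (Q' := Q') ρ L.x ψ M.he.P0) = 1 := by
    rw [hw _ hP0, if_pos hQP0]
  obtain ⟨v₀, hv₀, hv₀0⟩ : ∃ v₀ ∈ Vc (Q' := Q') ρ L.x ψ M.he.P0, v₀ ≠ 0 := by
    have h7 : Vc (Q' := Q') ρ L.x ψ M.he.P0 ≠ ⊥ := by
      intro h8
      rw [h8, finrank_bot] at hlineP
      exact zero_ne_one hlineP
    exact Submodule.exists_mem_ne_zero_of_ne_bot h7
  -- The move.
  set r : Fˣ := Units.mk0 (-α⁻¹) (neg_ne_zero.2 (inv_ne_zero hα)) with hr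
  have hrα : (r : F) * α = -1 := by
    rw [hr, Units.val_mk0]
    field_simp
  -- first step
  have hstep1 : ρ n' v₀ ∈ Vc (Q' := Q') ρ L.x ψ (M.vec 0 0 (K.vec (-1) 0 0)) := by
    have h8 : act (nW M K) M.he.P0 = M.vec 0 0 (K.vec (-1) 0 0) := by
      have h9 := nW_vec M K 1 0 0 0 (0 : κ'' → F)
      have h10 : (K.vec 0 0 0 : κ' → F) = 0 := K.he.vec_zero
      rw [h10] at h9
      rw [HE.P0, h9]
      simp
    rw [← h8]
    refine Vc_move hxa nd1 hψ (f := act (nW M K)⁻¹) (fun b => ?_) (fun b => ?_) hv₀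
    · exact x_lf L _ b
    · have := pol_act (nW M K) M.he.P0 (act (nW M K)⁻¹ b)
      rw [act_act_inv] at this
      exact this.symm
  have hstep2 : ρ (dG L M.swap r) (ρ n' v₀) ∈ Vc (Q' := Q') ρ L.x ψ c₀ := by
    refine Vc_move hxa nd1 hψ (f := (fS M.swap r).symm) (fun b => ?_) (fun b => ?_) hstep1
    · have h9 : ∀ y, L.x (fS M.swap r y) * dG L M.swap r = dG L M.swap r * L.x y := by
        intro y
        obtain ⟨p, p', c, rfl⟩ := M_coord M.swap y
        rw [fS_vec]
        simp only [HL.swap_vec]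
        exact (AA_x L M r p' p c).symm
      have h10 := h9 ((fS M.swap r).symm b)
      rwa [Equiv.apply_symm_apply] at h10
    · have h9 : ∀ y, pol Q' (M.vec 0 0 (K.vec (-1) 0 0)) y = pol Q' c₀ (fS M.swap r y) := by
        intro y
        obtain ⟨p, p', c, rfl⟩ := M_coord M.swap y
        rw [fS_vec]
        simp only [HL.swap_vec]
        rw [hc₀, M_pol M, M_pol M, pol_smul_right nd2, ← pol_smul_left nd2, hs, M_smul K]
        simp only [zero_mul, add_zero, mul_zero, smul_zero, hrα]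
      have h10 := h9 ((fS M.swap r).symm b)
      rwa [Equiv.apply_symm_apply] at h10
  set y : V := ρ (dG L M.swap r) (ρ n' v₀) with hy
  have hy0 : y ≠ 0 := by
    intro h0
    apply hv₀0
    have h8 := congrArg (ρ (dG L M.swap r)⁻¹) h0
    rw [hy, rho_inv_rho, map_zero] at h8
    have h9 := congrArg (ρ n'⁻¹) h8
    rwa [rho_inv_rho, map_zero] at h9
  have hE1y : ρ (E1 L M K t) y = lam t • y := by
    rw [hy, ← rho_mul, E1_AA, rho_mul, ← rho_mul (R := ρ) (E1 L M K t) n', hn', E1_nm, rho_mul,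
      hlam t v₀ hv₀, map_smul, map_smul]
  -- conclude
  have hv₁mem : v₁ ∈ Vc (Q' := Q') ρ L.x ψ c₀ := EE_mem nd1 hψ hxa c₀ v
  have hyne : (⟨y, hstep2⟩ : Vc (Q' := Q') ρ L.x ψ c₀) ≠ 0 := by
    intro h0
    exact hy0 (congrArg Subtype.val h0)
  obtain ⟨k, hk⟩ := (finrank_eq_one_iff_of_nonzero' _ hyne).1 hline ⟨v₁, hv₁mem⟩
  have hk' : k • y = v₁ := congrArg Subtype.val hk
  have h11 : (θ t - lam t) • v₁ = 0 := by
    rw [sub_smul, ← hE1v₁, ← hk', map_smul, hE1y, smul_comm, sub_self]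
  rcases smul_eq_zero.1 h11 with h12 | h12
  · exact sub_eq_zero.1 h12
  · exact absurd h12 hc₀ne

end Cfsg.Agent.Lib.OddDeg
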