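import Cfsg.Agent.Lib.OddDeg.Move

/-!
The action of the stabiliser of a singular weight on a one-dimensional weight space.
-/

set_option autoImplicit false
set_option linter.unusedSectionVars false
set_option linter.unusedVariables false
set_option linter.unusedSimpArgs false
set_option linter.ambiguousOpen false

namespace Cfsg.Agent.Lib.OddDeg

open Matrix Module Cfsg Cfsg.Geo
open Cfsg.Agent.Lib.Geo.Basic Cfsg.Agent.Lib.Geo.QForm Cfsg.Agent.Lib.QuadFn
open Cfsg.Agent.Lib.GeoOmega.Basic Cfsg.Agent.Lib.GeoOmega.Eichler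
open Cfsg.Agent.Lib.WtSpace.Basic Cfsg.Agent.Lib.MinDeg.Wt
open Cfsg.Agent.Lib.MinDeg Cfsg.Agent.Lib.MinDeg.Hyp Cfsg.Agent.Lib.Classical.MatrixBridge
open scoped _root_.Classical MatrixGroups

section Abs

variable {G : Type*} [Group G] {V : Type*} [AddCommGroup V] [Module ℂ V] (R : Representation ℂ G V)
  {S : Submodule ℂ V} (hS : finrank ℂ S = 1)

include hS

/-- An operator preserving a line is a scalar on it. -/
lemma scal_of_stable (g : G) (h : ∀ w ∈ S, R g w ∈ S) : ∃ t : ℂ, ∀ w ∈ S, R g w = t • w := by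
  obtain ⟨u, hu⟩ := finrank_eq_one_iff'.1 hS |>.imp fun u hu => hu.2
  obtain ⟨t, ht⟩ := hu ⟨R g u, h _ u.2⟩
  refine ⟨t, fun w hw => ?_⟩
  obtain ⟨s, hs⟩ := hu ⟨w, hw⟩
  have hs' : s • (u : V) = w := congrArg Subtype.val hs
  have ht' : t • (u : V) = R g u := congrArg Subtype.val ht
  rw [← hs', map_smul, ← ht', smul_comm]

lemma scal_ne_zero {g : G} {t : ℂ} {v : V} (hv : v ≠ 0) (h : R g v = t • v) : t ≠ 0 := by
  rintro rfl
  apply hv
  have := rho_inv_rho R g v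
  rw [h, zero_smul, map_zero] at this
  exact this.symm

/-- A scaled homomorphism acts trivially on a line stable under everything. -/
lemma fix_of_scale {F A : Type*} [Field F] [AddCommGroup A] [Module F A] {X : A → G}
    (hX : ∀ a b, X (a + b) = X a * X b) {g : G} (hXS : ∀ a, ∀ w ∈ S, R (X a) w ∈ S)
    (hg : ∀ w ∈ S, R g w ∈ S) {r : F} (hr : r ≠ 1) (hrel : ∀ a, g * X a = X (r • a) * g)
    {v : V} (hv : v ∈ S) (a : A) : R (X a) v = v := by
  by_cases hv0 : v = 0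
  · rw [hv0, map_zero]
  have hr1 : r - 1 ≠ 0 := sub_ne_zero.2 hr
  set a' : A := (r - 1)⁻¹ • a with ha'
  have h1 : r • a' = a + a' := by
    have h2 : r • a' = ((r - 1) + 1) • a' := by rw [sub_add_cancel]
    rw [h2, add_smul, one_smul, ha', smul_smul, mul_inv_cancel₀ hr1, one_smul]
  obtain ⟨τ, hτ⟩ := scal_of_stable R hS g hg
  obtain ⟨c, hc⟩ := scal_of_stable R hS (X a') (hXS a')
  have hτ0 : τ ≠ 0 := scal_ne_zero R hS hv0 (hτ v hv)
  have hc0 : c ≠ 0 := scal_ne_zero R hS hv0 (hc v hv)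
  have h3 := congrArg (fun γ => R γ v) (hrel a')
  simp only [h1, hX, rho_mul] at h3
  rw [hc v hv, hτ v hv, map_smul, hτ v hv, map_smul, map_smul, hc v hv, map_smul, smul_smul, smul_smul] at h3
  rw [mul_comm c τ] at h3
  exact (smul_right_injective V (mul_ne_zero hτ0 hc0) h3).symm

end Abs

variable {ι κ κ' κ'' : Type} [Fintype ι] [DecidableEq ι] [Fintype κ] [DecidableEq κ] [Fintype κ'] [DecidableEq κ']
  [Fintype κ''] [DecidableEq κ''] {F : Type*} [Field F] [Fintype F]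
  {Q : (ι → F) → F} {Q' : (κ → F) → F} {Q'' : (κ' → F) → F} {Q''' : (κ'' → F) → F}

variable (L : HL Q Q') (M : HL Q' Q'') (K : HL Q'' Q''')
  {V : Type*} [AddCommGroup V] [Module ℂ V] [FiniteDimensional ℂ V] (ρ : Representation ℂ (Omega F Q) V)
  {ψ : AddChar F ℂ} (hψ : ψ 1 ≠ 1)

lemma act_x_P0 (b : κ' → F) : act (M.x b) M.he.P0 = M.he.P0 := by
  have nd2 := M.nd'
  rw [HE.P0, M.x_vec, pol_zero_left nd2]
  simp

lemma act_lf_P0 (g : Omega F Q'') : act (M.lf g) M.he.P0 = M.he.P0 := by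
  rw [HE.P0, M.lf_vec, act_zero']

include hψ

/-- Elements fixing the weight `P0` preserve its weight space. -/
lemma line_stable_lf (g₀ : Omega F Q') (hg : act g₀ M.he.P0 = M.he.P0) {v : V}
    (hv : v ∈ Vc (Q' := Q') ρ L.x ψ M.he.P0) : ρ (L.lf g₀) v ∈ Vc (Q' := Q') ρ L.x ψ M.he.P0 := by
  have hg' : act g₀⁻¹ M.he.P0 = M.he.P0 := by
    conv_lhs => rw [← hg]
    exact act_inv_act g₀ _
  refine Vc_move (ρ := ρ) L.x_add L.nd' hψ (g := L.lf g₀) (f := act g₀⁻¹) ?_ ?_ hv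
  · intro b
    have h := L.lf_x g₀⁻¹ b
    rw [← h, map_inv, inv_inv]
    group
  · intro b
    have h1 := pol_isometry g₀⁻¹.1.1 g₀⁻¹.1.2 M.he.P0 b
    change pol Q' (act g₀⁻¹ M.he.P0) (act g₀⁻¹ b) = _ at h1
    rw [hg'] at h1
    exact h1

/-- The torus `AA t` preserves the weight space of `P0`. -/
lemma line_stable_AA (t : Fˣ) {v : V}
    (hv : v ∈ Vc (Q' := Q') ρ L.x ψ M.he.P0) : ρ (dG L M.swap t) v ∈ Vc (Q' := Q') ρ L.x ψ M.he.P0 := by
  refine Vc_move (ρ := ρ) L.x_add L.nd' hψ (g := dG L M.swap t)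
    (f := fun b => M.vec (((t⁻¹ : Fˣ) : F) ^ 2 * b M.he.p0) (b M.he.p1) (((t⁻¹ : Fˣ) : F) • M.he.dn b)) ?_ ?_ hv
  · intro b
    obtain ⟨p, p', c, rfl⟩ := M_coord M b
    have h := rel_conv (AA_x L M t⁻¹ p p' c) (dG_mul_inv L M.swap t)
    simpa using h
  · intro b
    obtain ⟨p, p', c, rfl⟩ := M_coord M b
    have nd2 := M.nd'
    rw [HE.P0, M_pol M, M_pol M]
    simp [pol_zero_left nd2]

variable {L M K ρ}

/-- The torus acts by a character on the line. -/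
theorem line_scalar (hc1 : finrank ℂ (Vc (Q' := Q') ρ L.x ψ M.he.P0) = 1) :
    ∃ lam : Fˣ → ℂ, (∀ t, ∀ v ∈ Vc (Q' := Q') ρ L.x ψ M.he.P0, ρ (dG L M.swap t) v = lam t • v) ∧
      ∀ s t, lam (s * t) = lam s * lam t := by
  choose lam hlam using fun t : Fˣ => scal_of_stable ρ hc1 (dG L M.swap t)
    (fun w hw => line_stable_AA L M ρ hψ t hw)
  refine ⟨lam, hlam, fun s t => ?_⟩
  obtain ⟨u, hu⟩ := finrank_eq_one_iff'.1 hc1
  have hu0 : (u : V) ≠ 0 := by
    intro h0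
    exact hu.1 (Subtype.ext h0)
  have h1 := hlam (s * t) u u.2
  rw [dG_mul, rho_mul, hlam t u u.2, map_smul, hlam s u u.2, smul_smul] at h1
  have h2 : (lam t * lam s - lam (s * t)) • (u : V) = 0 := by
    rw [sub_smul, h1, sub_self]
  have h3 := (smul_eq_zero.1 h2).resolve_right hu0
  linear_combination -h3

/-- The central Eichler group acts trivially on the line. -/
theorem line_zz (hc1 : finrank ℂ (Vc (Q' := Q') ρ L.x ψ M.he.P0) = 1) {v₀ : V}
    (hv : v₀ ∈ Vc (Q' := Q') ρ L.x ψ M.he.P0) (b : κ' → F) : ρ (L.lf (M.x b)) v₀ = v₀ := by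
  obtain ⟨t, ht⟩ := HL.exists_unit_ne L.hq
  have ht' : (t : F) ≠ 1 := fun h => ht (Units.ext h)
  refine fix_of_scale ρ hc1 (F := F) (X := fun b => L.lf (M.x b)) (fun a b => by simp only [M.x_add, map_mul])
    (fun a w hw => line_stable_lf L M ρ hψ _ (act_x_P0 M a) hw)
    (fun w hw => line_stable_AA L M ρ hψ t hw) ht' (fun a => AA_zz L M t a) hv b

/-- The Eichler group of the third plane acts trivially on the line. -/
theorem line_k1 (ht : ∃ t : Fˣ, (t : F) ^ 2 ≠ 1) (hc1 : finrank ℂ (Vc (Q' := Q') ρ L.x ψ M.he.P0) = 1) {v₀ : V}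
    (hv : v₀ ∈ Vc (Q' := Q') ρ L.x ψ M.he.P0) (c : κ'' → F) : ρ (L.lf (M.lf (K.x c))) v₀ = v₀ := by
  obtain ⟨s, hs⟩ := ht
  have hfix : act (dG M K.swap s * dG M K s⁻¹) M.he.P0 = M.he.P0 := by
    have h0 : M.he.P0 = M.vec 1 0 (K.vec 0 0 0) := by
      rw [HE.P0]
      congr 1
      exact K.he.vec_zero.symm
    rw [h0, act_mul, dG_vec, AA_vec]
    simp [t_inv]
  refine fix_of_scale ρ hc1 (F := F) (X := fun c => L.lf (M.lf (K.x c))) (g := L.lf (dG M K.swap s * dG M K s⁻¹)) ?_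
    (fun a w hw => line_stable_lf L M ρ hψ _ (act_lf_P0 M _) hw)
    (fun w hw => line_stable_lf L M ρ hψ _ hfix hw) hs ?_ hv c
  · intro a b
    rw [K.x_add, map_mul, map_mul]
  · intro a
    rw [← map_mul, ← map_mul]
    congr 1
    rw [mul_assoc, dd_zz M K s⁻¹ a, ← mul_assoc, AA_zz M K s, mul_assoc, inv_inv]
    simp only [inv_inv, smul_smul, pow_two]

/-- The opposite Eichler group of the third plane acts trivially on the line. -/
theorem line_k2 (ht : ∃ t : Fˣ, (t : F) ^ 2 ≠ 1) (hc1 : finrank ℂ (Vc (Q' := Q') ρ L.x ψ M.he.P0) = 1) {v₀ : V}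
    (hv : v₀ ∈ Vc (Q' := Q') ρ L.x ψ M.he.P0) (c : κ'' → F) : ρ (L.lf (M.lf (K.y c))) v₀ = v₀ :=
  line_k1 (K := K.swap) hψ ht hc1 hv c

end Cfsg.Agent.Lib.OddDeg
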