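import Cfsg.Agent.Lib.OddDeg.Tower
import Cfsg.Agent.Lib.OddDeg.ALemma

/-!
The vector `wX u = ∑ r, x (M.vec 0 r 0) (n u)`: it is nonzero, and lies again in the space of fixed vectors of the
tower, with the torus eigenvalues changed.
-/

set_option autoImplicit false
set_option linter.unusedSectionVars false
set_option linter.unusedVariables false
set_option linter.unusedSimpArgs false
set_option linter.ambiguousOpen false

namespace Cfsg.Agent.Lib.OddDeg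

open Matrix Module Cfsg Cfsg.Geo
open Cfsg.Agent.Lib.Geo.Basic Cfsg.Agent.Lib.Geo.QForm Cfsg.Agent.Lib.QuadFn
open Cfsg.Agent.Lib.GeoOmega.Basic Cfsg.Agent.Lib.GeoOmega.Eichler
open Cfsg.Agent.Lib.MinDeg Cfsg.Agent.Lib.MinDeg.Hyp Cfsg.Agent.Lib.Classical.MatrixBridge
open scoped MatrixGroups

variable {ι κ κ' κ'' : Type} [Fintype ι] [DecidableEq ι] [Fintype κ] [DecidableEq κ] [Fintype κ'] [DecidableEq κ']
  [Fintype κ''] [DecidableEq κ''] {F : Type*} [Field F] [Fintype F]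
  {Q : (ι → F) → F} {Q' : (κ → F) → F} {Q'' : (κ' → F) → F} {Q''' : (κ'' → F) → F}

variable (L : HL Q Q') (M : HL Q' Q'') (K : HL Q'' Q''')
  {V : Type*} [AddCommGroup V] [Module ℂ V] (ρ : Representation ℂ (Omega F Q) V)

/-- The sum of the translates of the image of `u` under the Weyl element. -/
noncomputable def wX (u : V) : V := ∑ r : F, ρ (L.x (M.vec 0 r 0)) (ρ (nW L M) u)

lemma wX_add_x (r s : F) : L.x (M.vec 0 (r + s) 0) = L.x (M.vec 0 r 0) * L.x (M.vec 0 s 0) := by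
  rw [← L.x_add, M_add]
  simp

theorem wX_ne (I : IH ρ) {u : V} (hu : u ≠ 0) (hfix : ∀ r, ρ (L.x (M.vec 0 r 0)) u = u)
    {χd : Fˣ → ℂ} (hd : ∀ t, ρ (dG L M t) u = χd t • u) : wX L M ρ u ≠ 0 :=
  A_lemma I (fun r => L.x (M.vec 0 r 0)) (wX_add_x L M) (nW L M) (dG L M) (nW_rel L M) hu hfix χd hd

/-- The elements `x (M.vec p 0 c')` fix the image of `u` under the Weyl element. -/
lemma x_mid_fix {u : V} (hx : ∀ b, ρ (L.x b) u = u) (hz : ∀ b, ρ (L.lf (M.x b)) u = u) (p : F) (c' : κ' → F) :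
    ρ (L.x (M.vec p 0 c')) (ρ (nW L M) u) = ρ (nW L M) u := by
  rw [← rho_mul, nW_x_mid, rho_mul, rho_mul, hz, hx]

lemma x_split (p p' : F) (c' : κ' → F) :
    L.x (M.vec p p' c') = L.x (M.vec 0 p' 0) * L.x (M.vec p 0 c') := by
  rw [← L.x_add, M_add]
  simp

lemma x_split' (p p' : F) (c' : κ' → F) :
    L.x (M.vec p p' c') = L.x (M.vec p 0 c') * L.x (M.vec 0 p' 0) := by
  rw [L.x_comm, ← x_split]

lemma wX_fix_x {u : V} (hx : ∀ b, ρ (L.x b) u = u) (hz : ∀ b, ρ (L.lf (M.x b)) u = u) (b : κ → F) :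
    ρ (L.x b) (wX L M ρ u) = wX L M ρ u := by
  obtain ⟨p, p', c', rfl⟩ := M_coord M b
  unfold wX
  rw [map_sum]
  have h1 : ∀ r : F, ρ (L.x (M.vec p p' c')) (ρ (L.x (M.vec 0 r 0)) (ρ (nW L M) u)) =
      ρ (L.x (M.vec 0 (p' + r) 0)) (ρ (nW L M) u) := by
    intro r
    rw [← rho_mul, wX_add_x, x_split L M p p' c', mul_assoc, L.x_comm (M.vec p 0 c'), ← mul_assoc, rho_mul,
      x_mid_fix L M ρ hx hz]
  simp only [h1]
  exact Equiv.sum_comp (Equiv.addLeft p') (fun r => ρ (L.x (M.vec 0 r 0)) (ρ (nW L M) u))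

lemma act_x_mid (b : κ' → F) (r : F) : act (M.x b) (M.vec 0 r 0) = M.vec (- (Q'' b * r)) r (- (r • b)) := by
  rw [HL.x_vec, pol_zero_left M.nd']
  simp

lemma wX_fix_z {u : V} (hx : ∀ b, ρ (L.x b) u = u) (hz : ∀ b, ρ (L.lf (M.x b)) u = u) (b : κ' → F) :
    ρ (L.lf (M.x b)) (wX L M ρ u) = wX L M ρ u := by
  unfold wX
  rw [map_sum]
  refine Finset.sum_congr rfl fun r _ => ?_
  have h1 : L.lf (M.x b) * L.x (M.vec 0 r 0) = L.x (act (M.x b) (M.vec 0 r 0)) * L.lf (M.x b) := by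
    have h := L.lf_x (M.x b) (M.vec 0 r 0)
    rw [mul_inv_eq_iff_eq_mul] at h
    exact h
  have h2 : ρ (L.lf (M.x b)) (ρ (nW L M) u) = ρ (nW L M) u := by
    rw [← rho_mul, zz_nW, rho_mul, hx]
  rw [← rho_mul, h1, rho_mul, h2, act_x_mid, x_split L M, rho_mul, x_mid_fix L M ρ hx hz]

lemma wX_fix_k {u : V} (g : Omega F Q'') (h : ρ (L.lf (M.lf g)) u = u) :
    ρ (L.lf (M.lf g)) (wX L M ρ u) = wX L M ρ u := by
  unfold wX
  rw [map_sum]
  refine Finset.sum_congr rfl fun r _ => ?_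
  rw [← rho_mul, lfl_x, rho_mul, ← rho_mul (g := L.lf (M.lf g)), lfl_nW, rho_mul, h]

theorem wX_inC {u : V} (hC : InC L M K ρ u) : InC L M K ρ (wX L M ρ u) :=
  ⟨wX_fix_x L M ρ hC.hx hC.hz, wX_fix_z L M ρ hC.hx hC.hz, fun c => wX_fix_k L M ρ _ (hC.k1 c),
    fun c => wX_fix_k L M ρ _ (hC.k2 c)⟩

lemma wX_dd {u : V} {c : ℂ} (t : Fˣ) (h : ρ (dG L M t⁻¹) u = c • u) :
    ρ (dG L M t) (wX L M ρ u) = c • wX L M ρ u := by
  unfold wX
  rw [map_sum, Finset.smul_sum]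
  have h1 : ∀ r : F, ρ (dG L M t) (ρ (L.x (M.vec 0 r 0)) (ρ (nW L M) u)) =
      c • ρ (L.x (M.vec 0 ((t : F) ^ 2 * r) 0)) (ρ (nW L M) u) := by
    intro r
    have e := dd_x L M t 0 r 0
    rw [smul_zero] at e
    rw [← rho_mul, e, rho_mul, ← rho_mul (g := dG L M t), dd_nW, rho_mul, h, map_smul, map_smul]
  simp only [h1]
  exact Equiv.sum_comp (Equiv.mulLeft₀ ((t : F) ^ 2) (pow_ne_zero 2 t.ne_zero))
    (fun r => c • ρ (L.x (M.vec 0 r 0)) (ρ (nW L M) u))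

lemma wX_AA {u : V} {c : ℂ} (t : Fˣ) (h : ρ (dG L M.swap t) u = c • u) :
    ρ (dG L M.swap t) (wX L M ρ u) = c • wX L M ρ u := by
  unfold wX
  rw [map_sum, Finset.smul_sum]
  refine Finset.sum_congr rfl fun r _ => ?_
  have e := AA_x L M t 0 r 0
  rw [smul_zero, mul_zero] at e
  rw [← rho_mul, e, rho_mul, ← rho_mul (g := dG L M.swap t), AA_nW, rho_mul, h, map_smul, map_smul]

lemma act_AA_mid (t : Fˣ) (r : F) : act (dG M K.swap t) (M.vec 0 r 0) = M.vec 0 (((t⁻¹ : Fˣ) : F) * r) 0 := by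
  have hz : K.vec (0 : F) 0 (0 : κ'' → F) = 0 := by
    have h := M_smul K 0 0 0 (0 : κ'' → F)
    simpa using h.symm
  have h := AA_vec M K t 0 r 0 0 0
  simpa [hz] using h

lemma wX_E2 {u : V} {c : ℂ} (t : Fˣ) (h : ρ (E1 L M K t) u = c • u) :
    ρ (E2 L M K t) (wX L M ρ u) = c • wX L M ρ u := by
  unfold wX
  rw [map_sum, Finset.smul_sum]
  have h1 : ∀ r : F, ρ (E2 L M K t) (ρ (L.x (M.vec 0 r 0)) (ρ (nW L M) u)) =
      c • ρ (L.x (M.vec 0 (((t⁻¹ : Fˣ) : F) * r) 0)) (ρ (nW L M) u) := by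
    intro r
    have e := E2_x L M K t (M.vec 0 r 0)
    rw [act_AA_mid] at e
    rw [← rho_mul, e, rho_mul, ← rho_mul (g := E2 L M K t), E2_nW, rho_mul, h, map_smul, map_smul]
  simp only [h1]
  exact Equiv.sum_comp (Equiv.mulLeft₀ ((t⁻¹ : Fˣ) : F) (Units.ne_zero _))
    (fun r => c • ρ (L.x (M.vec 0 r 0)) (ρ (nW L M) u))

theorem wX_TE {u : V} {χd χA θ : Fˣ → ℂ} (hT : TE L M K ρ u χd χA θ) :
    TE L M K ρ (wX L M ρ u) (fun t => χd t⁻¹) χA (fun t => χd t * θ t) := by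
  refine ⟨fun t => wX_dd L M ρ t (hT.hd t⁻¹), fun t => wX_AA L M ρ t (hT.hA t), fun t => wX_E2 L M K ρ t ?_⟩
  rw [E1, rho_mul, hT.hE, map_smul, hT.hd, smul_smul, mul_comm]

end Cfsg.Agent.Lib.OddDeg
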