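import Cfsg.Agent.Lib.OddDeg.Form
import Cfsg.Agent.Lib.MinDeg.Wt

/-!
The weight projections of an elementary abelian group are orthogonal for an invariant Hermitian form.
-/

set_option autoImplicit false
set_option linter.unusedSectionVars false
set_option linter.unusedVariables false
set_option linter.unusedSimpArgs false
set_option linter.ambiguousOpen false

namespace Cfsg.Agent.Lib.OddDeg

open Matrix Module Cfsg Cfsg.Geo
open Cfsg.Agent.Lib.Geo.Basic Cfsg.Agent.Lib.Geo.QForm Cfsg.Agent.Lib.QuadFn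
open Cfsg.Agent.Lib.GeoOmega.Basic Cfsg.Agent.Lib.GeoOmega.Eichler
open Cfsg.Agent.Lib.WtSpace.Basic Cfsg.Agent.Lib.MinDeg.Wt
open scoped _root_.Classical MatrixGroups

variable {κ : Type} [Fintype κ] [DecidableEq κ] {F : Type*} [Field F] [Fintype F] {Q' : (κ → F) → F}
  {G : Type*} [Group G] {V : Type*} [AddCommGroup V] [Module ℂ V] [FiniteDimensional ℂ V]
  {ρ : Representation ℂ G V} (I : IH ρ) {x : (κ → F) → G} (hx : ∀ b b', x (b + b') = x b * x b')
  (hQ' : IsNondegenerateQuadraticForm Q') {ψ : AddChar F ℂ} (hψ : ψ 1 ≠ 1)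

omit [FiniteDimensional ℂ V] in
include hx in
lemma x_neg_aux (a : κ → F) : x (-a) = (x a)⁻¹ := by
  have h0 : x 0 = 1 := by
    have := hx 0 0
    rw [add_zero] at this
    exact mul_eq_left.mp this.symm
  have := hx (-a) a
  rw [neg_add_cancel, h0] at this
  exact eq_inv_of_mul_eq_one_left this.symm

lemma EE_apply_aux (c : κ → F) (v : V) :
    EE (Q' := Q') ρ x ψ c v =
      ((Fintype.card (κ → F) : ℂ)⁻¹) • ∑ a : κ → F, pc ψ Q' c (-a) • ρ (x a) v := by
  simp only [EE, ee, LinearMap.smul_apply, LinearMap.sum_apply, tau]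

include I hx hQ' hψ

/-- The projections are self-adjoint. -/
theorem EE_adj (c : κ → F) (u w : V) :
    I.B (EE (Q' := Q') ρ x ψ c u) w = I.B u (EE (Q' := Q') ρ x ψ c w) := by
  rw [EE_apply_aux, EE_apply_aux, I.smul_left, I.smul_right, I.sum_left, I.sum_right]
  have hstar : star (((Fintype.card (κ → F) : ℂ))⁻¹) = ((Fintype.card (κ → F) : ℂ))⁻¹ := by
    simp
  rw [hstar]
  congr 1
  have h := Equiv.sum_comp (Equiv.neg (κ → F)) (fun a => I.B u (pc ψ Q' c (-a) • ρ (x a) w))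
  rw [← h]
  refine Finset.sum_congr rfl fun a _ => ?_
  simp only [Equiv.neg_apply, neg_neg]
  rw [I.smul_left, I.smul_right, I.adj, ← x_neg_aux hx]
  congr 1
  simp only [pc]
  rw [pol_neg_right hQ', AddChar.map_neg_eq_conj]
  rfl

/-- Projections on different weights are orthogonal. -/
theorem EE_orth {c c' : κ → F} (h : c ≠ c') (u w : V) :
    I.B (EE (Q' := Q') ρ x ψ c u) (EE (Q' := Q') ρ x ψ c' w) = 0 := by
  rw [EE_adj I hx hQ' hψ, EE_of_mem hQ' hψ hx h (EE_mem hQ' hψ hx c' w), I.zero_right]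

/-- The value of the Hermitian form in terms of the weight components. -/
theorem B_x_expand (b : κ → F) (v : V) :
    I.B (ρ (x b) v) v = ∑ c, ψ (pol Q' c b) * I.B (EE (Q' := Q') ρ x ψ c v) (EE (Q' := Q') ρ x ψ c v) := by
  have h1 : ∀ y : V, y = ∑ c, EE (Q' := Q') ρ x ψ c y := by
    intro y
    have h2 := sum_EE (ρ := ρ) (x := x) (ψ := ψ) hQ' hψ hx
    have h3 := congrArg (fun T : Module.End ℂ V => T y) h2
    simpa [LinearMap.sum_apply] using h3.symm
  have h2 : ∀ c, ρ (x b) (EE (Q' := Q') ρ x ψ c v) = ψ (pol Q' c b) • EE (Q' := Q') ρ x ψ c v := by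
    intro c
    exact (mem_Vc hQ' hψ hx).1 (EE_mem hQ' hψ hx c v) b
  have h3 : ρ (x b) v = ∑ c, ψ (pol Q' c b) • EE (Q' := Q') ρ x ψ c v := by
    calc ρ (x b) v = ρ (x b) (∑ c, EE (Q' := Q') ρ x ψ c v) := by rw [← h1 v]
      _ = ∑ c, ρ (x b) (EE (Q' := Q') ρ x ψ c v) := map_sum _ _ _
      _ = _ := Finset.sum_congr rfl fun c _ => h2 c
  rw [h3, I.sum_left]
  refine Finset.sum_congr rfl fun c _ => ?_
  rw [I.smul_left]
  congr 1
  calc I.B (EE (Q' := Q') ρ x ψ c v) v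
      = I.B (EE (Q' := Q') ρ x ψ c v) (∑ c', EE (Q' := Q') ρ x ψ c' v) := by rw [← h1 v]
    _ = _ := by
      rw [I.sum_right, Finset.sum_eq_single c]
      · intro c' _ hc'
        exact EE_orth I hx hQ' hψ hc'.symm v v
      · simp

/-- Normalising elements move the projections. -/
theorem rho_EE {γ : G} {A : GL κ F} (hA : A ∈ isometryGroup F Q') (hγ : ∀ b, γ * x b * γ⁻¹ = x (A.1 *ᵥ b))
    (c : κ → F) (v : V) :
    ρ γ (EE (Q' := Q') ρ x ψ c v) = EE (Q' := Q') ρ x ψ (A.1 *ᵥ c) (ρ γ v) := by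
  have h1 : ∀ y : V, y = ∑ c, EE (Q' := Q') ρ x ψ c y := by
    intro y
    have h2 := sum_EE (ρ := ρ) (x := x) (ψ := ψ) hQ' hψ hx
    have h3 := congrArg (fun T : Module.End ℂ V => T y) h2
    simpa [LinearMap.sum_apply] using h3.symm
  have hinj : ∀ c c' : κ → F, A.1 *ᵥ c = A.1 *ᵥ c' → c = c' := by
    intro c c' h
    have := congrArg (fun y => (A⁻¹).1 *ᵥ y) h
    simpa [inv_mulVec_mulVec] using this
  have h4 : EE (Q' := Q') ρ x ψ (A.1 *ᵥ c) (ρ γ v)
      = ∑ c', EE (Q' := Q') ρ x ψ (A.1 *ᵥ c) (ρ γ (EE (Q' := Q') ρ x ψ c' v)) := by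
    rw [← map_sum, ← map_sum, ← h1 v]
  rw [h4, Finset.sum_eq_single c]
  · have hid := EE_idem (ρ := ρ) (x := x) (ψ := ψ) (Q' := Q') hQ' hψ hx (A.1 *ᵥ c)
    obtain ⟨y, hy⟩ := move_mem hQ' hψ hx hA hγ (EE_mem hQ' hψ hx c v)
    rw [← hy]
    have := congrArg (fun T : Module.End ℂ V => T y) hid
    exact this.symm
  · intro c' _ hc'
    exact EE_of_mem hQ' hψ hx (fun h => hc' (hinj _ _ h).symm) (move_mem hQ' hψ hx hA hγ (EE_mem hQ' hψ hx c' v))
  · simp

end Cfsg.Agent.Lib.OddDeg
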