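import Cfsg.Agent.Lib.OddDeg.Tower
import Cfsg.Agent.Lib.OddDeg.Proj

/-!
Moving weight spaces and weight projections by elements normalising an elementary abelian group.
-/

set_option autoImplicit false
set_option linter.unusedSectionVars false
set_option linter.unusedVariables false
set_option linter.unusedSimpArgs false
set_option linter.ambiguousOpen false

namespace Cfsg.Agent.Lib.OddDeg

open Matrix Module Cfsg Cfsg.Geo
open Cfsg.Agent.Lib.Geo.Basic Cfsg.Agent.Lib.Geo.QForm Cfsg.Agent.Lib.QuadFn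
open Cfsg.Agent.Lib.GeoOmega.Basic Cfsg.Agent.Lib.GeoOmega.Eichler
open Cfsg.Agent.Lib.WtSpace.Basic Cfsg.Agent.Lib.MinDeg.Wt
open scoped _root_.Classical MatrixGroups

variable {κ : Type} [Fintype κ] [DecidableEq κ] {F : Type*} [Field F] [Fintype F] {Q' : (κ → F) → F}
  {G : Type*} [Group G] {V : Type*} [AddCommGroup V] [Module ℂ V] [FiniteDimensional ℂ V]
  {ρ : Representation ℂ G V} {x : (κ → F) → G} (hx : ∀ b b', x (b + b') = x b * x b')
  (hQ' : IsNondegenerateQuadraticForm Q') {ψ : AddChar F ℂ} (hψ : ψ 1 ≠ 1)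

include hx hQ' hψ

/-- Weight spaces are moved by normalising elements. -/
theorem Vc_move {g : G} {f : (κ → F) → (κ → F)} (hf : ∀ b, x b * g = g * x (f b)) {c c' : κ → F}
    (hc : ∀ b, pol Q' c (f b) = pol Q' c' b) {v : V} (hv : v ∈ Vc (Q' := Q') ρ x ψ c) :
    ρ g v ∈ Vc (Q' := Q') ρ x ψ c' := by
  rw [mem_Vc hQ' hψ hx] at hv ⊢
  intro b
  rw [← rho_mul, hf, rho_mul, hv, map_smul, hc]

/-- Weight projections are moved by normalising elements. -/
theorem EE_move {g : G} (f : (κ → F) ≃ (κ → F)) (hf : ∀ b, x (f b) * g = g * x b) {c c' : κ → F}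
    (hc : ∀ b, pol Q' c' (f b) = pol Q' c b) (v : V) :
    ρ g (EE (Q' := Q') ρ x ψ c v) = EE (Q' := Q') ρ x ψ c' (ρ g v) := by
  simp only [EE, ee, LinearMap.smul_apply, LinearMap.sum_apply, tau, map_smul, map_sum]
  congr 1
  rw [← Equiv.sum_comp f (fun a => pc ψ Q' c' (-a) • ρ (x a) (ρ g v))]
  refine Finset.sum_congr rfl fun b _ => ?_
  rw [← rho_mul, ← hf, pc, pc, pol_neg_right hQ', pol_neg_right hQ', hc, rho_mul]

/-- The action on a projection. -/
theorem x_EE (b c : κ → F) (v : V) : ρ (x b) (EE (Q' := Q') ρ x ψ c v) = ψ (pol Q' c b) • EE (Q' := Q') ρ x ψ c v :=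
  (mem_Vc hQ' hψ hx).1 (EE_mem hQ' hψ hx c v) b

/-- The sum of the projections. -/
theorem sum_EE_apply (v : V) : ∑ c, EE (Q' := Q') ρ x ψ c v = v := by
  have := congrArg (fun T : Module.End ℂ V => T v) (sum_EE (Q' := Q') (ρ := ρ) (x := x) hQ' hψ hx)
  simpa [LinearMap.sum_apply] using this

/-- The projection commutes with the group. -/
theorem EE_comm (b c : κ → F) (v : V) :
    ρ (x b) (EE (Q' := Q') ρ x ψ c v) = EE (Q' := Q') ρ x ψ c (ρ (x b) v) :=
  EE_move hx hQ' hψ (Equiv.refl _) (fun a => by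
    rw [Equiv.refl_apply, ← hx, ← hx, add_comm]) (fun a => rfl) v

/-- The weights of a vector with known eigenvalues on a line. -/
theorem weight_form {b : κ → F} {l : F} {v : V} (hb : ∀ t : F, ρ (x (t • b)) v = ψ (t * l) • v) {c : κ → F}
    (hne : EE (Q' := Q') ρ x ψ c v ≠ 0) : pol Q' c b = l := by
  by_contra hcon
  set t := (pol Q' c b - l)⁻¹ with ht
  have h1 := x_EE (ρ := ρ) hx hQ' hψ (t • b) c v
  rw [EE_comm (ρ := ρ) hx hQ' hψ, hb, map_smul, pol_smul_right hQ'] at h1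
  have h2 : ψ (t * l) = ψ (t * pol Q' c b) := by
    have h3 : (ψ (t * l) - ψ (t * pol Q' c b)) • EE (Q' := Q') ρ x ψ c v = 0 := by
      rw [sub_smul, h1, sub_self]
    rcases smul_eq_zero.1 h3 with h4 | h4
    · exact sub_eq_zero.1 h4
    · exact absurd h4 hne
  have h5 : t * pol Q' c b = t * l + 1 := by
    rw [ht]
    have : pol Q' c b - l ≠ 0 := sub_ne_zero.2 hcon
    field_simp
    ring
  rw [h5, AddChar.map_add_eq_mul] at h2
  have h6 : ψ (t * l) ≠ 0 := by
    have := AddChar.map_add_eq_mul ψ (t * l) (-(t * l))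
    intro h0
    rw [h0, add_neg_cancel, AddChar.map_zero_eq_one, zero_mul] at this
    exact one_ne_zero this
  apply hψ
  exact mul_left_cancel₀ h6 (by rw [mul_one]; exact h2.symm)

/-- A vector is fixed iff its other projections vanish. -/
theorem fix_of_EE {v : V} (h : ∀ c, c ≠ 0 → EE (Q' := Q') ρ x ψ c v = 0) (b : κ → F) : ρ (x b) v = v := by
  have h1 := sum_EE_apply (ρ := ρ) hx hQ' hψ v
  rw [Finset.sum_eq_single (0 : κ → F) (fun c _ hc => h c hc) (by simp)] at h1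
  rw [← h1, x_EE hx hQ' hψ]
  simp [pol_zero_left hQ']

theorem EE_of_fix {v : V} (h : ∀ b, ρ (x b) v = v) {c : κ → F} (hc : c ≠ 0) : EE (Q' := Q') ρ x ψ c v = 0 := by
  apply EE_of_mem hQ' hψ hx hc (c' := 0)
  rw [mem_Vc hQ' hψ hx]
  intro b
  rw [h]
  simp [pol_zero_left hQ']

theorem EE_zero_of_fix {v : V} (h : ∀ b, ρ (x b) v = v) : EE (Q' := Q') ρ x ψ 0 v = v := by
  have h1 := sum_EE_apply (ρ := ρ) hx hQ' hψ v
  rw [Finset.sum_eq_single (0 : κ → F) (fun c _ hc => EE_of_fix hx hQ' hψ h hc) (by simp)] at h1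
  exact h1

end Cfsg.Agent.Lib.OddDeg
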