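import Cfsg.Agent.Lib.OddDeg.Defs

/-!
Connectivity of singular vectors under Eichler transformations.
-/

set_option autoImplicit false
set_option linter.unusedSectionVars false
set_option linter.unusedVariables false
set_option linter.unusedSimpArgs false
set_option linter.ambiguousOpen false

namespace Cfsg.Agent.Lib.OddDeg

open Matrix Module Cfsg Cfsg.Geo
open Cfsg.Agent.Lib.Geo.Basic Cfsg.Agent.Lib.Geo.QForm Cfsg.Agent.Lib.QuadFn
open Cfsg.Agent.Lib.GeoOmega.Basic Cfsg.Agent.Lib.GeoOmega.Eichler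
open Cfsg.Agent.Lib.MinDeg Cfsg.Agent.Lib.MinDeg.Hyp Cfsg.Agent.Lib.Classical.MatrixBridge
open scoped MatrixGroups

variable {κ' κ'' : Type} [Fintype κ'] [DecidableEq κ']
  [Fintype κ''] [DecidableEq κ''] {F : Type*} [Field F] [Fintype F]
  {Q'' : (κ' → F) → F} {Q''' : (κ'' → F) → F}

section
variable (K : HL Q'' Q''') (P : (κ' → F) → Prop)
  (hx : ∀ b s, P s → P (act (K.x b) s)) (hy : ∀ b s, P s → P (act (K.y b) s))

include hx in
/-- The moves by `x` are reversible. -/
private lemma x_iff (b : κ'' → F) (s : κ' → F) : P (act (K.x b) s) ↔ P s := by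
  refine ⟨fun h => ?_, hx b s⟩
  have h1 := hx (-b) _ h
  rw [K.x_neg, act_inv_act] at h1
  exact h1

include hy in
/-- The moves by `y` are reversible. -/
private lemma y_iff (b : κ'' → F) (s : κ' → F) : P (act (K.y b) s) ↔ P s := by
  refine ⟨fun h => ?_, hy b s⟩
  have h1 := hy (-b) _ h
  rw [K.y_neg, act_inv_act] at h1
  exact h1

include hy in
/-- A singular vector with non-zero first coordinate is connected to one on the plane. -/
private lemma first_coord {α β : F} {d : κ'' → F} (hα : α ≠ 0) (hs : α * β + Q''' d = 0) :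
    P (K.vec α β d) ↔ P (K.vec α 0 0) := by
  have nd := K.nd'
  have h := y_iff K P hy (α⁻¹ • d) (K.vec α β d)
  rw [K.y_vec] at h
  rw [← h]
  have e1 : d - α • α⁻¹ • d = 0 := by
    rw [smul_smul, mul_inv_cancel₀ hα, one_smul, sub_self]
  have e2 : β + pol Q''' d (α⁻¹ • d) - Q''' (α⁻¹ • d) * α = 0 := by
    rw [pol_smul_right nd, pol_self nd, nd.smul]
    have e3 : β = - (α⁻¹ * Q''' d) := by
      field_simp
      linear_combination hs
    rw [e3]
    field_simp
    ring
  rw [e1, e2]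

include hx hy in
/-- Every non-zero singular vector is connected to a vector of the plane. -/
private lemma to_plane (hd : ∃ d : κ'' → F, Q''' d ≠ 0) {s : κ' → F} (hs : s ≠ 0) (hQ : Q'' s = 0) :
    ∃ α : F, α ≠ 0 ∧ (P s ↔ P (K.vec α 0 0)) := by
  have nd := K.nd'
  obtain ⟨d₀, hd₀⟩ := hd
  rw [← K.he.vec_coord s] at hs hQ ⊢
  change K.vec (s K.he.p0) (s K.he.p1) (K.he.dn s) ≠ 0 at hs
  change Q'' (K.vec (s K.he.p0) (s K.he.p1) (K.he.dn s)) = 0 at hQ
  change ∃ α : F, α ≠ 0 ∧ (P (K.vec (s K.he.p0) (s K.he.p1) (K.he.dn s)) ↔ P (K.vec α 0 0))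
  generalize s K.he.p0 = α at *
  generalize s K.he.p1 = β at *
  generalize K.he.dn s = d at *
  rw [K.he.Q_vec] at hQ
  by_cases hα : α = 0
  · subst hα
    by_cases hβ : β = 0
    · subst hβ
      have hd0 : d ≠ 0 := by
        rintro rfl
        exact hs K.he.vec_zero
      have hQd : Q''' d = 0 := by simpa using hQ
      obtain ⟨b, hb⟩ : ∃ b, pol Q''' d b ≠ 0 := (nd.nondegenerate d hd0).2
      have h := x_iff K P hx b (K.vec 0 0 d)
      rw [K.x_vec] at h
      simp only [zero_smul, sub_zero, zero_add, mul_zero] at h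
      refine ⟨pol Q''' d b, hb, ?_⟩
      rw [← h]
      exact first_coord K P hy hb (by rw [mul_zero, zero_add]; exact hQd)
    · have hQd : Q''' d = 0 := by simpa using hQ
      have h := x_iff K P hx (β⁻¹ • d) (K.vec 0 β d)
      rw [K.x_vec] at h
      have e1 : d - β • β⁻¹ • d = 0 := by
        rw [smul_smul, mul_inv_cancel₀ hβ, one_smul, sub_self]
      have e2 : 0 + pol Q''' d (β⁻¹ • d) - Q''' (β⁻¹ • d) * β = 0 := by
        rw [pol_smul_right nd, pol_self nd, nd.smul, hQd]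
        ring
      rw [e1, e2] at h
      have h' := x_iff K P hx d₀ (K.vec 0 β 0)
      rw [K.x_vec] at h'
      have e3 : 0 + pol Q''' 0 d₀ - Q''' d₀ * β = -(Q''' d₀ * β) := by
        rw [pol_zero_left nd]
        ring
      have e4 : (0 : κ'' → F) - β • d₀ = (-β) • d₀ := by simp
      rw [e3, e4] at h'
      have hne : -(Q''' d₀ * β) ≠ 0 := neg_ne_zero.mpr (mul_ne_zero hd₀ hβ)
      refine ⟨-(Q''' d₀ * β), hne, ?_⟩
      rw [← h, ← h']
      refine first_coord K P hy hne ?_
      rw [nd.smul]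
      ring
  · exact ⟨α, hα, first_coord K P hy hα hQ⟩

end

/-- Non-zero singular vectors are connected under the Eichler transformations (M8). -/
theorem sing_conn (K : HL Q'' Q''') (hd : ∃ d : κ'' → F, Q''' d ≠ 0) (P : (κ' → F) → Prop)
    (hx : ∀ b s, P s → P (act (K.x b) s)) (hy : ∀ b s, P s → P (act (K.y b) s))
    (hsc : ∀ α β : F, α ≠ 0 → β ≠ 0 → P (K.vec α 0 0) → P (K.vec β 0 0))
    {s s' : κ' → F} (hs : s ≠ 0) (hs' : s' ≠ 0) (hQs : Q'' s = 0) (hQs' : Q'' s' = 0) (hP : P s) : P s' := by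
  obtain ⟨α, hα, h⟩ := to_plane K P hx hy hd hs hQs
  obtain ⟨α', hα', h'⟩ := to_plane K P hx hy hd hs' hQs'
  exact h'.mpr (hsc α α' hα hα' (h.mp hP))

end Cfsg.Agent.Lib.OddDeg
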