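import Cfsg.Agent.Lib.OddDeg.Move

/-!
Support of the weights of the central Eichler group in the fixed points of the unipotent radical.
-/

set_option autoImplicit false
set_option linter.unusedSectionVars false
set_option linter.unusedVariables false
set_option linter.unusedSimpArgs false
set_option linter.ambiguousOpen false

namespace Cfsg.Agent.Lib.OddDeg

open Matrix Module Cfsg Cfsg.Geo
open Cfsg.Agent.Lib.Geo.Basic Cfsg.Agent.Lib.Geo.QForm Cfsg.Agent.Lib.QuadFn
open Cfsg.Agent.Lib.GeoOmega.Basic Cfsg.Agent.Lib.GeoOmega.Eichler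
open Cfsg.Agent.Lib.WtSpace.Basic Cfsg.Agent.Lib.MinDeg.Wt
open Cfsg.Agent.Lib.MinDeg Cfsg.Agent.Lib.MinDeg.Hyp Cfsg.Agent.Lib.Classical.MatrixBridge
open scoped _root_.Classical MatrixGroups

variable {ι κ κ' : Type} [Fintype ι] [DecidableEq ι] [Fintype κ] [DecidableEq κ] [Fintype κ'] [DecidableEq κ']
  {F : Type*} [Field F] [Fintype F]
  {Q : (ι → F) → F} {Q' : (κ → F) → F} {Q'' : (κ' → F) → F}

variable (L : HL Q Q') (M : HL Q' Q'')
  {V : Type*} [AddCommGroup V] [Module ℂ V] [FiniteDimensional ℂ V] (ρ : Representation ℂ (Omega F Q) V)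
  {ψ : AddChar F ℂ} (hψ : ψ 1 ≠ 1)

/-- The action of the root elements on the image of the Weyl element. -/
theorem nW_weight {w : V} (hU : ∀ b, ρ (L.x b) w = w) {s : κ' → F}
    (hz : ∀ b, ρ (L.lf (M.x b)) w = ψ (pol Q'' s b) • w) (p : F) (c' : κ' → F) :
    ρ (L.x (M.vec p 0 c')) (ρ (nW L M) w) = ψ (pol Q'' s c') • ρ (nW L M) w := by
  rw [← rho_mul, nW_x_mid, rho_mul, rho_mul, hz, map_smul, map_smul, hU]

/-- The central Eichler group is a homomorphic image of the additive group. -/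
theorem zf_add (b b' : κ' → F) : L.lf (M.x (b + b')) = L.lf (M.x b) * L.lf (M.x b') := by
  rw [M.x_add, map_mul]

include hψ in
/-- The singularity of the support. -/
theorem supp_singular (hw : ∀ c, c ≠ 0 → finrank ℂ (Vc (Q' := Q') ρ L.x ψ c) = if Q' c = 0 then 1 else 0)
    {w : V} (hU : ∀ b, ρ (L.x b) w = w) {s : κ' → F} (hs : s ≠ 0)
    (hz : ∀ b, ρ (L.lf (M.x b)) w = ψ (pol Q'' s b) • w) (hne : w ≠ 0) : Q'' s = 0 := by
  have nd' := L.nd'
  have nd2 := M.nd'
  have hn : ρ (nW L M) w ≠ 0 := by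
    intro h0
    apply hne
    have := rho_inv_rho ρ (nW L M) w
    rw [h0, map_zero] at this
    exact this.symm
  have hx := L.x_add
  obtain ⟨c, hc⟩ : ∃ c, EE (Q' := Q') ρ L.x ψ c (ρ (nW L M) w) ≠ 0 := by
    by_contra hcon
    push Not at hcon
    apply hn
    rw [← sum_EE_apply (ρ := ρ) (x := L.x) hx nd' hψ (ρ (nW L M) w)]
    exact Finset.sum_eq_zero fun c _ => hcon c
  have hpol : ∀ p c', pol Q' c (M.vec p 0 c') = pol Q'' s c' := by
    intro p c'
    apply weight_form (ρ := ρ) (x := L.x) hx nd' hψ (v := ρ (nW L M) w) ?_ hc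
    intro t
    have h1 : t • M.vec p 0 c' = M.vec (t * p) 0 (t • c') := by
      rw [M_smul M, mul_zero]
    rw [h1, nW_weight L M ρ hU hz, pol_smul_right nd2]
  obtain ⟨a, a', e, rfl⟩ := M_coord M c
  have ha' : a' = 0 := by
    have := hpol 1 0
    rw [M_pol M, pol_zero_right nd2, pol_zero_right nd2] at this
    simpa using this
  subst ha'
  have he : e = s := by
    by_contra hes
    obtain ⟨y, hy⟩ := (nd2.nondegenerate (e - s) (sub_ne_zero.2 hes)).1
    apply hy
    have := hpol 0 y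
    rw [M_pol M] at this
    change pol Q'' y (e - s) = 0
    rw [pol_symm nd2, pol_sub_left nd2]
    simp only [mul_zero, zero_mul, zero_add] at this
    rw [this, sub_self]
  subst he
  have hc0 : M.vec a 0 e ≠ 0 := by
    intro h0
    apply hs
    have := congrArg M.he.dn h0
    simpa using this
  have hfr := hw _ hc0
  have hQ : Q' (M.vec a 0 e) = Q'' e := by
    rw [M_Q M]
    simp
  rw [hQ] at hfr
  by_contra hcon
  rw [if_neg hcon] at hfr
  exact hc (by
    have := EE_zero_of_finrank (Q' := Q') (ρ := ρ) (x := L.x) nd' hψ hx hfr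
    rw [this]
    rfl)

/-- The weight projections of the central Eichler group preserve the fixed points of the radical. -/
theorem EZ_U {v : V} (hU : ∀ b, ρ (L.x b) v = v) (c : κ' → F) (b : κ → F) :
    ρ (L.x b) (EE (Q' := Q'') ρ (fun b => L.lf (M.x b)) ψ c v) = EE (Q' := Q'') ρ (fun b => L.lf (M.x b)) ψ c v := by
  simp only [EE, ee, LinearMap.smul_apply, LinearMap.sum_apply, tau, map_smul, map_sum]
  congr 1
  refine Finset.sum_congr rfl fun a _ => ?_
  congr 1
  have h := L.lf_x (M.x a)⁻¹ b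
  have h2 : L.x b * L.lf (M.x a) = L.lf (M.x a) * L.x (act (M.x a)⁻¹ b) := by
    rw [← h, map_inv, inv_inv]
    group
  rw [← rho_mul, h2, rho_mul, hU]

include hψ in
/-- The weights of the central Eichler group on the fixed points of the radical are singular. -/
theorem supp_EZ (hw : ∀ c, c ≠ 0 → finrank ℂ (Vc (Q' := Q') ρ L.x ψ c) = if Q' c = 0 then 1 else 0)
    {v : V} (hU : ∀ b, ρ (L.x b) v = v) {c : κ' → F} (hc0 : c ≠ 0) (hQ : Q'' c ≠ 0) :
    EE (Q' := Q'') ρ (fun b => L.lf (M.x b)) ψ c v = 0 := by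
  by_contra hne
  apply hQ
  refine supp_singular L M ρ hψ hw (fun b => EZ_U L M ρ hU c b) hc0 ?_ hne
  intro b
  exact x_EE (ρ := ρ) (x := fun b => L.lf (M.x b)) (zf_add L M) M.nd' hψ b c v

end Cfsg.Agent.Lib.OddDeg
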