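import Cfsg.Agent.Lib.OddDeg.XDich
import Cfsg.Agent.Lib.OddDeg.SingConn
import Cfsg.Agent.Lib.OddDeg.Move
import Cfsg.Agent.Lib.OddDeg.Supp

/-!
Applying the dichotomy: the vector `w₁ u` has constant weight multiplicities on singular weights.
-/

set_option autoImplicit false
set_option linter.unusedSectionVars false
set_option linter.unusedVariables false
set_option linter.unusedSimpArgs false
set_option linter.ambiguousOpen false

namespace Cfsg.Agent.Lib.OddDeg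

open Matrix Module Cfsg Cfsg.Geo
open Cfsg.Agent.Lib.Geo.Basic Cfsg.Agent.Lib.Geo.QForm Cfsg.Agent.Lib.QuadFn
open Cfsg.Agent.Lib.GeoOmega.Basic Cfsg.Agent.Lib.GeoOmega.Eichler
open Cfsg.Agent.Lib.MinDeg Cfsg.Agent.Lib.MinDeg.Hyp Cfsg.Agent.Lib.Classical.MatrixBridge
open Cfsg.Agent.Lib.MinDeg.Wt Cfsg.Agent.Lib.MinDeg.Count
open scoped _root_.Classical MatrixGroups

/-- Pulling back an invariant form along a homomorphism. -/
def IH.comp {G H : Type*} [Group G] [Group H] {V : Type*} [AddCommGroup V] [Module ℂ V]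
    {ρ : Representation ℂ G V} (I : IH ρ) (φ : H →* G) :
    IH ((ρ : G →* Module.End ℂ V).comp φ) where
  B := I.B
  add_left := I.add_left
  smul_left := I.smul_left
  symm := I.symm
  pos := I.pos
  inv := fun g u v => I.inv (φ g) u v

section generic

variable {κ : Type} [Fintype κ] [DecidableEq κ] {F : Type*} [Field F] [Fintype F] {Q' : (κ → F) → F}
  {G : Type*} [Group G] {V : Type*} [AddCommGroup V] [Module ℂ V] [FiniteDimensional ℂ V]
  {ρ : Representation ℂ G V} {x : (κ → F) → G} {ψ : AddChar F ℂ}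

/-- The norms of the weight components of an eigenvector are moved by a normalising element. -/
lemma B_EE_inv (hx : ∀ b b', x (b + b') = x b * x b') (hQ' : IsNondegenerateQuadraticForm Q') (hψ : ψ 1 ≠ 1)
    (I : IH ρ) {g : G} (f : (κ → F) ≃ (κ → F)) (hf : ∀ b, x (f b) * g = g * x b) {c c' : κ → F}
    (hc : ∀ b, pol Q' c' (f b) = pol Q' c b) {v : V} {μ : ℂ} (hv : ρ g v = μ • v) (hμ : μ * star μ = 1) :
    I.B (EE (Q' := Q') ρ x ψ c' v) (EE (Q' := Q') ρ x ψ c' v) =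
      I.B (EE (Q' := Q') ρ x ψ c v) (EE (Q' := Q') ρ x ψ c v) := by
  have h1 := EE_move (ρ := ρ) hx hQ' hψ f hf hc v
  rw [hv, map_smul] at h1
  have h2 := I.inv g (EE (Q' := Q') ρ x ψ c v) (EE (Q' := Q') ρ x ψ c v)
  rw [h1, I.smul_left, I.smul_right] at h2
  rw [← h2, ← mul_assoc, hμ, one_mul]

end generic

variable {ι κ κ' κ'' : Type} [Fintype ι] [DecidableEq ι] [Fintype κ] [DecidableEq κ] [Fintype κ'] [DecidableEq κ']
  [Fintype κ''] [DecidableEq κ''] {F : Type*} [Field F] [Fintype F]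
  {Q : (ι → F) → F} {Q' : (κ → F) → F} {Q'' : (κ' → F) → F} {Q''' : (κ'' → F) → F}

/-- Action of an element of the smaller orthogonal group, as a permutation. -/
noncomputable def actEquiv (h : Omega F Q') : (κ → F) ≃ (κ → F) where
  toFun := act h
  invFun := act h⁻¹
  left_inv := act_inv_act h
  right_inv := act_act_inv h

/-- The norms of the weight components of a vector fixed by a lifted element. -/
lemma B_EE_lift (L : HL Q Q') {V : Type*} [AddCommGroup V] [Module ℂ V] [FiniteDimensional ℂ V]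
    {ρ : Representation ℂ (Omega F Q) V} {ψ : AddChar F ℂ} (hψ : ψ 1 ≠ 1) (I : IH ρ) (h : Omega F Q') {v : V}
    (hv : ρ (L.lf h) v = v) (c : κ → F) :
    I.B (EE (Q' := Q') ρ L.x ψ (act h c) v) (EE (Q' := Q') ρ L.x ψ (act h c) v) =
      I.B (EE (Q' := Q') ρ L.x ψ c v) (EE (Q' := Q') ρ L.x ψ c v) := by
  refine B_EE_inv L.x_add L.nd' hψ I (actEquiv h) ?_ ?_ (μ := 1) (by rw [hv, one_smul]) (by simp)
  · intro b
    have h1 := L.lf_x h b
    rw [mul_inv_eq_iff_eq_mul] at h1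
    exact h1.symm
  · intro b
    exact pol_isometry h.1.1 h.1.2 c b

lemma HL_zero_vec (K : HL Q'' Q''') : K.vec (0 : F) 0 (0 : κ'' → F) = 0 := by
  have h := M_smul K 0 0 0 (0 : κ'' → F)
  simpa using h.symm

lemma act_AA_first (M : HL Q' Q'') (K : HL Q'' Q''') (t : Fˣ) (α : F) :
    act (dG M K.swap t) (M.vec α 0 0) = M.vec ((t : F) * α) 0 0 := by
  have h := AA_vec M K t α 0 0 0 0
  simpa [HL_zero_vec K] using h

lemma HL_P0_ne (K : HL Q'' Q''') : K.vec (1 : F) 0 (0 : κ'' → F) ≠ 0 := by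
  intro h
  have h1 := M_pol K 1 0 0 1 0 0
  rw [h, pol_zero_left K.nd, pol_zero_right K.nd'] at h1
  simp at h1

lemma HL_P0_Q (K : HL Q'' Q''') : Q'' (K.vec (1 : F) 0 (0 : κ'' → F)) = 0 := by
  rw [M_Q K, Q_zero K.nd']
  simp

section top

variable (L : HL Q Q') (M : HL Q' Q'') (K : HL Q'' Q''')
  {V : Type*} [AddCommGroup V] [Module ℂ V] [FiniteDimensional ℂ V] (ρ : Representation ℂ (Omega F Q) V)
  {ψ : AddChar F ℂ} (hψ : ψ 1 ≠ 1)

include hψ

theorem X_apply_top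
    (hw : ∀ c, c ≠ 0 → finrank ℂ (Vc (Q' := Q') ρ L.x ψ c) = if Q' c = 0 then 1 else 0)
    (I : IH ρ) (h2 : ringChar F ≠ 2) (hG : GaussF Q'' ψ) (hd : ∃ d : κ' → F, Q'' d ≠ 0) {u : V} {θ : Fˣ → ℂ}
    (hfix : ∀ b, ρ (L.x b) u = u) (hz : ∀ b, ρ (L.lf (M.x b)) u = u) (hzm : ∀ b, ρ (L.lf (M.y b)) u = u)
    (hθ : ∀ t, ρ (dG L M.swap t) u = θ t • u) (hE : ∀ t, ρ (E2 L M K t) u = u)
    (hd2 : ∀ t, ρ (L.lf (dG M K t)) u = u) :
    ((∀ t, θ t = 1) → ∀ b, ρ (L.y b) u = u) ∧ ((∃ t, θ t ≠ 1) → I.B (ρ (nW L M) u) u = 0) := by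
  set w := w1 L M with hw1
  set v := ρ w u with hv
  have hvz : ∀ b, ρ (L.lf (M.x b)) v = v := by
    intro b
    have h1 := w1_zm L M (-b)
    rw [neg_neg] at h1
    rw [hv, ← rho_mul, ← h1, rho_mul, hzm]
  have hvm : ∀ b, ρ (L.lf (M.y b)) v = v := by
    intro b
    have h1 := w1_zz L M (-b)
    rw [neg_neg] at h1
    rw [hv, ← rho_mul, ← h1, rho_mul, hz]
  have hvE : ∀ t, ρ (L.lf (dG M K.swap t)) v = v := by
    intro t
    have h1 : L.lf (dG M K.swap t) * w = w * L.lf (dG M K t⁻¹) := w1_E2 L M K t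
    rw [hv, ← rho_mul, h1, rho_mul, hd2]
  set c₀ : κ → F := M.vec 1 0 0 with hc₀
  refine X_dich L M I hψ h2 hG hfix θ hθ ?_ (M₀ := I.B (EE (Q' := Q') ρ L.x ψ c₀ v) (EE (Q' := Q') ρ L.x ψ c₀ v)) ?_
  · intro c hc hQc
    have h3 := EE_mem (ρ := ρ) (x := L.x) L.nd' hψ L.x_add c v
    have h4 := hw c hc
    rw [if_neg hQc] at h4
    rw [Submodule.finrank_eq_zero.1 h4] at h3
    exact (Submodule.mem_bot ℂ).1 h3
  · intro c hc
    obtain ⟨hc0, hcQ⟩ := mem_Lv.1 hc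
    refine sing_conn M hd
      (fun s => I.B (EE (Q' := Q') ρ L.x ψ s v) (EE (Q' := Q') ρ L.x ψ s v) =
        I.B (EE (Q' := Q') ρ L.x ψ c₀ v) (EE (Q' := Q') ρ L.x ψ c₀ v)) ?_ ?_ ?_ (HL_P0_ne M) hc0 (HL_P0_Q M) hcQ rfl
    · intro b s hs
      show I.B (EE (Q' := Q') ρ L.x ψ (act (M.x b) s) v) _ = _
      rw [B_EE_lift L hψ I (M.x b) (hvz b) s]
      exact hs
    · intro b s hs
      show I.B (EE (Q' := Q') ρ L.x ψ (act (M.y b) s) v) _ = _
      rw [B_EE_lift L hψ I (M.y b) (hvm b) s]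
      exact hs
    · intro α β hα hβ hs
      have hs' : I.B (EE (Q' := Q') ρ L.x ψ (M.vec α 0 0) v) (EE (Q' := Q') ρ L.x ψ (M.vec α 0 0) v) = _ := hs
      set t : Fˣ := Units.mk0 (β / α) (div_ne_zero hβ hα) with ht
      have e : act (dG M K.swap t) (M.vec α 0 0) = M.vec β 0 0 := by
        rw [act_AA_first]
        congr 1
        simp [ht, hα]
      show I.B (EE (Q' := Q') ρ L.x ψ (M.vec β 0 0) v) _ = _
      rw [← e, B_EE_lift L hψ I (dG M K.swap t) (hvE t) (M.vec α 0 0)]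
      exact hs'

end top

section mid

variable (L : HL Q Q') (M : HL Q' Q'') (K : HL Q'' Q''')
  {V : Type*} [AddCommGroup V] [Module ℂ V] [FiniteDimensional ℂ V] (ρ : Representation ℂ (Omega F Q) V)
  {ψ : AddChar F ℂ} (hψ : ψ 1 ≠ 1)

include hψ

/-- The form of `X_apply_z` with the vanishing of the anisotropic weights as a hypothesis. -/
theorem X_apply_z_of
    (hsz : ∀ v : V, (∀ b, ρ (L.x b) v = v) → ∀ c : κ' → F, c ≠ 0 → Q'' c ≠ 0 →
      EE (Q' := Q'') ρ (fun b => L.lf (M.x b)) ψ c v = 0)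
    (I : IH ρ) (h2 : ringChar F ≠ 2) (hG : GaussF Q''' ψ) (hd : ∃ d : κ'' → F, Q''' d ≠ 0)
    {u : V} {χd χA θ : Fˣ → ℂ} (hC : InC L M K ρ u) (hT : TE L M K ρ u χd χA θ) :
    ((∀ t, θ t = 1) → ∀ b, ρ (L.lf (M.y b)) u = u) ∧ ((∃ t, θ t ≠ 1) → I.B (ρ (L.lf (nW M K)) u) u = 0) := by
  by_cases hu : u = 0
  · subst hu
    exact ⟨fun _ b => map_zero _, fun _ => I.zero_right _⟩
  let R : Representation ℂ (Omega F Q') V := (ρ : Omega F Q →* Module.End ℂ V).comp L.lf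
  let I' : IH R := I.comp L.lf
  set w := w1 M K with hw1
  set v := ρ (L.lf w) u with hv
  have hvx : ∀ b, ρ (L.x b) v = v := by
    intro b
    have h1 := L.lf_x w (act w⁻¹ b)
    rw [mul_inv_eq_iff_eq_mul, act_act_inv] at h1
    rw [hv, ← rho_mul, ← h1, rho_mul, hC.hx]
  have hvk1 : ∀ b, ρ (L.lf (M.lf (K.x b))) v = v := by
    intro b
    have h1 := w1_zm M K (-b)
    rw [neg_neg] at h1
    rw [hv, ← rho_mul, ← map_mul, ← h1, map_mul, rho_mul, hC.k2]
  have hvk2 : ∀ b, ρ (L.lf (M.lf (K.y b))) v = v := by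
    intro b
    have h1 := w1_zz M K (-b)
    rw [neg_neg] at h1
    rw [hv, ← rho_mul, ← map_mul, ← h1, map_mul, rho_mul, hC.k1]
  have hvA : ∀ t, ρ (dG L M.swap t) v = χd t • v := by
    intro t
    rw [hv, ← rho_mul, lw_AA L M K t, rho_mul, hT.hd, map_smul]
  have hχ : ∀ t, χd t * star (χd t) = 1 := fun t => I.eig_star hu (hT.hd t)
  set c₀ : κ' → F := K.vec 1 0 0 with hc₀
  refine X_dich M K I' hψ h2 hG (u := u) hC.hz θ hT.hE ?_
    (M₀ := I.B (EE (Q' := Q'') R M.x ψ c₀ v) (EE (Q' := Q'') R M.x ψ c₀ v)) ?_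
  · intro c hc hQc
    exact hsz v hvx c hc hQc
  · intro c hc
    obtain ⟨hc0, hcQ⟩ := mem_Lv.1 hc
    refine sing_conn K hd
      (fun s => I.B (EE (Q' := Q'') R M.x ψ s v) (EE (Q' := Q'') R M.x ψ s v) =
        I.B (EE (Q' := Q'') R M.x ψ c₀ v) (EE (Q' := Q'') R M.x ψ c₀ v)) ?_ ?_ ?_ (HL_P0_ne K) hc0 (HL_P0_Q K) hcQ rfl
    · intro b s hs
      show I'.B (EE (Q' := Q'') R M.x ψ (act (K.x b) s) v) _ = _
      rw [B_EE_lift M hψ I' (K.x b) (hvk1 b) s]
      exact hs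
    · intro b s hs
      show I'.B (EE (Q' := Q'') R M.x ψ (act (K.y b) s) v) _ = _
      rw [B_EE_lift M hψ I' (K.y b) (hvk2 b) s]
      exact hs
    · intro α β hα hβ hs
      have hs' : I.B (EE (Q' := Q'') R M.x ψ (K.vec α 0 0) v) (EE (Q' := Q'') R M.x ψ (K.vec α 0 0) v) = _ := hs
      set t : Fˣ := Units.mk0 (α / β) (div_ne_zero hα hβ) with ht
      have htv : (t : F) = α / β := rfl
      have ht0 : (t : F) ≠ 0 := t.ne_zero
      have hxadd : ∀ b b' : κ' → F, (fun b => L.lf (M.x b)) (b + b') =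
          (fun b => L.lf (M.x b)) b * (fun b => L.lf (M.x b)) b' := by
        intro b b'
        show L.lf (M.x (b + b')) = L.lf (M.x b) * L.lf (M.x b')
        rw [M.x_add, map_mul]
      have key := B_EE_inv (ρ := ρ) (x := fun b => L.lf (M.x b)) (ψ := ψ) hxadd M.nd' hψ I
        (g := dG L M.swap t)
        ⟨fun b => (t : F) • b, fun b => (t : F)⁻¹ • b,
          fun b => by simp [smul_smul, ht0], fun b => by simp [smul_smul, ht0]⟩
        (fun b => (AA_zz L M t b).symm) (c := K.vec α 0 0) (c' := K.vec β 0 0) ?_ (hvA t) (hχ t)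
      · show I.B (EE (Q' := Q'') R M.x ψ (K.vec β 0 0) v) _ = _
        exact key.trans hs'
      · intro b
        have e : K.vec α 0 0 = (t : F) • K.vec β 0 0 := by
          rw [M_smul]
          congr 1
          · rw [htv]
            field_simp
          · simp
          · simp
        show pol Q'' (K.vec β 0 0) ((t : F) • b) = pol Q'' (K.vec α 0 0) b
        have nd := M.nd'
        rw [e, pol_smul_left nd, pol_smul_right nd]

theorem X_apply_z
    (hw : ∀ c, c ≠ 0 → finrank ℂ (Vc (Q' := Q') ρ L.x ψ c) = if Q' c = 0 then 1 else 0)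
    (I : IH ρ) (h2 : ringChar F ≠ 2) (hG : GaussF Q''' ψ) (hd : ∃ d : κ'' → F, Q''' d ≠ 0)
    {u : V} {χd χA θ : Fˣ → ℂ} (hC : InC L M K ρ u) (hT : TE L M K ρ u χd χA θ) :
    ((∀ t, θ t = 1) → ∀ b, ρ (L.lf (M.y b)) u = u) ∧ ((∃ t, θ t ≠ 1) → I.B (ρ (L.lf (nW M K)) u) u = 0) :=
  X_apply_z_of L M K ρ hψ (fun _ hU _ hc0 hQ => supp_EZ L M ρ hψ hw hU hc0 hQ) I h2 hG hd hC hT

end mid

end Cfsg.Agent.Lib.OddDeg
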