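import Cfsg.Agent.Lib.OddDeg.Ell2
import Cfsg.Agent.Lib.OddDeg.XApply
import Cfsg.Agent.Lib.OddDeg.Dl
import Cfsg.Agent.Lib.OddDeg.WX
import Cfsg.Agent.Lib.OddDeg.Line

/-!
A nonzero vector fixed by the root groups of the smaller `Ω`, for a representation of small degree.
-/

set_option autoImplicit false
set_option linter.unusedSectionVars false
set_option linter.unusedVariables false
set_option linter.unusedSimpArgs false
set_option linter.ambiguousOpen false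

namespace Cfsg.Agent.Lib.OddDeg

open Matrix Module Cfsg Cfsg.Geo
open Cfsg.Agent.Lib.Geo.Basic Cfsg.Agent.Lib.Geo.QForm Cfsg.Agent.Lib.QuadFn
open Cfsg.Agent.Lib.GeoOmega.Basic Cfsg.Agent.Lib.GeoOmega.Eichler
open Cfsg.Agent.Lib.MinDeg Cfsg.Agent.Lib.MinDeg.Hyp Cfsg.Agent.Lib.MinDeg.Wt Cfsg.Agent.Lib.MinDeg.Count
open scoped _root_.Classical MatrixGroups

variable {ι κ κ' κ'' : Type} [Fintype ι] [DecidableEq ι] [Fintype κ] [DecidableEq κ] [Fintype κ'] [DecidableEq κ']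
  [Fintype κ''] [DecidableEq κ''] {F : Type*} [Field F] [Fintype F]
  {Q : (ι → F) → F} {Q' : (κ → F) → F} {Q'' : (κ' → F) → F} {Q''' : (κ'' → F) → F}
  (L : HL Q Q') (M : HL Q' Q'') (K : HL Q'' Q''')
  {V : Type*} [AddCommGroup V] [Module ℂ V] [FiniteDimensional ℂ V]
  (ρ : Representation ℂ (Omega F Q) V) {ψ : AddChar F ℂ} (hψ : ψ 1 ≠ 1)
  (hw : ∀ c, c ≠ 0 → finrank ℂ (Vc (Q' := Q') ρ L.x ψ c) = if Q' c = 0 then 1 else 0)

include hψ hw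

/-- The line of the weight `P0`. -/
lemma line_P0 : finrank ℂ (Vc (Q' := Q') ρ L.x ψ M.he.P0) = 1 := by
  have hP0 : M.he.P0 ≠ 0 := by
    intro h0
    have := congrFun h0 M.he.p0
    simp at this
  rw [hw _ hP0, if_pos (M.he.Q_P0 M.nd')]

/-- A nonzero vector fixed by both opposite root groups of the smaller `Ω`. -/
theorem exists_uc (I : IH ρ) (hirr : ρ.IsIrreducible) (hn : 7 ≤ Fintype.card ι) (hU' : ∀ a, ∃ c, Q' c = a)
    (hperp' : ∀ b : κ' → F, ∃ c, pol Q'' c b = 0 ∧ Q'' c ≠ 0) (hU : ∀ a, ∃ c, Q'' c = a)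
    (ht : ∃ t : Fˣ, (t : F) ^ 2 ≠ 1) (hnt : ∃ b, ρ (L.x b) ≠ 1) (hU0 : ∃ u : V, u ≠ 0 ∧ ∀ b, ρ (L.x b) u = u)
    {d₀ : κ'' → F} (hd₀ : Q''' d₀ ≠ 0) (h2 : ringChar F ≠ 2) (hG : GaussF Q''' ψ) :
    ∃ (u : V) (χd χA θ : Fˣ → ℂ), u ≠ 0 ∧ InC L M K ρ u ∧ TE L M K ρ u χd χA θ ∧ ∀ b, ρ (L.lf (M.y b)) u = u := by
  have hc1 := line_P0 L M ρ hψ hw
  obtain ⟨lam, hlam, hmul⟩ := line_scalar hψ hc1
  obtain ⟨u₀, χd, χA, θ, hu₀, hC, hT, hχ⟩ :=
    exists_u0 L M K ρ hψ hw I hirr hn hU' hperp' hU ht hnt hU0 hd₀ hlam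
  have hd : ∃ d : κ'' → F, Q''' d ≠ 0 := ⟨d₀, hd₀⟩
  by_cases hθ : ∀ t, θ t = 1
  · exact ⟨u₀, χd, χA, θ, hu₀, hC, hT, (X_apply_z L M K ρ hψ hw I h2 hG hd hC hT).1 hθ⟩
  · push Not at hθ
    have hB := (X_apply_z L M K ρ hψ hw I h2 hG hd hC hT).2 hθ
    have hθlam := D_lemma L M K ρ hψ hw I hu₀ hC hT.hE hB hlam
    have hlam1 : lam 1 = 1 := by
      have : 0 < finrank ℂ (Vc (Q' := Q') ρ L.x ψ M.he.P0) := by omega
      obtain ⟨v, hv⟩ := Module.finrank_pos_iff_exists_ne_zero.1 this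
      have h1 := hlam 1 v v.2
      have e : dG L M.swap (1 : Fˣ) = 1 := dG_one _ _
      rw [e, map_one] at h1
      have h3 : (lam 1 - 1) • (v : V) = 0 := by
        rw [sub_smul, one_smul, ← h1]
        simp
      rcases smul_eq_zero.1 h3 with h4 | h4
      · exact sub_eq_zero.1 h4
      · exact absurd (Subtype.ext h4) hv
    have hθ' : ∀ t, χd t * θ t = 1 := by
      intro t
      have h1 := hχ t⁻¹
      rw [inv_inv] at h1
      rw [h1, hθlam t, ← hmul, inv_mul_cancel, hlam1]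
    exact ⟨_, _, _, _, wX_ne L M ρ I hu₀ (fun r => hC.hx _) hT.hd, wX_inC L M K ρ hC, wX_TE L M K ρ hT,
      (X_apply_z L M K ρ hψ hw I h2 hG hd (wX_inC L M K ρ hC) (wX_TE L M K ρ hT)).1 hθ'⟩

end Cfsg.Agent.Lib.OddDeg
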