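import Cfsg.Agent.Lib.MinDeg.Gen
import Cfsg.Agent.Lib.MinDeg.Step

/-!
Bundled hyperbolic extensions and the elements of `Ω`: Eichler transformations with centre in the hyperbolic plane,
tori, and Weyl elements, with their actions on coordinates.
-/

set_option autoImplicit false
set_option linter.unusedSectionVars false
set_option linter.unusedVariables false
set_option linter.unusedSimpArgs false
set_option linter.ambiguousOpen false

namespace Cfsg.Agent.Lib.OddDeg

open Matrix Module Cfsg Cfsg.Geo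
open Cfsg.Agent.Lib.Geo.Basic Cfsg.Agent.Lib.Geo.QForm Cfsg.Agent.Lib.QuadFn
open Cfsg.Agent.Lib.GeoOmega.Basic Cfsg.Agent.Lib.GeoOmega.Eichler
open Cfsg.Agent.Lib.MinDeg Cfsg.Agent.Lib.MinDeg.Hyp Cfsg.Agent.Lib.Classical.MatrixBridge
open scoped MatrixGroups

variable {ι κ κ' κ'' : Type} [Fintype ι] [DecidableEq ι] [Fintype κ] [DecidableEq κ] [Fintype κ'] [DecidableEq κ']
  [Fintype κ''] [DecidableEq κ''] {F : Type*} [Field F] [Fintype F]
  {Q : (ι → F) → F} {Q' : (κ → F) → F} {Q'' : (κ' → F) → F} {Q''' : (κ'' → F) → F}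

/-- A bundled hyperbolic extension of non-degenerate forms. -/
structure HL (Q : (ι → F) → F) (Q' : (κ → F) → F) where
  he : HE Q Q'
  nd : IsNondegenerateQuadraticForm Q
  nd' : IsNondegenerateQuadraticForm Q'
  hq : 3 ≤ Fintype.card F

/-- The action of an element of `Ω`. -/
abbrev act (g : Omega F Q) (v : ι → F) : ι → F := g.1.1.1 *ᵥ v

lemma act_mul (g g' : Omega F Q) (v : ι → F) : act (g * g') v = act g (act g' v) := by
  show ((g.1.1 * g'.1.1 : GL ι F)).1 *ᵥ v = _
  rw [Units.val_mul, ← Matrix.mulVec_mulVec]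

lemma act_one (v : ι → F) : act (1 : Omega F Q) v = v := by
  show (1 : GL ι F).1 *ᵥ v = v
  simp

lemma act_inv_act (g : Omega F Q) (v : ι → F) : act g⁻¹ (act g v) = v := by
  rw [← act_mul, inv_mul_cancel, act_one]

lemma act_act_inv (g : Omega F Q) (v : ι → F) : act g (act g⁻¹ v) = v := by
  rw [← act_mul, mul_inv_cancel, act_one]

lemma omega_ext {g g' : Omega F Q} (h : ∀ v, act g v = act g' v) : g = g' :=
  Subtype.ext (Subtype.ext (by apply gl_ext_mulVec; exact h))

lemma eq_inv_of_act {g g' : Omega F Q} (h : ∀ v, act g (act g' v) = v) : g⁻¹ = g' := by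
  apply inv_eq_of_mul_eq_one_right
  apply omega_ext
  intro v
  rw [act_mul, h, act_one]

namespace HL

variable (L : HL Q Q')

/-- The swapped extension. -/
def swap : HL Q Q' := ⟨L.he.swap, L.nd, L.nd', L.hq⟩

/-- Coordinates. -/
abbrev vec (α β : F) (c : κ → F) : ι → F := L.he.vec α β c

lemma ext_vec {g g' : Omega F Q} (h : ∀ α β c, act g (L.vec α β c) = act g' (L.vec α β c)) : g = g' := by
  apply omega_ext
  intro v
  rw [← L.he.vec_coord v]
  exact h _ _ _

@[simp] lemma swap_vec (α β : F) (c : κ → F) : L.swap.vec α β c = L.vec β α c := L.he.swap_vec α β c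

@[simp] lemma swap_swap_vec (α β : F) (c : κ → F) : L.swap.swap.vec α β c = L.vec α β c := by
  simp

/-- The torus of the hyperbolic plane, as a linear map. -/
def hTF (t : Fˣ) : (ι → F) →ₗ[F] (ι → F) where
  toFun v := L.vec ((t : F) * v L.he.p0) (((t⁻¹ : Fˣ) : F) * v L.he.p1) (L.he.dn v)
  map_add' v w := by
    rw [L.he.vec_add]
    simp [mul_add]
  map_smul' c v := by
    rw [RingHom.id_apply, L.he.vec_smul]
    simp only [Pi.smul_apply, smul_eq_mul, HE.dn_smul]
    congr 1 <;> ring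

lemma hTF_vec (t : Fˣ) (α β : F) (c : κ → F) :
    L.hTF t (L.vec α β c) = L.vec ((t : F) * α) (((t⁻¹ : Fˣ) : F) * β) c := by
  show L.vec _ _ _ = _
  simp

lemma hTF_hTF (s t : Fˣ) (v : ι → F) : L.hTF s (L.hTF t v) = L.hTF (s * t) v := by
  rw [← L.he.vec_coord v, hTF_vec, hTF_vec, hTF_vec]
  congr 1
  · push_cast
    ring
  · simp only [_root_.mul_inv_rev, Units.val_mul]
    ring

lemma hTF_one (v : ι → F) : L.hTF 1 v = v := by
  rw [← L.he.vec_coord v, hTF_vec]
  simp

/-- The torus of the hyperbolic plane, as an element of the general linear group. -/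
noncomputable def hT (t : Fˣ) : GL ι F :=
  glToLin.symm (LinearEquiv.ofLinear (L.hTF t) (L.hTF t⁻¹)
    (LinearMap.ext fun v => by simp [hTF_hTF, hTF_one]) (LinearMap.ext fun v => by simp [hTF_hTF, hTF_one]))

lemma hT_mulVec (t : Fˣ) (v : ι → F) : (L.hT t).1 *ᵥ v = L.hTF t v := by
  rw [hT, glToLin_symm_mulVec]
  rfl

lemma hT_vec (t : Fˣ) (α β : F) (c : κ → F) :
    (L.hT t).1 *ᵥ L.vec α β c = L.vec ((t : F) * α) (((t⁻¹ : Fˣ) : F) * β) c := by
  rw [hT_mulVec, hTF_vec]

lemma hT_mem (t : Fˣ) : L.hT t ∈ isometryGroup F Q := by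
  rw [mem_isometryGroup_iff]
  intro v
  rw [← L.he.vec_coord v, hT_vec, L.he.Q_vec, L.he.Q_vec]
  have : (t : F) * ((t⁻¹ : Fˣ) : F) = 1 := by simp
  linear_combination (v L.he.p0 * v L.he.p1) * this

/-- The Eichler transformations as elements of the isometry group. -/
noncomputable def xI (b : κ → F) : isometryGroup F Q := ⟨L.he.xx L.nd L.nd' b, L.he.xx_mem L.nd L.nd' b⟩

/-- A unit different from one, when the field has at least three elements. -/
lemma exists_unit_ne (hq : 3 ≤ Fintype.card F) : ∃ t : Fˣ, t ≠ 1 := by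
  classical
  by_contra hc
  push Not at hc
  have h2 : Fintype.card Fˣ = 1 := by
    rw [Fintype.card_eq_one_iff]
    exact ⟨1, hc⟩
  rw [Fintype.card_units] at h2
  omega

/-- Eichler transformations lie in `Ω`, as soon as the field has at least three elements. -/
theorem xI_mem (b : κ → F) : L.xI b ∈ Omega F Q := by
  obtain ⟨t, ht⟩ := exists_unit_ne L.hq
  have ht1 : (t : F) - 1 ≠ 0 := by
    intro h0
    apply ht
    apply Units.ext
    simpa [sub_eq_zero] using h0
  set b' : κ → F := ((t : F) - 1)⁻¹ • b with hb'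
  set a : isometryGroup F Q := ⟨L.hT t, L.hT_mem t⟩ with ha
  set c : isometryGroup F Q := L.xI b' with hc
  have hconj : a * c * a⁻¹ = L.xI ((t : F) • b') := by
    apply Subtype.ext
    show L.hT t * L.he.xx L.nd L.nd' b' * (L.hT t)⁻¹ = L.he.xx L.nd L.nd' ((t : F) • b')
    symm
    apply L.he.xx_eq_of_eich
    have h1 := (L.he.xx_spec L.nd L.nd' b').conj (L.hT_mem t)
    have e1 : (L.hT t).1 *ᵥ L.he.P0 = (t : F) • L.he.P0 := by
      rw [HE.P0, hT_vec, L.he.vec_smul]
      simp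
    have e2 : (L.hT t).1 *ᵥ L.he.vec 0 0 b' = L.he.vec 0 0 b' := by
      rw [hT_vec]
      simp
    rw [e1, e2] at h1
    have h2 := Eich.smul L.nd (t : F) h1
    rwa [L.he.vec_smul, mul_zero] at h2
  have h3 : L.xI b = a * c * a⁻¹ * c⁻¹ := by
    rw [hconj]
    have h4 : L.xI ((t : F) • b') = L.xI b * c := by
      apply Subtype.ext
      show L.he.xx L.nd L.nd' _ = L.he.xx L.nd L.nd' b * L.he.xx L.nd L.nd' b'
      rw [← L.he.xx_add]
      congr 1
      rw [hb', smul_smul]
      have e : (t : F) * ((t : F) - 1)⁻¹ = 1 + ((t : F) - 1)⁻¹ := by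
        field_simp
        ring
      rw [e, add_smul, one_smul]
    rw [h4]
    group
  rw [h3]
  exact Subgroup.commutator_mem_commutator (Subgroup.mem_top _) (Subgroup.mem_top _)

/-- Eichler transformations as elements of `Ω`. -/
noncomputable def x (b : κ → F) : Omega F Q := ⟨L.xI b, L.xI_mem b⟩

lemma x_vec (b : κ → F) (α β : F) (c : κ → F) :
    act (L.x b) (L.vec α β c) = L.vec (α + pol Q' c b - Q' b * β) β (c - β • b) :=
  L.he.xx_vec L.nd L.nd' b α β c

lemma x_add (b b' : κ → F) : L.x (b + b') = L.x b * L.x b' := by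
  apply Subtype.ext
  apply Subtype.ext
  exact L.he.xx_add L.nd L.nd' b b'

lemma x_zero : L.x (0 : κ → F) = 1 := by
  apply Subtype.ext
  apply Subtype.ext
  exact L.he.xx_zero L.nd L.nd'

lemma x_neg (b : κ → F) : L.x (-b) = (L.x b)⁻¹ := by
  apply eq_inv_of_mul_eq_one_left
  rw [← x_add, neg_add_cancel, x_zero]

lemma x_comm (b b' : κ → F) : L.x b * L.x b' = L.x b' * L.x b := by
  rw [← x_add, ← x_add, add_comm]

/-- The opposite Eichler transformations. -/
noncomputable def y (b : κ → F) : Omega F Q := L.swap.x b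

lemma y_vec (b : κ → F) (α β : F) (c : κ → F) :
    act (L.y b) (L.vec α β c) = L.vec α (β + pol Q' c b - Q' b * α) (c - α • b) := by
  have := L.swap.x_vec b β α c
  simp only [swap_vec] at this
  exact this

lemma y_add (b b' : κ → F) : L.y (b + b') = L.y b * L.y b' := L.swap.x_add b b'
lemma y_zero : L.y (0 : κ → F) = 1 := L.swap.x_zero
lemma y_neg (b : κ → F) : L.y (-b) = (L.y b)⁻¹ := L.swap.x_neg b

/-- Lifting elements of the smaller `Ω`. -/
noncomputable def lf : Omega F Q' →* Omega F Q := L.he.lf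

lemma lf_vec (g : Omega F Q') (α β : F) (c : κ → F) :
    act (L.lf g) (L.vec α β c) = L.vec α β (act g c) :=
  L.he.lift_mulVec g.1.1 α β c

lemma lf_x (g : Omega F Q') (b : κ → F) : L.lf g * L.x b * (L.lf g)⁻¹ = L.x (act g b) := by
  apply Subtype.ext
  apply Subtype.ext
  exact L.he.lift_xx L.nd L.nd' g.1.2 b

lemma lf_y (g : Omega F Q') (b : κ → F) : L.lf g * L.y b * (L.lf g)⁻¹ = L.y (act g b) := by
  rw [mul_inv_eq_iff_eq_mul]
  apply L.ext_vec
  intro α β c
  rw [act_mul, act_mul, lf_vec, y_vec, y_vec, lf_vec]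
  have h1 := pol_isometry g.1.1 g.1.2 c b
  have h2 := (mem_isometryGroup_iff Q' g.1.1).mp g.1.2 b
  change pol Q' (act g c) (act g b) = _ at h1
  change Q' (act g b) = _ at h2
  rw [h1, h2]
  congr 1
  simp only [act, Matrix.mulVec_sub, Matrix.mulVec_smul]

/-- The Eichler transformation agrees with the one of the library, for the weights. -/
lemma x_eq_xO (hperp : ∀ b : κ → F, ∃ c, pol Q' c b = 0 ∧ Q' c ≠ 0) (b : κ → F) :
    L.x b = L.he.xO L.nd L.nd' hperp b := rfl

lemma lf_eq : L.lf = L.he.lf := rfl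

/-- The short Weyl element. -/
noncomputable def wS (b : κ → F) : Omega F Q := L.x ((Q' b)⁻¹ • b) * L.y b * L.x ((Q' b)⁻¹ • b)

lemma wS_vec {b : κ → F} (hb : Q' b ≠ 0) (α β : F) (c : κ → F) :
    act (L.wS b) (L.vec α β c) = L.vec (-β / Q' b) (-(Q' b * α)) (c - (pol Q' c b / Q' b) • b) := by
  have nd' := L.nd'
  rw [wS, act_mul, act_mul, x_vec, y_vec, x_vec]
  set r := Q' b with hr
  have h1 : Q' (r⁻¹ • b) = r⁻¹ := by
    rw [nd'.smul, ← hr]
    field_simp
  have h2 : pol Q' b b = 2 * r := by rw [pol_self nd']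
  simp only [h1]
  congr 1
  · simp only [pol_sub_left nd', pol_smul_right nd', pol_smul_left nd', h2]
    field_simp
    ring
  · simp only [pol_sub_left nd', pol_smul_right nd', pol_smul_left nd', h2]
    field_simp
    ring
  · simp only [pol_sub_left nd', pol_smul_right nd', pol_smul_left nd', h2]
    funext i
    simp only [Pi.sub_apply, Pi.smul_apply, smul_eq_mul]
    field_simp
    ring

end HL

/-! ### Two planes -/

variable (L : HL Q Q') (M : HL Q' Q'')

/-- The linear map of the exchange of the two planes. -/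
noncomputable def swO : isometryGroup F Q := ⟨Gen.sw L.he M.he, Gen.sw_mem L.he M.he⟩

lemma swO_vec (α β α' β' : F) (c : κ' → F) :
    (swO L M).1.1 *ᵥ L.vec α β (M.vec α' β' c) = L.vec α' β' (M.vec α β c) := Gen.sw_vec L.he M.he α β α' β' c

/-- The torus `(t, t⁻¹)` on the two planes. -/
noncomputable def dGI (t : Fˣ) : isometryGroup F Q :=
  (⟨L.hT t, L.hT_mem t⟩ : isometryGroup F Q) * swO L M * (⟨L.hT t, L.hT_mem t⟩ : isometryGroup F Q)⁻¹ * (swO L M)⁻¹

lemma swO_inv : (swO L M)⁻¹ = swO L M := by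
  apply Subtype.ext
  exact Gen.sw_inv L.he M.he

lemma hT_inv_vec (L : HL Q Q') (t : Fˣ) (α β : F) (c : κ → F) :
    ((⟨L.hT t, L.hT_mem t⟩ : isometryGroup F Q)⁻¹).1.1 *ᵥ L.vec α β c = L.vec (((t⁻¹ : Fˣ) : F) * α) ((t : F) * β) c := by
  have h := L.hT_vec t (((t⁻¹ : Fˣ) : F) * α) ((t : F) * β) c
  have e1 : (t : F) * (((t⁻¹ : Fˣ) : F) * α) = α := by simp
  have e2 : ((t⁻¹ : Fˣ) : F) * ((t : F) * β) = β := by simp
  rw [e1, e2] at h
  rw [← h]
  exact inv_mulVec_mulVec (L.hT t) _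

/-- The torus element. -/
noncomputable def dG (t : Fˣ) : Omega F Q :=
  ⟨dGI L M t, Subgroup.commutator_mem_commutator (Subgroup.mem_top _) (Subgroup.mem_top _)⟩

lemma dG_vec (t : Fˣ) (α β α' β' : F) (c : κ' → F) :
    act (dG L M t) (L.vec α β (M.vec α' β' c)) =
      L.vec ((t : F) * α) (((t⁻¹ : Fˣ) : F) * β) (M.vec (((t⁻¹ : Fˣ) : F) * α') ((t : F) * β') c) := by
  show (dGI L M t).1.1 *ᵥ _ = _
  rw [dGI, swO_inv]
  simp only [Subgroup.coe_mul, Units.val_mul, ← Matrix.mulVec_mulVec]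
  rw [swO_vec, hT_inv_vec, swO_vec]
  exact L.hT_vec t _ _ _

lemma eq_of_vec {g g' : Omega F Q}
    (h : ∀ α β α' β' (c : κ' → F), act g (L.vec α β (M.vec α' β' c)) = act g' (L.vec α β (M.vec α' β' c))) : g = g' := by
  apply L.ext_vec
  intro α β c
  rw [← M.he.vec_coord c]
  exact h _ _ _ _ _

lemma dG_mul (s t : Fˣ) : dG L M (s * t) = dG L M s * dG L M t := by
  apply eq_of_vec L M
  intro α β α' β' c
  rw [act_mul, dG_vec, dG_vec, dG_vec]
  simp only [_root_.mul_inv_rev, Units.val_mul]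
  congr 1
  · ring
  · ring
  · congr 1 <;> ring

lemma dG_one : dG L M 1 = 1 := by
  apply eq_of_vec L M
  intro α β α' β' c
  rw [dG_vec, act_one]
  simp

/-- The Weyl element exchanging the two planes. -/
noncomputable def nW : Omega F Q := L.x (M.vec 0 1 0) * L.y (M.vec 1 0 0) * L.x (M.vec 0 1 0)

lemma nW_vec (α β α' β' : F) (c : κ' → F) :
    act (nW L M) (L.vec α β (M.vec α' β' c)) = L.vec α' β' (M.vec (-α) (-β) c) := by
  have nd'' := M.nd'
  rw [nW, act_mul, act_mul]
  have e1 : ∀ a b a' b' (c : κ' → F), act (L.x (M.vec 0 1 0)) (L.vec a b (M.vec a' b' c)) = L.vec (a + a') b (M.vec a' (b' - b) c) := by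
    intro a b a' b' c
    rw [HL.x_vec, M.he.pol_vec, M.he.Q_vec, M.he.vec_smul, M.he.vec_sub, pol_zero_right nd'', Q_zero nd'']
    simp
  have e2 : ∀ a b a' b' (c : κ' → F), act (L.y (M.vec 1 0 0)) (L.vec a b (M.vec a' b' c)) = L.vec a (b + b') (M.vec (a' - a) b' c) := by
    intro a b a' b' c
    rw [HL.y_vec, M.he.pol_vec, M.he.Q_vec, M.he.vec_smul, M.he.vec_sub, pol_zero_right nd'', Q_zero nd'']
    simp
  rw [e1, e2, e1]
  congr 1
  · ring
  · ring
  · congr 1 <;> ring

end Cfsg.Agent.Lib.OddDeg
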