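import Mathlib

/-!
Simultaneous eigenvectors of commuting elements, not in the kernel of a given functional.
-/

set_option autoImplicit false

namespace Cfsg.Agent.Lib.OddDeg

open Polynomial Module

theorem exists_eigen_aux {V : Type*} [AddCommGroup V] [Module ℂ V] [FiniteDimensional ℂ V]
    (T : Module.End ℂ V) (N : ℕ) (hN : N ≠ 0) (hT : T ^ N = 1) (ℓ : V →ₗ[ℂ] ℂ) {u : V}
    (hℓ : ℓ u ≠ 0) : ∃ (μ : ℂ) (y : V), T y = μ • y ∧ ℓ y ≠ 0 := by
  by_contra hc
  push Not at hc
  have hsemi : T.IsSemisimple := by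
    apply Module.End.isSemisimple_of_squarefree_aeval_eq_zero (p := X ^ N - C 1)
    · exact (Polynomial.separable_X_pow_sub_C (1 : ℂ) (by exact_mod_cast hN)
        one_ne_zero).squarefree
    · simp [hT]
  have htop := Module.End.iSup_maxGenEigenspace_eq_top T
  have hle : (⨆ μ, T.maxGenEigenspace μ) ≤ LinearMap.ker ℓ := by
    apply iSup_le
    intro μ y hy
    rw [hsemi.isFinitelySemisimple.maxGenEigenspace_eq_eigenspace] at hy
    exact hc μ y (Module.End.mem_eigenspace_iff.1 hy)
  rw [htop] at hle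
  exact hℓ (hle (Submodule.mem_top))

theorem exists_eigen {G : Type*} [Group G] [Finite G] {V : Type*} [AddCommGroup V] [Module ℂ V]
    [FiniteDimensional ℂ V] (ρ : Representation ℂ G V) (s : Finset G)
    (hs : ∀ g ∈ s, ∀ g' ∈ s, g * g' = g' * g) (S : Submodule ℂ V)
    (hS : ∀ g ∈ s, ∀ v ∈ S, ρ g v ∈ S) (ℓ : V →ₗ[ℂ] ℂ) {u : V} (hu : u ∈ S) (hℓ : ℓ u ≠ 0) :
    ∃ w ∈ S, ℓ w ≠ 0 ∧ ∀ g ∈ s, ∃ μ : ℂ, ρ g w = μ • w := by
  classical
  induction s using Finset.induction_on generalizing S u with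
  | empty => exact ⟨u, hu, hℓ, by simp⟩
  | insert g s hg ih =>
    have hgS : ∀ v ∈ S, ρ g v ∈ S := hS g (Finset.mem_insert_self _ _)
    -- restrict
    let T : Module.End ℂ S := (ρ g).restrict hgS
    have hTN : T ^ orderOf g = 1 := by
      ext v
      have h1 : ∀ n : ℕ, (((T ^ n) v : S) : V) = ρ (g ^ n) v := by
        intro n
        induction n with
        | zero => simp
        | succ n ihn =>
          rw [pow_succ', Module.End.mul_apply]
          change ρ g (((T ^ n) v : S) : V) = _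
          rw [ihn, pow_succ', map_mul, Module.End.mul_apply]
      rw [h1, pow_orderOf_eq_one, map_one]
      rfl
    obtain ⟨μ, y, hy, hy'⟩ := exists_eigen_aux T (orderOf g) (orderOf_pos g).ne' hTN
      (ℓ ∘ₗ S.subtype) (u := ⟨u, hu⟩) (by simpa using hℓ)
    have hyV : ρ g (y : V) = μ • (y : V) := by
      have := congrArg (Subtype.val) hy
      simpa [T] using this
    -- the eigenspace inside `S`
    let S' : Submodule ℂ V := S ⊓ Module.End.eigenspace (ρ g) μ
    have hyS' : (y : V) ∈ S' := ⟨y.2, Module.End.mem_eigenspace_iff.2 hyV⟩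
    have hS' : ∀ g' ∈ s, ∀ v ∈ S', ρ g' v ∈ S' := by
      intro g' hg' v hv
      refine ⟨hS g' (Finset.mem_insert_of_mem hg') v hv.1, ?_⟩
      refine SetLike.mem_coe.2 (Module.End.mem_eigenspace_iff.2 ?_)
      have hc : g * g' = g' * g :=
        hs g (Finset.mem_insert_self _ _) g' (Finset.mem_insert_of_mem hg')
      have hv2 : ρ g v = μ • v := Module.End.mem_eigenspace_iff.1 hv.2
      rw [← Module.End.mul_apply, ← map_mul, hc, map_mul, Module.End.mul_apply, hv2, map_smul]
    obtain ⟨w, hw, hw', hw''⟩ := ih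
      (fun a ha b hb => hs a (Finset.mem_insert_of_mem ha) b (Finset.mem_insert_of_mem hb))
      S' hS' hyS' (by simpa using hy')
    refine ⟨w, hw.1, hw', ?_⟩
    intro g' hg'
    rcases Finset.mem_insert.1 hg' with rfl | hg'
    · exact ⟨μ, Module.End.mem_eigenspace_iff.1 hw.2⟩
    · exact hw'' g' hg'

end Cfsg.Agent.Lib.OddDeg
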