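import Cfsg.Agent.Lib.OddDeg.Defs

/-!
`Ω` is generated by the two opposite groups of Eichler transformations.
-/

set_option autoImplicit false
set_option linter.unusedSectionVars false
set_option linter.unusedVariables false
set_option linter.unusedSimpArgs false
set_option linter.ambiguousOpen false

namespace Cfsg.Agent.Lib.OddDeg

open Matrix Module Cfsg Cfsg.Geo
open Cfsg.Agent.Lib.Geo.Basic Cfsg.Agent.Lib.Geo.QForm Cfsg.Agent.Lib.QuadFn
open Cfsg.Agent.Lib.GeoOmega.Basic Cfsg.Agent.Lib.GeoOmega.Eichler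
open Cfsg.Agent.Lib.MinDeg Cfsg.Agent.Lib.MinDeg.Hyp Cfsg.Agent.Lib.Classical.MatrixBridge
open scoped MatrixGroups

variable {ι κ : Type} [Fintype ι] [DecidableEq ι] [Fintype κ] [DecidableEq κ] {F : Type*} [Field F] [Fintype F]
  {Q : (ι → F) → F} {Q' : (κ → F) → F} (L : HL Q Q')

/-- The subgroup of the general linear group attached to a subgroup of `Ω`. -/
private def glImage (T : Subgroup (Omega F Q)) : Subgroup (GL ι F) :=
  (T.map (Subgroup.subtype _)).map (isometryGroup F Q).subtype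

private lemma full_P0_aux (T : Subgroup (Omega F Q)) (hx : ∀ b, L.x b ∈ T) : Full Q (glImage T) L.he.P0 := by
  intro y g' hy hg'
  have hQ := L.nd
  have hQ' := L.nd'
  rw [pol_symm hQ, L.he.pol_left_P0 hQ'] at hy
  have e : L.he.xx hQ hQ' (L.he.dn y) = g' := by
    apply Eich.unique' _ hg'
    intro v
    rw [L.he.xx_spec hQ hQ' (L.he.dn y) v]
    have hy' : y = y L.he.p0 • L.he.P0 + L.he.vec 0 0 (L.he.dn y) := by
      apply L.he.ext_coord <;> simp [hy]
    have h5 : pol Q v y = v L.he.p1 * y L.he.p0 + pol Q v (L.he.vec 0 0 (L.he.dn y)) := by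
      conv_lhs => rw [hy']
      rw [pol_add_right hQ, pol_smul_right hQ, L.he.pol_left_P0 hQ']
      ring
    have h6 : Q y = Q' (L.he.dn y) := by
      rw [L.he.Q_eq, hy]
      ring
    have h7 : Q (L.he.vec 0 0 (L.he.dn y)) = Q' (L.he.dn y) := by
      rw [L.he.Q_vec]
      ring
    rw [h5, h6, h7, L.he.pol_left_P0 hQ']
    have h8 : v L.he.p1 • y = v L.he.p1 • (y L.he.p0 • L.he.P0 + L.he.vec 0 0 (L.he.dn y)) := by rw [← hy']
    rw [h8]
    module
  rw [← e]
  exact ⟨(L.x (L.he.dn y)).1, ⟨L.x (L.he.dn y), hx _, rfl⟩, rfl⟩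

/-- A subgroup of `Ω` containing the two opposite groups of Eichler transformations is everything. -/
theorem top_of_xy (hn : 7 ≤ Fintype.card ι) (T : Subgroup (Omega F Q)) (hx : ∀ b, L.x b ∈ T) (hy : ∀ b, L.y b ∈ T) :
    T = ⊤ := by
  have hQ := L.nd
  have hQ' := L.nd'
  have hF1 := full_P0_aux L T hx
  have hF2 : Full Q (glImage T) L.he.P1 := by
    have h := full_P0_aux L.swap T hy
    have e : L.swap.he.P0 = L.he.P1 := by
      show L.he.swap.vec 1 0 0 = L.he.vec 0 1 0
      rw [HE.swap_vec]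
    rwa [e] at h
  have hle := omega_le_of_full hQ hn (L.he.Q_P1 hQ') (L.he.Q_P0 hQ') hF2 hF1 (by
    rw [L.he.pol_left_P1 hQ']
    simp)
  rw [eq_top_iff]
  intro g _
  have hg : g.1.1 ∈ omegaGL Q := ⟨g.1, g.2, rfl⟩
  obtain ⟨_, ⟨y, hy', rfl⟩, hy2⟩ := hle hg
  have : y = g := Subtype.ext (Subtype.ext hy2)
  rwa [← this]

variable {V : Type*} [AddCommGroup V] [Module ℂ V] {ρ : Representation ℂ (Omega F Q) V}

lemma rho_inv_rho_aux (g : Omega F Q) (v : V) : ρ g⁻¹ (ρ g v) = v := by
  rw [← Module.End.mul_apply, ← map_mul, inv_mul_cancel, map_one]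
  rfl

/-- A subspace stable under the two opposite groups of Eichler transformations is stable. -/
theorem stable_of_xy (hn : 7 ≤ Fintype.card ι) (hU' : ∀ a, ∃ c, Q' c = a) (S : Submodule ℂ V)
    (hx : ∀ b, ∀ v ∈ S, ρ (L.x b) v ∈ S) (hy : ∀ b, ∀ v ∈ S, ρ (L.y b) v ∈ S) (g : Omega F Q) :
    ∀ v ∈ S, ρ g v ∈ S := by
  let T : Subgroup (Omega F Q) :=
    { carrier := {g | (∀ v ∈ S, ρ g v ∈ S) ∧ ∀ v ∈ S, ρ g⁻¹ v ∈ S}
      mul_mem' := by
        rintro a b ⟨ha, ha'⟩ ⟨hb, hb'⟩
        refine ⟨fun v hv => ?_, fun v hv => ?_⟩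
        · rw [map_mul]
          exact ha _ (hb _ hv)
        · rw [_root_.mul_inv_rev, map_mul]
          exact hb' _ (ha' _ hv)
      one_mem' := by
        refine ⟨fun v hv => ?_, fun v hv => ?_⟩
        · simpa using hv
        · simpa using hv
      inv_mem' := by
        rintro a ⟨ha, ha'⟩
        refine ⟨ha', fun v hv => ?_⟩
        rw [inv_inv]
        exact ha _ hv }
  have hT : T = ⊤ := by
    refine top_of_xy L hn T (fun b => ⟨hx b, fun v hv => ?_⟩) (fun b => ⟨hy b, fun v hv => ?_⟩)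
    · rw [← L.x_neg]
      exact hx _ _ hv
    · rw [← L.y_neg]
      exact hy _ _ hv
  have hg : g ∈ T := by rw [hT]; trivial
  exact hg.1

/-- A vector fixed by the two opposite groups of Eichler transformations is fixed. -/
theorem fix_of_xy (hn : 7 ≤ Fintype.card ι) (hU' : ∀ a, ∃ c, Q' c = a) {u : V}
    (hx : ∀ b, ρ (L.x b) u = u) (hy : ∀ b, ρ (L.y b) u = u) (g : Omega F Q) : ρ g u = u := by
  let T : Subgroup (Omega F Q) :=
    { carrier := {g | ρ g u = u}
      mul_mem' := by
        intro a b ha hb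
        show ρ (a * b) u = u
        rw [map_mul, Module.End.mul_apply, show ρ b u = u from hb]
        exact ha
      one_mem' := by
        show ρ 1 u = u
        simp
      inv_mem' := by
        intro a ha
        show ρ a⁻¹ u = u
        conv_lhs => rw [← show ρ a u = u from ha]
        exact rho_inv_rho_aux a u }
  have hT : T = ⊤ := top_of_xy L hn T hx hy
  have hg : g ∈ T := by rw [hT]; trivial
  exact hg

end Cfsg.Agent.Lib.OddDeg
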