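import Cfsg.Agent.Lib.OddDeg.Rel3
import Cfsg.Agent.Lib.OddDeg.Move
import Cfsg.Agent.Lib.OddDeg.Gen2
import Cfsg.Agent.Lib.OddDeg.Eig
import Cfsg.Agent.Lib.MinDeg.Trans

/-!
A common eigenvector of the torus in the fixed space, with prescribed character, obtained from an elliptic reflection.
-/

set_option autoImplicit false
set_option linter.unusedSectionVars false
set_option linter.unusedVariables false
set_option linter.unusedSimpArgs false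
set_option linter.ambiguousOpen false

namespace Cfsg.Agent.Lib.OddDeg

open Matrix Module Cfsg Cfsg.Geo
open Cfsg.Agent.Lib.Geo.Basic Cfsg.Agent.Lib.Geo.QForm Cfsg.Agent.Lib.QuadFn
open Cfsg.Agent.Lib.GeoOmega.Basic Cfsg.Agent.Lib.GeoOmega.Eichler
open Cfsg.Agent.Lib.MinDeg Cfsg.Agent.Lib.MinDeg.Hyp Cfsg.Agent.Lib.Classical.MatrixBridge
open Cfsg.Agent.Lib.MinDeg.Wt
open scoped _root_.Classical MatrixGroups

variable {ι κ κ' κ'' : Type} [Fintype ι] [DecidableEq ι] [Fintype κ] [DecidableEq κ] [Fintype κ'] [DecidableEq κ']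
  [Fintype κ''] [DecidableEq κ''] {F : Type*} [Field F] [Fintype F]
  {Q : (ι → F) → F} {Q' : (κ → F) → F} {Q'' : (κ' → F) → F} {Q''' : (κ'' → F) → F}

variable (L : HL Q Q') (M : HL Q' Q'') (K : HL Q'' Q''')
  {V : Type*} [AddCommGroup V] [Module ℂ V] [FiniteDimensional ℂ V] (ρ : Representation ℂ (Omega F Q) V)
  {ψ : AddChar F ℂ} (hψ : ψ 1 ≠ 1)

include hψ in
/-- The projection on the fixed space commutes with the lifted group. -/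
lemma E_lf (I : IH ρ) (g : Omega F Q') (z : V) :
    ρ (L.lf g) (EE (Q' := Q') ρ L.x ψ 0 z) = EE (Q' := Q') ρ L.x ψ 0 (ρ (L.lf g) z) := by
  have h := rho_EE I L.x_add L.nd' hψ (γ := L.lf g) (A := g.1.1) g.1.2 (fun b => L.lf_x g b) 0 z
  rwa [Matrix.mulVec_zero] at h

lemma P0_ne : M.he.P0 ≠ 0 := by
  intro h
  have := congrFun h M.he.p0
  simp [HE.P0] at this

lemma Q_P0 : Q' M.he.P0 = 0 := by
  show Q' (M.vec 1 0 0) = 0
  rw [M_Q M, Q_zero M.nd']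
  ring

section

variable (hw : ∀ c, c ≠ 0 → finrank ℂ (Vc (Q' := Q') ρ L.x ψ c) = if Q' c = 0 then 1 else 0)

include hψ hw

/-- If the projection of the image of one singular weight vector vanishes, so do those of all weight vectors. -/
lemma E_w_zero (I : IH ρ) (hperp' : ∀ b : κ' → F, ∃ c, pol Q'' c b = 0 ∧ Q'' c ≠ 0) (hU : ∀ a, ∃ c, Q'' c = a)
    {d : κ → F} (hd : Q' d ≠ 0) {v₀ : V} (hv₀ : v₀ ∈ Vc (Q' := Q') ρ L.x ψ M.he.P0) (hv₀0 : v₀ ≠ 0)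
    (h0 : EE (Q' := Q') ρ L.x ψ 0 (ρ (L.wS d) v₀) = 0) {c : κ → F} (hc : c ≠ 0) {v : V}
    (hv : v ∈ Vc (Q' := Q') ρ L.x ψ c) : EE (Q' := Q') ρ L.x ψ 0 (ρ (L.wS d) v) = 0 := by
  by_cases hq : Q' c = 0
  · have hne : ∀ c : κ' → F, c ≠ 0 → ∃ b, pol Q'' c b ≠ 0 := fun c hc => (M.nd'.nondegenerate c hc).2
    obtain ⟨g, hg⟩ := Trans.exists_trans M.he M.nd M.nd' hperp' hU hne (P0_ne M) hc ((Q_P0 M).trans hq.symm)
    have hmem : ρ (L.lf g) v₀ ∈ Vc (Q' := Q') ρ L.x ψ c := by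
      have := move_mem (ρ := ρ) L.nd' hψ L.x_add (γ := L.lf g) (A := g.1.1) g.1.2 (fun b => L.lf_x g b) hv₀
      rwa [hg] at this
    have hne0 : ρ (L.lf g) v₀ ≠ 0 := by
      intro h
      apply hv₀0
      have := rho_inv_rho ρ (L.lf g) v₀
      rw [h, map_zero] at this
      exact this.symm
    have h1 := hw c hc
    rw [if_pos hq] at h1
    have h2 := (finrank_eq_one_iff_of_nonzero' (⟨_, hmem⟩ : Vc (Q' := Q') ρ L.x ψ c) (by
      intro h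
      exact hne0 (congrArg Subtype.val h))).1 h1 ⟨v, hv⟩
    obtain ⟨μ, hμ⟩ := h2
    have h3 : v = μ • ρ (L.lf g) v₀ := (congrArg Subtype.val hμ).symm
    obtain ⟨g', hg'⟩ := wS_lf L hd g
    rw [h3, map_smul, map_smul, ← rho_mul, hg', rho_mul, ← E_lf L ρ hψ I, h0, map_zero, smul_zero]
  · have h1 := hw c hc
    rw [if_neg hq] at h1
    have h2 := Submodule.finrank_eq_zero.1 h1
    rw [h2] at hv
    rw [(Submodule.mem_bot ℂ).1 hv, map_zero, map_zero]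

/-- The fixed space is then stable under the reflection. -/
lemma w_fix (I : IH ρ) (hperp' : ∀ b : κ' → F, ∃ c, pol Q'' c b = 0 ∧ Q'' c ≠ 0) (hU : ∀ a, ∃ c, Q'' c = a)
    {d : κ → F} (hd : Q' d ≠ 0) {v₀ : V} (hv₀ : v₀ ∈ Vc (Q' := Q') ρ L.x ψ M.he.P0) (hv₀0 : v₀ ≠ 0)
    (h0 : EE (Q' := Q') ρ L.x ψ 0 (ρ (L.wS d) v₀) = 0) {u : V} (hu : ∀ b, ρ (L.x b) u = u) (b : κ → F) :
    ρ (L.x b) (ρ (L.wS d) u) = ρ (L.wS d) u := by
  refine fix_of_EE (ρ := ρ) L.x_add L.nd' hψ (fun c hc => ?_) b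
  apply I.eq_zero_of_self
  set z := EE (Q' := Q') ρ L.x ψ c (ρ (L.wS d) u) with hz
  have hzm : z ∈ Vc (Q' := Q') ρ L.x ψ c := EE_mem L.nd' hψ L.x_add c _
  have h1 : EE (Q' := Q') ρ L.x ψ c z = z := by
    have := EE_idem (ρ := ρ) L.nd' hψ L.x_add c
    exact congrArg (fun T : Module.End ℂ V => T (ρ (L.wS d) u)) this
  calc I.B z z = I.B (ρ (L.wS d) u) (EE (Q' := Q') ρ L.x ψ c z) := by
        rw [hz, EE_adj I L.x_add L.nd' hψ]
    _ = I.B u (ρ (L.wS d) z) := by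
        rw [h1, I.adj, wS_inv L hd]
    _ = I.B u (EE (Q' := Q') ρ L.x ψ 0 (ρ (L.wS d) z)) := by
        conv_lhs => rw [← EE_zero_of_fix (ρ := ρ) L.x_add L.nd' hψ hu]
        rw [EE_adj I L.x_add L.nd' hψ]
    _ = 0 := by
        rw [E_w_zero L M ρ hψ hw I hperp' hU hd hv₀ hv₀0 h0 hc hzm, I.zero_right]

/-- The fixed vectors are then fixed by the opposite group. -/
lemma y_fix (I : IH ρ) (hperp' : ∀ b : κ' → F, ∃ c, pol Q'' c b = 0 ∧ Q'' c ≠ 0) (hU : ∀ a, ∃ c, Q'' c = a)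
    {d : κ → F} (hd : Q' d ≠ 0) {v₀ : V} (hv₀ : v₀ ∈ Vc (Q' := Q') ρ L.x ψ M.he.P0) (hv₀0 : v₀ ≠ 0)
    (h0 : EE (Q' := Q') ρ L.x ψ 0 (ρ (L.wS d) v₀) = 0) {u : V} (hu : ∀ b, ρ (L.x b) u = u) (b' : κ → F) :
    ρ (L.y b') u = u := by
  have nd := L.nd'
  have hne : -(Q' d) ≠ 0 := neg_ne_zero.mpr hd
  set b := Rfl Q' d ((-(Q' d))⁻¹ • b') with hb
  have h1 : (-(Q' d)) • Rfl Q' d b = b' := by
    rw [hb, Rfl_Rfl nd hd, smul_smul, mul_inv_cancel₀ hne, one_smul]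
  have h2 := wS_x L hd b
  rw [h1] at h2
  have hww : ρ (L.wS d) (ρ (L.wS d) u) = u := by
    rw [← rho_mul, wS_sq L hd, map_one]
    rfl
  have h3 : ρ (L.y b') (ρ (L.wS d) (ρ (L.wS d) u)) = ρ (L.wS d) (ρ (L.x b) (ρ (L.wS d) u)) := by
    rw [← rho_mul, ← h2, rho_mul]
  rw [hww, w_fix L M ρ hψ hw I hperp' hU hd hv₀ hv₀0 h0 hu, hww] at h3
  exact h3

/-- The projection of the image under the reflection of a singular weight vector does not vanish. -/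
theorem E_w_ne (I : IH ρ) (hirr : ρ.IsIrreducible) (hn : 7 ≤ Fintype.card ι) (hU' : ∀ a, ∃ c, Q' c = a)
    (hperp' : ∀ b : κ' → F, ∃ c, pol Q'' c b = 0 ∧ Q'' c ≠ 0) (hU : ∀ a, ∃ c, Q'' c = a)
    (hnt : ∃ b, ρ (L.x b) ≠ 1) (hU0 : ∃ u : V, u ≠ 0 ∧ ∀ b, ρ (L.x b) u = u)
    {d : κ → F} (hd : Q' d ≠ 0) {v₀ : V} (hv₀ : v₀ ∈ Vc (Q' := Q') ρ L.x ψ M.he.P0) (hv₀0 : v₀ ≠ 0) :
    EE (Q' := Q') ρ L.x ψ 0 (ρ (L.wS d) v₀) ≠ 0 := by
  intro h0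
  have hmem : ∀ v, v ∈ Vc (Q' := Q') ρ L.x ψ 0 ↔ ∀ b, ρ (L.x b) v = v := by
    intro v
    rw [mem_Vc L.nd' hψ L.x_add]
    simp [pol_zero_left L.nd']
  have hst := stable_of_xy L (ρ := ρ) hn hU' (Vc (Q' := Q') ρ L.x ψ 0)
    (fun b v hv => by
      rw [(hmem v).1 hv b]
      exact hv)
    (fun b v hv => by
      rw [y_fix L M ρ hψ hw I hperp' hU hd hv₀ hv₀0 h0 ((hmem v).1 hv) b]
      exact hv)
  let S₀ : Subrepresentation ρ := ⟨Vc (Q' := Q') ρ L.x ψ 0, fun g v hv => hst g v hv⟩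
  rcases hirr.eq_bot_or_eq_top S₀ with hS | hS
  · have h1 : S₀.toSubmodule = ⊥ := congrArg Subrepresentation.toSubmodule hS
    obtain ⟨u, hu, hux⟩ := hU0
    have h2 : u ∈ S₀.toSubmodule := (hmem u).2 hux
    rw [h1] at h2
    exact hu ((Submodule.mem_bot ℂ).1 h2)
  · have h1 : S₀.toSubmodule = ⊤ := congrArg Subrepresentation.toSubmodule hS
    obtain ⟨b, hb⟩ := hnt
    apply hb
    apply LinearMap.ext
    intro v
    have h2 : v ∈ S₀.toSubmodule := by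
      rw [h1]
      exact Submodule.mem_top
    exact (hmem v).1 h2 b

/-- The common eigenvector (M15), with the action of the root groups on the singular line given as hypotheses. -/
theorem exists_u0_of_line (I : IH ρ) (hirr : ρ.IsIrreducible) (hn : 7 ≤ Fintype.card ι) (hU' : ∀ a, ∃ c, Q' c = a)
    (hperp' : ∀ b : κ' → F, ∃ c, pol Q'' c b = 0 ∧ Q'' c ≠ 0) (hU : ∀ a, ∃ c, Q'' c = a)
    (hnt : ∃ b, ρ (L.x b) ≠ 1) (hU0 : ∃ u : V, u ≠ 0 ∧ ∀ b, ρ (L.x b) u = u)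
    {d₀ : κ'' → F} (hd₀ : Q''' d₀ ≠ 0) {lam : Fˣ → ℂ}
    (hlam : ∀ t, ∀ v ∈ Vc (Q' := Q') ρ L.x ψ M.he.P0, ρ (dG L M.swap t) v = lam t • v)
    (hl1 : ∀ v ∈ Vc (Q' := Q') ρ L.x ψ M.he.P0, ∀ b, ρ (L.lf (M.x b)) v = v)
    (hl2 : ∀ v ∈ Vc (Q' := Q') ρ L.x ψ M.he.P0, ∀ c, ρ (L.lf (M.lf (K.x c))) v = v)
    (hl3 : ∀ v ∈ Vc (Q' := Q') ρ L.x ψ M.he.P0, ∀ c, ρ (L.lf (M.lf (K.y c))) v = v) :
    ∃ (u₀ : V) (χd χA θ : Fˣ → ℂ), u₀ ≠ 0 ∧ InC L M K ρ u₀ ∧ TE L M K ρ u₀ χd χA θ ∧ ∀ t, χd t⁻¹ = lam t := by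
  have hd' : Q'' (K.vec 0 0 d₀) ≠ 0 := by
    rw [Qd0 K]
    exact hd₀
  have hd : Q' (M.vec 0 0 (K.vec 0 0 d₀)) ≠ 0 := Qd M hd'
  set w₀ := L.wS (M.vec 0 0 (K.vec 0 0 d₀)) with hw₀
  have hww : ∀ z : V, ρ w₀ (ρ w₀ z) = z := by
    intro z
    rw [← rho_mul, hw₀, wS_sq L hd, map_one]
    rfl
  -- a vector in the line
  obtain ⟨v₀, hv₀, hv₀0⟩ : ∃ v₀ ∈ Vc (Q' := Q') ρ L.x ψ M.he.P0, v₀ ≠ 0 := by
    have h1 := hw M.he.P0 (P0_ne M)
    rw [if_pos (Q_P0 M)] at h1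
    have h2 : Vc (Q' := Q') ρ L.x ψ M.he.P0 ≠ ⊥ := by
      intro h
      rw [h] at h1
      simp at h1
    exact Submodule.exists_mem_ne_zero_of_ne_bot h2
  set E := EE (Q' := Q') ρ L.x ψ 0 with hE
  set u' := E (ρ w₀ v₀) with hu'
  have hu'0 : u' ≠ 0 := E_w_ne L M ρ hψ hw I hirr hn hU' hperp' hU hnt hU0 hd hv₀ hv₀0
  have hEx : ∀ (z : V) (b : κ → F), ρ (L.x b) (E z) = E z := by
    intro z b
    have := x_EE (ρ := ρ) L.x_add L.nd' hψ b 0 z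
    rw [pol_zero_left L.nd', AddChar.map_zero_eq_one, one_smul] at this
    exact this
  -- the vector lies in the fixed space
  have hC : u' ∈ Csp L M K ρ := by
    refine ⟨fun b => hEx _ b, fun b => ?_, fun c => ?_, fun c => ?_⟩
    · rw [hu', hE, E_lf L ρ hψ I, ← rho_mul]
      have h1 := w0_zz L M hd' (Rfl Q'' (K.vec 0 0 d₀) b)
      rw [Rfl_Rfl M.nd' hd'] at h1
      rw [← hw₀] at h1
      rw [← h1, rho_mul, hl1 v₀ hv₀]
    · rw [hu', hE, E_lf L ρ hψ I, ← rho_mul]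
      have h1 := w0_k1 L M K hd₀ (Rfl Q''' d₀ c)
      rw [Rfl_Rfl K.nd' hd₀] at h1
      rw [← hw₀] at h1
      rw [← h1, rho_mul, hl2 v₀ hv₀]
    · rw [hu', hE, E_lf L ρ hψ I, ← rho_mul]
      have h1 := w0_k2 L M K hd₀ (Rfl Q''' d₀ c)
      rw [Rfl_Rfl K.nd' hd₀] at h1
      rw [← hw₀] at h1
      rw [← h1, rho_mul, hl3 v₀ hv₀]
  -- the functional
  let ℓ : V →ₗ[ℂ] ℂ :=
    { toFun := fun z => I.B z (ρ w₀ v₀)
      map_add' := fun a b => I.add_left a b _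
      map_smul' := fun c a => I.smul_left c a _ }
  have hℓ : ∀ z, ℓ z = I.B z (ρ w₀ v₀) := fun z => rfl
  have hℓu : ℓ u' ≠ 0 := by
    rw [hℓ]
    have h1 : I.B u' (ρ w₀ v₀) = I.B u' u' := by
      have h2 : E u' = u' := by
        have := EE_idem (ρ := ρ) L.nd' hψ L.x_add (x := L.x) (ψ := ψ) (0 : κ → F)
        exact congrArg (fun T : Module.End ℂ V => T (ρ w₀ v₀)) this
      calc I.B u' (ρ w₀ v₀) = I.B (E u') (ρ w₀ v₀) := by rw [h2]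
        _ = I.B u' (E (ρ w₀ v₀)) := EE_adj I L.x_add L.nd' hψ _ _ _
    rw [h1]
    exact I.self_ne_zero hu'0
  -- simultaneous eigenvectors
  let s : Finset (Omega F Q) :=
    Finset.univ.image (dG L M) ∪ Finset.univ.image (dG L M.swap) ∪ Finset.univ.image (E2 L M K)
  have hs : ∀ g ∈ s, ∃ t : Fˣ, g = dG L M t ∨ g = dG L M.swap t ∨ g = E2 L M K t := by
    intro g hg
    simp only [s, Finset.mem_union, Finset.mem_image, Finset.mem_univ, true_and] at hg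
    rcases hg with (⟨t, rfl⟩ | ⟨t, rfl⟩) | ⟨t, rfl⟩
    · exact ⟨t, Or.inl rfl⟩
    · exact ⟨t, Or.inr (Or.inl rfl)⟩
    · exact ⟨t, Or.inr (Or.inr rfl)⟩
  have hEE : ∀ s t : Fˣ, E2 L M K s * E2 L M K t = E2 L M K t * E2 L M K s := by
    intro s t
    rw [E2, E2, ← map_mul, ← map_mul, dG_comm]
  have hcomm : ∀ g ∈ s, ∀ g' ∈ s, g * g' = g' * g := by
    intro g hg g' hg'
    obtain ⟨t, ht⟩ := hs g hg
    obtain ⟨t', ht'⟩ := hs g' hg'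
    rcases ht with rfl | rfl | rfl <;> rcases ht' with rfl | rfl | rfl
    · exact dG_comm L M t t'
    · exact (AA_dd L M t' t).symm
    · exact (E2_dd L M K t' t).symm
    · exact AA_dd L M t t'
    · exact dG_comm L M.swap t t'
    · exact (E2_AA L M K t' t).symm
    · exact E2_dd L M K t t'
    · exact E2_AA L M K t t'
    · exact hEE t t'
  have hstab : ∀ g ∈ s, ∀ v ∈ Csp L M K ρ, ρ g v ∈ Csp L M K ρ := by
    intro g hg v hv
    obtain ⟨t, ht⟩ := hs g hg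
    rcases ht with rfl | rfl | rfl
    · exact InC.dd hv t
    · exact InC.AA hv t
    · exact InC.E2 hv t
  obtain ⟨u₀, hu₀, hℓ₀, heig⟩ := exists_eigen ρ s hcomm (Csp L M K ρ) hstab ℓ hC hℓu
  have hd1 : ∀ t, ∃ μ : ℂ, ρ (dG L M t) u₀ = μ • u₀ := fun t => heig _ (by
    simp only [s, Finset.mem_union, Finset.mem_image, Finset.mem_univ, true_and]
    exact Or.inl (Or.inl ⟨t, rfl⟩))
  have hd2 : ∀ t, ∃ μ : ℂ, ρ (dG L M.swap t) u₀ = μ • u₀ := fun t => heig _ (by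
    simp only [s, Finset.mem_union, Finset.mem_image, Finset.mem_univ, true_and]
    exact Or.inl (Or.inr ⟨t, rfl⟩))
  have hd3 : ∀ t, ∃ μ : ℂ, ρ (E2 L M K t) u₀ = μ • u₀ := fun t => heig _ (by
    simp only [s, Finset.mem_union, Finset.mem_image, Finset.mem_univ, true_and]
    exact Or.inr ⟨t, rfl⟩)
  choose χd hχd using hd1
  choose χA hχA using hd2
  choose θ hθ using hd3
  have hu₀0 : u₀ ≠ 0 := by
    rintro rfl
    apply hℓ₀
    rw [hℓ, I.zero_left]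
  refine ⟨u₀, χd, χA, θ, hu₀0, hu₀, ⟨hχd, hχA, hθ⟩, fun t => ?_⟩
  -- the character
  have ha : I.B (ρ w₀ u₀) v₀ ≠ 0 := by
    have h1 : I.B u₀ (ρ w₀ v₀) = I.B (ρ w₀ u₀) v₀ := by
      rw [I.adj, hw₀, wS_inv L hd]
    rw [← h1]
    exact hℓ₀
  have h2 := I.inv (dG L M.swap t) (ρ w₀ u₀) v₀
  have h3 : ρ (dG L M.swap t) (ρ w₀ u₀) = χd t⁻¹ • ρ w₀ u₀ := by
    rw [← rho_mul, hw₀, AA_w0 L M hd', rho_mul, hχd, map_smul]
  rw [h3, hlam t v₀ hv₀, I.smul_left, I.smul_right] at h2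
  have h4 : lam t * star (lam t) = 1 := I.eig_star hv₀0 (hlam t v₀ hv₀)
  have h5 : χd t⁻¹ * star (lam t) = 1 := by
    have : (χd t⁻¹ * star (lam t) - 1) * I.B (ρ w₀ u₀) v₀ = 0 := by
      linear_combination h2
    have := (mul_eq_zero.mp this).resolve_right ha
    linear_combination this
  calc χd t⁻¹ = χd t⁻¹ * (lam t * star (lam t)) := by rw [h4, mul_one]
    _ = lam t * (χd t⁻¹ * star (lam t)) := by ring
    _ = lam t := by rw [h5, mul_one]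

end

end Cfsg.Agent.Lib.OddDeg
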