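import Cfsg.Agent.Lib.OddDeg.Ell
import Cfsg.Agent.Lib.OddDeg.Line

/-!
The common eigenvector of the torus, with the singular line handled by the line lemmas.
-/

set_option autoImplicit false
set_option linter.unusedSectionVars false
set_option linter.unusedVariables false
set_option linter.unusedSimpArgs false
set_option linter.ambiguousOpen false

namespace Cfsg.Agent.Lib.OddDeg

open Matrix Module Cfsg Cfsg.Geo
open Cfsg.Agent.Lib.Geo.Basic Cfsg.Agent.Lib.Geo.QForm Cfsg.Agent.Lib.QuadFn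
open Cfsg.Agent.Lib.GeoOmega.Basic Cfsg.Agent.Lib.GeoOmega.Eichler
open Cfsg.Agent.Lib.MinDeg Cfsg.Agent.Lib.MinDeg.Hyp Cfsg.Agent.Lib.Classical.MatrixBridge
open Cfsg.Agent.Lib.MinDeg.Wt
open scoped _root_.Classical MatrixGroups

variable {ι κ κ' κ'' : Type} [Fintype ι] [DecidableEq ι] [Fintype κ] [DecidableEq κ] [Fintype κ'] [DecidableEq κ']
  [Fintype κ''] [DecidableEq κ''] {F : Type*} [Field F] [Fintype F]
  {Q : (ι → F) → F} {Q' : (κ → F) → F} {Q'' : (κ' → F) → F} {Q''' : (κ'' → F) → F}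

variable (L : HL Q Q') (M : HL Q' Q'') (K : HL Q'' Q''')
  {V : Type*} [AddCommGroup V] [Module ℂ V] [FiniteDimensional ℂ V] (ρ : Representation ℂ (Omega F Q) V)
  {ψ : AddChar F ℂ} (hψ : ψ 1 ≠ 1)

include hψ in
/-- M15: the common eigenvector of the torus in the fixed space, with prescribed character. -/
theorem exists_u0 (hw : ∀ c, c ≠ 0 → finrank ℂ (Vc (Q' := Q') ρ L.x ψ c) = if Q' c = 0 then 1 else 0)
    (I : IH ρ) (hirr : ρ.IsIrreducible) (hn : 7 ≤ Fintype.card ι) (hU' : ∀ a, ∃ c, Q' c = a)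
    (hperp' : ∀ b : κ' → F, ∃ c, pol Q'' c b = 0 ∧ Q'' c ≠ 0) (hU : ∀ a, ∃ c, Q'' c = a)
    (ht : ∃ t : Fˣ, (t : F) ^ 2 ≠ 1)
    (hnt : ∃ b, ρ (L.x b) ≠ 1) (hU0 : ∃ u : V, u ≠ 0 ∧ ∀ b, ρ (L.x b) u = u)
    {d₀ : κ'' → F} (hd₀ : Q''' d₀ ≠ 0) {lam : Fˣ → ℂ}
    (hlam : ∀ t, ∀ v ∈ Vc (Q' := Q') ρ L.x ψ M.he.P0, ρ (dG L M.swap t) v = lam t • v) :
    ∃ (u₀ : V) (χd χA θ : Fˣ → ℂ), u₀ ≠ 0 ∧ InC L M K ρ u₀ ∧ TE L M K ρ u₀ χd χA θ ∧ ∀ t, χd t⁻¹ = lam t := by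
  have hc1 : finrank ℂ (Vc (Q' := Q') ρ L.x ψ M.he.P0) = 1 := by
    have h1 := hw M.he.P0 (P0_ne M)
    rwa [if_pos (Q_P0 M)] at h1
  exact exists_u0_of_line L M K ρ hψ hw I hirr hn hU' hperp' hU hnt hU0 hd₀ hlam
    (fun v hv b => line_zz hψ hc1 hv b) (fun v hv c => line_k1 hψ ht hc1 hv c)
    (fun v hv c => line_k2 hψ ht hc1 hv c)

end Cfsg.Agent.Lib.OddDeg
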