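import Cfsg.Agent.Lib.MinDeg.Count

/-!
Quadratic Gauss sums for the forms `quadFormOdd m F`, and the resulting character sums over the singular vectors.
-/

set_option autoImplicit false
set_option linter.unusedSectionVars false
set_option linter.unusedVariables false
set_option linter.unusedSimpArgs false
set_option linter.ambiguousOpen false

namespace Cfsg.Agent.Lib.OddDeg

open Matrix Module Cfsg Cfsg.Geo
open Cfsg.Agent.Lib.Geo.Basic Cfsg.Agent.Lib.Geo.QForm Cfsg.Agent.Lib.QuadFn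
open Cfsg.Agent.Lib.GeoOmega.Basic Cfsg.Agent.Lib.GeoOmega.Eichler
open Cfsg.Agent.Lib.MinDeg.Hyp Cfsg.Agent.Lib.MinDeg.Count
open scoped _root_.Classical MatrixGroups

variable {ι κ κ' κ'' : Type} [Fintype ι] [DecidableEq ι] [Fintype κ] [DecidableEq κ] [Fintype κ'] [DecidableEq κ']
  [Fintype κ''] [DecidableEq κ''] {F : Type*} [Field F] [Fintype F]
  {Q : (ι → F) → F} {Q' : (κ → F) → F} {Q'' : (κ' → F) → F} {Q''' : (κ'' → F) → F}

/-- The quadratic sums of a form are those of a quadratic character. -/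
def GaussF (Q : (κ → F) → F) (ψ : AddChar F ℂ) : Prop :=
  ∃ g₁ : ℂ, g₁ ≠ 0 ∧ ∀ c : F, c ≠ 0 → ∑ d, ψ (c * Q d) = ((quadraticChar F c : ℤ) : ℂ) * g₁

/-- The quadratic character with complex values. -/
noncomputable def etaC (F : Type*) [Field F] [Fintype F] : MulChar F ℂ :=
  (quadraticChar F).ringHomComp (Int.castRingHom ℂ)

lemma etaC_apply (r : F) : etaC F r = ((quadraticChar F r : ℤ) : ℂ) := rfl

lemma etaC_mul (a b : F) : etaC F (a * b) = etaC F a * etaC F b := map_mul _ a b

lemma etaC_zero : etaC F 0 = 0 := by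
  rw [etaC_apply]
  simp

lemma etaC_sq {r : F} (hr : r ≠ 0) : etaC F r * etaC F r = 1 := by
  rw [etaC_apply]
  have := quadraticChar_sq_one (F := F) hr
  rw [← Int.cast_mul, ← pow_two, this]
  simp

lemma etaC_inv (r : F) : etaC F r⁻¹ = etaC F r := by
  by_cases hr : r = 0
  · subst hr
    simp
  · have h1 : etaC F r⁻¹ * etaC F r = 1 := by
      rw [← etaC_mul, inv_mul_cancel₀ hr, map_one]
    have h2 := etaC_sq hr
    have h3 : etaC F r ≠ 0 := by
      intro h
      rw [h] at h2
      simp at h2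
    exact mul_right_cancel₀ h3 (h1.trans h2.symm)

lemma etaC_ne_zero {r : F} (hr : r ≠ 0) : etaC F r ≠ 0 := by
  intro h
  have h2 := etaC_sq hr
  rw [h] at h2
  simp at h2

section chars

variable (h2 : ringChar F ≠ 2) {ψ : AddChar F ℂ} (hψ : ψ 1 ≠ 1)

include hψ in
lemma psi_ne_one : ψ ≠ 1 := by
  rintro rfl
  exact hψ (by simp)

include h2 in
lemma etaC_ne_one : etaC F ≠ 1 := by
  intro h
  have h3 := quadraticChar_ne_one (F := F) h2
  apply h3
  ext a
  have := congrArg (fun χ : MulChar F ℂ => χ (a : F)) h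
  simp only [etaC_apply] at this
  rw [MulChar.one_apply a.isUnit] at this ⊢
  exact_mod_cast this

include h2 hψ in
/-- The Gauss sum is non-zero. -/
theorem gauss_ne : gaussSum (etaC F) ψ ≠ 0 := by
  have hne : etaC F ≠ 1 := etaC_ne_one h2
  have hq : (etaC F).IsQuadratic := by
    intro a
    rcases quadraticChar_isQuadratic F a with h | h | h <;> simp [etaC_apply, h]
  have hp := AddChar.IsPrimitive.of_ne_one (psi_ne_one hψ)
  have h3 := gaussSum_sq hne hq hp
  intro h4
  rw [h4] at h3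
  have h5 : etaC F (-1) ≠ 0 := etaC_ne_zero (by simp)
  have h6 : ((Fintype.card F : ℕ) : ℂ) ≠ 0 := by
    exact_mod_cast (Fintype.card_pos (α := F)).ne'
  have : etaC F (-1) * ((Fintype.card F : ℕ) : ℂ) ≠ 0 := mul_ne_zero h5 h6
  apply this
  rw [← h3]
  simp

lemma sum_shift (f : F → ℂ) {c : F} (hc : c ≠ 0) : ∑ x, f (c * x) = ∑ x, f x :=
  Fintype.sum_equiv (Equiv.mulLeft₀ c hc) _ _ (fun x => rfl)

/-- Shift of the Gauss sum. -/
lemma gauss_shift {c : F} (hc : c ≠ 0) : ∑ t, etaC F t * ψ (c * t) = etaC F c * gaussSum (etaC F) ψ := by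
  rw [gaussSum, Finset.mul_sum, ← sum_shift (fun x => etaC F c * (etaC F x * ψ x)) hc]
  refine Finset.sum_congr rfl fun t _ => ?_
  rw [etaC_mul]
  have := etaC_sq hc
  linear_combination (-(etaC F t * ψ (c * t))) * this

include hψ in
lemma sum_psi_shift {c : F} (hc : c ≠ 0) : ∑ t, ψ (c * t) = 0 := by
  rw [sum_shift (fun x => ψ x) hc]
  exact AddChar.sum_eq_zero_of_ne_one (psi_ne_one hψ)

include h2 hψ in
/-- The one-variable quadratic sum. -/
theorem sum_sq {c : F} (hc : c ≠ 0) : ∑ x : F, ψ (c * x ^ 2) = etaC F c * gaussSum (etaC F) ψ := by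
  have h1 : ∑ x : F, ψ (c * x ^ 2) = ∑ t : F, ((quadraticChar F t + 1 : ℤ) : ℂ) * ψ (c * t) := by
    rw [← Finset.sum_fiberwise (s := Finset.univ) (g := fun x : F => x ^ 2) (f := fun x : F => ψ (c * x ^ 2))]
    refine Finset.sum_congr rfl fun t _ => ?_
    have h3 : ∑ x ∈ Finset.univ.filter (fun x : F => x ^ 2 = t), ψ (c * x ^ 2) =
        ((Finset.univ.filter (fun x : F => x ^ 2 = t)).card : ℂ) * ψ (c * t) := by
      rw [← nsmul_eq_mul]
      rw [← Finset.sum_const]
      refine Finset.sum_congr rfl fun x hx => ?_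
      rw [(Finset.mem_filter.mp hx).2]
    rw [h3]
    congr 1
    have h4 := quadraticChar_card_sqrts (F := F) h2 t
    rw [← h4]
    push_cast
    congr 2
    ext x
    simp
  rw [h1]
  have h5 : ∀ t : F, ((quadraticChar F t + 1 : ℤ) : ℂ) * ψ (c * t) = etaC F t * ψ (c * t) + ψ (c * t) := by
    intro t
    rw [etaC_apply]
    push_cast
    ring
  simp only [h5]
  rw [Finset.sum_add_distrib, gauss_shift hc, sum_psi_shift hψ hc, add_zero]

include h2 hψ in
/-- The base case. -/
theorem gaussF_odd0 : GaussF (quadFormOdd 0 F) ψ := by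
  refine ⟨gaussSum (etaC F) ψ, gauss_ne h2 hψ, fun c hc => ?_⟩
  let e : F ≃ (Unit ⊕ (Fin 0 ⊕ Fin 0) → F) :=
    { toFun := fun x _ => x
      invFun := fun d => d (.inl ())
      left_inv := fun x => rfl
      right_inv := fun d => by
        funext i
        rcases i with i | i | i
        · rfl
        · exact i.elim0
        · exact i.elim0 }
  have h1 : ∑ d, ψ (c * quadFormOdd 0 F d) = ∑ x : F, ψ (c * x ^ 2) := by
    refine (Fintype.sum_equiv e _ _ fun x => ?_).symm
    simp [quadFormOdd, e]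
  rw [h1, sum_sq h2 hψ hc, etaC_apply]

end chars

section step

variable {ψ : AddChar F ℂ} (hψ : ψ 1 ≠ 1)

include hψ in
/-- A sum of a character along a line. -/
lemma sum_line (a : F) : ∑ x : F, ψ (a * x) = if a = 0 then ((Fintype.card F : ℕ) : ℂ) else 0 := by
  by_cases ha : a = 0
  · subst ha
    simp
  · rw [if_neg ha]
    exact sum_psi_shift hψ ha

include hψ in
/-- The inductive step. -/
theorem gaussF_step (h : HE Q Q') : GaussF Q' ψ → GaussF Q ψ := by
  rintro ⟨g₁, hg, hs⟩
  have hq : ((Fintype.card F : ℕ) : ℂ) ≠ 0 := by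
    exact_mod_cast (Fintype.card_pos (α := F)).ne'
  refine ⟨((Fintype.card F : ℕ) : ℂ) * g₁, mul_ne_zero hq hg, fun c hc => ?_⟩
  have e1 : ∑ v : ι → F, ψ (c * Q v) = ∑ x : F × F × (κ → F), ψ (c * (x.1 * x.2.1 + Q' x.2.2)) := by
    refine Fintype.sum_equiv h.coordEquiv _ _ fun v => ?_
    simp only [HE.coordEquiv, Equiv.coe_fn_mk, h.Q_eq v]
  rw [e1, Fintype.sum_prod_type]
  simp only [Fintype.sum_prod_type]
  have e2 : ∀ (x y : F) (d : κ → F), ψ (c * (x * y + Q' d)) = ψ ((c * y) * x) * ψ (c * Q' d) := by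
    intro x y d
    rw [← AddChar.map_add_eq_mul]
    congr 1
    ring
  simp only [e2]
  have e3 : ∀ x : F, ∑ y : F, ∑ d : κ → F, ψ ((c * y) * x) * ψ (c * Q' d) =
      (∑ y : F, ψ ((c * y) * x)) * ∑ d : κ → F, ψ (c * Q' d) := by
    intro x
    rw [Finset.sum_mul]
    refine Finset.sum_congr rfl fun y _ => ?_
    rw [Finset.mul_sum]
  simp only [e3]
  rw [← Finset.sum_mul, hs c hc]
  have e4 : ∑ x : F, ∑ y : F, ψ ((c * y) * x) = ((Fintype.card F : ℕ) : ℂ) := by
    rw [Finset.sum_comm]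
    simp only [sum_line hψ, mul_eq_zero, hc, false_or]
    simp
  rw [e4]
  ring

end step

section sing

variable (h2 : ringChar F ≠ 2) {ψ : AddChar F ℂ} (hψ : ψ 1 ≠ 1)

/-- Sum over a level set of a hyperbolic extension. -/
lemma sum_Lv_eq (K : HE Q'' Q''') (hQ'' : IsNondegenerateQuadraticForm Q'') (f : (κ' → F) → ℂ) :
    ∑ s ∈ Lv Q'' 0, f s = (∑ x : F × F × (κ'' → F), if x.1 * x.2.1 + Q''' x.2.2 = 0 then f (K.vec x.1 x.2.1 x.2.2) else 0) - f 0 := by
  have e1 : ∑ x : F × F × (κ'' → F), (if x.1 * x.2.1 + Q''' x.2.2 = 0 then f (K.vec x.1 x.2.1 x.2.2) else 0) =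
      ∑ s : κ' → F, if Q'' s = 0 then f s else 0 := by
    refine (Fintype.sum_equiv K.coordEquiv _ _ fun v => ?_).symm
    simp only [HE.coordEquiv, Equiv.coe_fn_mk, K.Q_eq v, K.vec_coord]
  rw [e1, ← Finset.sum_filter]
  have h6 : Lv Q'' (0 : F) = (Finset.univ.filter (fun v => Q'' v = 0)).erase 0 := by
    ext v
    simp [mem_Lv]
  rw [h6, ← Finset.add_sum_erase (Finset.univ.filter (fun v => Q'' v = 0)) _ (a := (0 : κ' → F)) (by simp [Q_zero hQ''])]
  ring

lemma Q'''_zero (K : HE Q'' Q''') (hQ'' : IsNondegenerateQuadraticForm Q'') : Q''' 0 = 0 := by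
  have := K.Q_vec 0 0 0
  rw [K.vec_zero, Q_zero hQ''] at this
  simpa using this.symm

lemma pol_vec1 (K : HE Q'' Q''') (hQ'' : IsNondegenerateQuadraticForm Q'') (α β a b : F) (d : κ'' → F) :
    pol Q'' (K.vec α β d) (K.vec a b 0) = α * b + β * a := by
  rw [K.pol_vec]
  have : pol Q''' d 0 = 0 := by
    simp [pol, QuadraticMap.polar, Q'''_zero K hQ'']
  rw [this, add_zero]

include h2 hψ in
/-- The sum of a character over the singular vectors, against a non-singular vector. -/
theorem sum_sing (K : HE Q'' Q''') (hQ'' : IsNondegenerateQuadraticForm Q'') (hG : GaussF Q''' ψ) :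
    ∃ N : ℂ, N ≠ 0 ∧ ∀ r : F, r ≠ 0 →
      ∑ s ∈ Lv Q'' 0, ψ (pol Q'' s (K.vec r 1 0)) = -1 + N * ((quadraticChar F r : ℤ) : ℂ) := by
  obtain ⟨g₁, hg, hs⟩ := hG
  refine ⟨g₁ * etaC F (-1) * gaussSum (etaC F) ψ, mul_ne_zero (mul_ne_zero hg (etaC_ne_zero (by simp))) (gauss_ne h2 hψ),
    fun r hr => ?_⟩
  rw [sum_Lv_eq K hQ'']
  have h0 : pol Q'' (0 : κ' → F) (K.vec r 1 0) = 0 := by
    have := pol_vec1 K hQ'' 0 0 r 1 0
    rw [K.vec_zero] at this
    rw [this]
    ring
  rw [h0, AddChar.map_zero_eq_one]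
  simp only [pol_vec1 K hQ'', mul_one]
  rw [Fintype.sum_prod_type]
  simp only [Fintype.sum_prod_type]
  rw [Finset.sum_comm]
  -- the term for a fixed `β`
  have key : ∀ β : F, ∑ α : F, ∑ d : κ'' → F, (if α * β + Q''' d = 0 then ψ (α + β * r) else 0) =
      ψ (r * β) * etaC F (r * β) * (etaC F (-1) * etaC F r * g₁) := by
    intro β
    by_cases hβ : β = 0
    · subst hβ
      simp only [mul_zero, zero_add, zero_mul, add_zero, etaC_zero]
      rw [Finset.sum_comm]
      have : ∀ d : κ'' → F, ∑ α : F, (if Q''' d = 0 then ψ α else 0) = 0 := by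
        intro d
        split_ifs
        · exact AddChar.sum_eq_zero_of_ne_one (psi_ne_one hψ)
        · simp
      simp [this]
    · rw [Finset.sum_comm]
      have e1 : ∀ d : κ'' → F, ∑ α : F, (if α * β + Q''' d = 0 then ψ (α + β * r) else 0) =
          ψ (r * β) * ψ ((-β⁻¹) * Q''' d) := by
        intro d
        have e2 : ∀ α : F, (α * β + Q''' d = 0) ↔ α = (-β⁻¹) * Q''' d := by
          intro α
          constructor
          · intro h
            field_simp
            linear_combination h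
          · rintro rfl
            field_simp
            ring
        simp only [e2]
        rw [Finset.sum_ite_eq' Finset.univ, if_pos (Finset.mem_univ _), ← AddChar.map_add_eq_mul]
        congr 1
        ring
      simp only [e1]
      rw [← Finset.mul_sum, hs _ (neg_ne_zero.mpr (inv_ne_zero hβ)), ← etaC_apply]
      have e3 : etaC F (-β⁻¹) = etaC F (-1) * etaC F β := by
        rw [← neg_one_mul, etaC_mul, etaC_inv]
      rw [e3, etaC_mul r β]
      have := etaC_sq hr
      linear_combination (-(ψ (r * β) * etaC F β * etaC F (-1) * g₁)) * this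
  simp only [key]
  have e4 : ∑ β : F, ψ (r * β) * etaC F (r * β) * (etaC F (-1) * etaC F r * g₁) =
      gaussSum (etaC F) ψ * (etaC F (-1) * etaC F r * g₁) := by
    rw [← Finset.sum_mul, gaussSum]
    congr 1
    rw [sum_shift (fun x => ψ x * etaC F x) hr]
    exact Finset.sum_congr rfl fun x _ => mul_comm _ _
  rw [e4, ← etaC_apply]
  ring

include h2 hψ in
/-- The number of singular vectors. -/
lemma card_zero_gauss (hG : GaussF Q''' ψ) :
    ((Fintype.card F : ℕ) : ℂ) * (NN Q''' 0 : ℂ) = ((Fintype.card (κ'' → F) : ℕ) : ℂ) := by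
  obtain ⟨g₁, hg, hs⟩ := hG
  have e1 : ∀ c : F, ∑ d, ψ (c * Q''' d) =
      (if c = 0 then ((Fintype.card (κ'' → F) : ℕ) : ℂ) else 0) + etaC F c * g₁ := by
    intro c
    by_cases hc : c = 0
    · subst hc
      simp [etaC_zero, Finset.card_univ]
    · rw [hs c hc, if_neg hc, zero_add, etaC_apply]
  have e2 : ∑ c : F, ∑ d, ψ (c * Q''' d) = ((Fintype.card (κ'' → F) : ℕ) : ℂ) := by
    simp only [e1, Finset.sum_add_distrib, ← Finset.sum_mul]
    rw [MulChar.sum_eq_zero_of_ne_one (etaC_ne_one h2)]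
    simp
  have e3 : ∑ c : F, ∑ d, ψ (c * Q''' d) = ((Fintype.card F : ℕ) : ℂ) * (NN Q''' 0 : ℂ) := by
    rw [Finset.sum_comm]
    have e4 : ∀ d : κ'' → F, ∑ c : F, ψ (c * Q''' d) = if Q''' d = 0 then ((Fintype.card F : ℕ) : ℂ) else 0 := by
      intro d
      simp only [mul_comm _ (Q''' d)]
      exact sum_line hψ _
    simp only [e4]
    rw [← Finset.sum_filter, Finset.sum_const, nsmul_eq_mul, NN, mul_comm]
  rw [← e3, e2]

include h2 hψ in
/-- The other sum over the singular vectors. -/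
theorem sum_sing0 (K : HE Q'' Q''') (hQ'' : IsNondegenerateQuadraticForm Q'') (hG : GaussF Q''' ψ) (r : F) (hr : r ≠ 0) :
    ∑ s ∈ Lv Q'' 0, ψ (pol Q'' s (K.vec 0 r 0)) = -1 := by
  rw [sum_Lv_eq K hQ'']
  have h0 : pol Q'' (0 : κ' → F) (K.vec 0 r 0) = 0 := by
    have := pol_vec1 K hQ'' 0 0 0 r 0
    rw [K.vec_zero] at this
    rw [this]
    ring
  rw [h0, AddChar.map_zero_eq_one]
  simp only [pol_vec1 K hQ'', mul_zero, add_zero]
  rw [Fintype.sum_prod_type]
  simp only [Fintype.sum_prod_type]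
  have hc : ∀ α : F, ∑ β : F, ∑ d : κ'' → F, (if α * β + Q''' d = 0 then ψ (α * r) else 0) =
      ψ (α * r) * ((Fintype.card (κ'' → F) : ℕ) : ℂ) := by
    intro α
    by_cases hα : α = 0
    · subst hα
      have h1 : ∑ β : F, ∑ d : κ'' → F, (if 0 * β + Q''' d = 0 then ψ (0 * r) else 0) = ∑ β : F, (NN Q''' 0 : ℂ) := by
        refine Finset.sum_congr rfl fun β _ => ?_
        simp only [zero_mul, zero_add, AddChar.map_zero_eq_one]
        rw [← Finset.sum_filter, Finset.sum_const, nsmul_eq_mul, NN, mul_one]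
      rw [h1, Finset.sum_const, nsmul_eq_mul, Finset.card_univ, card_zero_gauss h2 hψ hG, zero_mul,
        AddChar.map_zero_eq_one, one_mul]
    · rw [Finset.sum_comm]
      have e1 : ∀ d : κ'' → F, ∑ β : F, (if α * β + Q''' d = 0 then ψ (α * r) else 0) = ψ (α * r) := by
        intro d
        have e2 : ∀ β : F, (α * β + Q''' d = 0) ↔ β = (-α⁻¹) * Q''' d := by
          intro β
          constructor
          · intro h
            field_simp
            linear_combination h
          · rintro rfl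
            field_simp
            ring
        simp only [e2]
        rw [Finset.sum_ite_eq' Finset.univ, if_pos (Finset.mem_univ _)]
      simp only [e1]
      rw [Finset.sum_const, nsmul_eq_mul, Finset.card_univ, mul_comm]
  simp only [hc]
  rw [← Finset.sum_mul]
  have e5 : ∑ α : F, ψ (α * r) = 0 := by
    simp only [mul_comm _ r]
    exact sum_psi_shift hψ hr
  rw [e5]
  ring

end sing

end Cfsg.Agent.Lib.OddDeg
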