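import Cfsg.Agent.Lib.OddDeg.Defs
import Cfsg.Agent.Lib.GeoOmega.Planes
import Cfsg.Agent.Lib.MinDeg.Count

/-!
The forms `quadFormOdd m F`: hyperbolic extensions, perpendicular non-singular vectors, the counts of
vectors of given norm, and the numbers `(q^(2n) - 1) / (q^2 - 1)`.
-/

set_option autoImplicit false
set_option linter.unusedSectionVars false
set_option linter.unusedVariables false
set_option linter.unusedSimpArgs false
set_option linter.ambiguousOpen false

namespace Cfsg.Agent.Lib.OddDeg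

open Matrix Module Cfsg Cfsg.Geo
open Cfsg.Agent.Lib.Geo.Basic Cfsg.Agent.Lib.Geo.QForm Cfsg.Agent.Lib.QuadFn
open Cfsg.Agent.Lib.GeoOmega.Basic Cfsg.Agent.Lib.GeoOmega.Eichler
open Cfsg.Agent.Lib.MinDeg.Hyp Cfsg.Agent.Lib.MinDeg.Count
open scoped _root_.Classical MatrixGroups

variable {F : Type*} [Field F] {m : ℕ}

/-- The equivalence of the coordinates. -/
def eqvO (m : ℕ) : (Unit ⊕ (Fin m ⊕ Fin m)) ⊕ Fin 2 ≃ Unit ⊕ (Fin (m + 1) ⊕ Fin (m + 1)) where
  toFun x := match x with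
    | .inl (.inl u) => .inl u
    | .inl (.inr (.inl i)) => .inr (.inl i.castSucc)
    | .inl (.inr (.inr i)) => .inr (.inr i.castSucc)
    | .inr t => if t = 0 then .inr (.inl (Fin.last m)) else .inr (.inr (Fin.last m))
  invFun y := match y with
    | .inl u => .inl (.inl u)
    | .inr (.inl i) => Fin.lastCases (.inr 0) (fun k => .inl (.inr (.inl k))) i
    | .inr (.inr i) => Fin.lastCases (.inr 1) (fun k => .inl (.inr (.inr k))) i
  left_inv x := by
    rcases x with (u | i | i) | t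
    · simp
    · simp
    · simp
    · fin_cases t <;> simp
  right_inv y := by
    rcases y with u | i | i
    · simp
    · induction i using Fin.lastCases <;> simp
    · induction i using Fin.lastCases <;> simp

/-- The hyperbolic extension: the new plane is the coordinate `Fin.last`. -/
noncomputable def heO (m : ℕ) (F : Type*) [Field F] : HE (quadFormOdd (m + 1) F) (quadFormOdd m F) where
  e := eqvO m
  form v := by
    simp only [quadFormOdd, eqvO, Equiv.coe_fn_mk, Fin.sum_univ_castSucc]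
    simp
    ring

lemma two_ne_zero_of_odd [Fintype F] (hodd : Odd (Fintype.card F)) : (2 : F) ≠ 0 := by
  intro h
  haveI : CharP F 2 := CharTwo.of_one_ne_zero_of_two_eq_zero one_ne_zero h
  have h3 := FiniteField.even_card_of_char_two (ringChar.eq F 2)
  have h4 := Nat.odd_iff.1 hodd
  omega

/-- The bundled hyperbolic extension. -/
noncomputable def hlO [Fintype F] (m : ℕ) (hodd : Odd (Fintype.card F)) (hq : 3 ≤ Fintype.card F) :
    HL (quadFormOdd (m + 1) F) (quadFormOdd m F) :=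
  ⟨heO m F, Cfsg.Agent.Lib.GeoOmega.Planes.quadFormOdd_nondeg (m + 1) F (two_ne_zero_of_odd hodd),
    Cfsg.Agent.Lib.GeoOmega.Planes.quadFormOdd_nondeg m F (two_ne_zero_of_odd hodd), hq⟩

/-- Vectors in the first hyperbolic coordinate plane and the anisotropic line. -/
def mk3 (c0 cx cy : F) : Unit ⊕ (Fin (m + 1) ⊕ Fin (m + 1)) → F :=
  Sum.elim (fun _ => c0) (Sum.elim (Pi.single 0 cx) (Pi.single 0 cy))

lemma Q_mk3 (c0 cx cy : F) : quadFormOdd (m + 1) F (mk3 c0 cx cy) = c0 ^ 2 + cx * cy := by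
  simp only [quadFormOdd, mk3, Sum.elim_inl, Sum.elim_inr]
  congr 1
  rw [Finset.sum_eq_single (0 : Fin (m + 1))]
  · simp
  · intro i _ hi
    simp [Pi.single_apply, hi]
  · intro h
    exact absurd (Finset.mem_univ _) h

lemma pol_mk3 (c0 cx cy : F) (b : Unit ⊕ (Fin (m + 1) ⊕ Fin (m + 1)) → F) :
    pol (quadFormOdd (m + 1) F) (mk3 c0 cx cy) b =
      2 * (c0 * b (.inl ())) + (cx * b (.inr (.inr 0)) + b (.inr (.inl 0)) * cy) := by
  rw [pol, Cfsg.Agent.Lib.GeoOmega.Planes.polar_quadFormOdd]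
  simp only [mk3, Sum.elim_inl, Sum.elim_inr]
  congr 1
  rw [Finset.sum_eq_single (0 : Fin (m + 1))]
  · simp
  · intro i _ hi
    simp [Pi.single_apply, hi]
  · intro h
    exact absurd (Finset.mem_univ _) h

theorem perp_odd (h2 : (2 : F) ≠ 0) (m : ℕ) (b : Unit ⊕ (Fin (m + 1) ⊕ Fin (m + 1)) → F) :
    ∃ c, pol (quadFormOdd (m + 1) F) c b = 0 ∧ quadFormOdd (m + 1) F c ≠ 0 := by
  set b0 := b (.inl ()) with hb0
  set α := b (.inr (.inl 0)) with hα
  set β := b (.inr (.inr 0)) with hβ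
  by_cases hα0 : α = 0
  · by_cases hβ0 : β = 0
    · -- the vector `(0, 1, 1)`
      refine ⟨mk3 0 1 1, ?_, ?_⟩
      · rw [pol_mk3, ← hb0, ← hα, ← hβ, hα0, hβ0]
        ring
      · rw [Q_mk3]
        simp
    · refine ⟨mk3 1 (-(2 * b0) / β) 0, ?_, ?_⟩
      · rw [pol_mk3, ← hb0, ← hα, ← hβ, hα0]
        field_simp
        ring
      · rw [Q_mk3]
        simp
  · by_cases hβ0 : β = 0
    · refine ⟨mk3 1 0 (-(2 * b0) / α), ?_, ?_⟩
      · rw [pol_mk3, ← hb0, ← hα, ← hβ, hβ0]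
        field_simp
        ring
      · rw [Q_mk3]
        simp
    · refine ⟨mk3 0 α (-β), ?_, ?_⟩
      · rw [pol_mk3, ← hb0, ← hα, ← hβ]
        ring
      · rw [Q_mk3]
        simpa using ⟨hα0, hβ0⟩

theorem univ_odd (m : ℕ) (a : F) : ∃ c, quadFormOdd (m + 1) F c = a :=
  ⟨mk3 0 1 a, by rw [Q_mk3]; simp⟩

theorem card_idx (m : ℕ) : Fintype.card (Unit ⊕ (Fin m ⊕ Fin m)) = 2 * m + 1 := by
  simp
  ring

variable [Fintype F]

theorem NN_zero_odd (m : ℕ) : NN (quadFormOdd m F) 0 = Fintype.card F ^ (2 * m) := by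
  induction m with
  | zero =>
    rw [NN, Finset.card_eq_one.2]
    · simp
    · refine ⟨0, ?_⟩
      ext v
      simp only [Finset.mem_filter, Finset.mem_univ, true_and, Finset.mem_singleton]
      constructor
      · intro h
        funext k
        rcases k with u | i | i
        · have : v (.inl ()) = 0 := by simpa [quadFormOdd] using h
          simpa using this
        · exact i.elim0
        · exact i.elim0
      · rintro rfl
        simp [quadFormOdd]
  | succ m ih =>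
    rw [NN_eq (heO m F), ih, card_idx]
    set q := Fintype.card F
    have hq : 1 ≤ q := Fintype.card_pos
    obtain ⟨r, hr⟩ : ∃ r, q = r + 1 := ⟨q - 1, by omega⟩
    simp only [hr, Nat.add_sub_cancel]
    ring

theorem card_Lv_zero_odd (h2 : (2 : F) ≠ 0) (m : ℕ) :
    (Lv (quadFormOdd m F) 0).card + 1 = Fintype.card F ^ (2 * m) := by
  rw [card_Lv_zero (Cfsg.Agent.Lib.GeoOmega.Planes.quadFormOdd_nondeg m F h2), NN_zero_odd]

theorem NN_ne_odd (m : ℕ) (a : F) :
    Fintype.card F ^ (2 * m) ≤ NN (quadFormOdd m F) a + Fintype.card F ^ m := by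
  induction m with
  | zero => simp
  | succ m ih =>
    rw [NN_eq (heO m F), card_idx]
    set q := Fintype.card F
    have hq : 1 ≤ q := Fintype.card_pos
    obtain ⟨r, hr⟩ : ∃ r, q = r + 1 := ⟨q - 1, by omega⟩
    rw [hr] at ih ⊢
    simp only [Nat.add_sub_cancel]
    have h1 := Nat.mul_le_mul_left (r + 1) ih
    have e1 : (r + 1) ^ (2 * (m + 1)) = r * (r + 1) ^ (2 * m + 1) + (r + 1) * (r + 1) ^ (2 * m) := by ring
    have e2 : (r + 1) ^ (m + 1) = (r + 1) * (r + 1) ^ m := by ring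
    rw [e1, e2]
    nlinarith

theorem card_Lv_ne_odd (h2 : (2 : F) ≠ 0) (m : ℕ) {a : F} (ha : a ≠ 0) :
    Fintype.card F ^ (2 * m) ≤ (Lv (quadFormOdd m F) a).card + Fintype.card F ^ m := by
  rw [card_Lv_of_ne (Cfsg.Agent.Lib.GeoOmega.Planes.quadFormOdd_nondeg m F h2) ha]
  exact NN_ne_odd m a

omit [Fintype F] in
/-- The numbers `(q^(2n) - 1) / (q^2 - 1)`. -/
def BB (q : ℕ) : ℕ → ℕ
  | 0 => 0
  | n + 1 => q ^ (2 * n) + BB q n

lemma BB_mul (q n : ℕ) (hq : 2 ≤ q) : BB q n * (q ^ 2 - 1) + 1 = q ^ (2 * n) := by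
  have hq2 : 1 ≤ q ^ 2 := Nat.one_le_pow _ _ (by omega)
  obtain ⟨s, hs⟩ : ∃ s, q ^ 2 = s + 1 := ⟨q ^ 2 - 1, by omega⟩
  rw [hs, Nat.add_sub_cancel]
  induction n with
  | zero => simp [BB]
  | succ n ih =>
    have e : q ^ (2 * (n + 1)) = q ^ (2 * n) * q ^ 2 := by ring
    rw [e, hs, BB, add_mul, ← ih]
    ring

theorem BB_eq (q n : ℕ) (hq : 2 ≤ q) : (q ^ (2 * n) - 1) / (q ^ 2 - 1) = BB q n := by
  have h := BB_mul q n hq
  have hq2 : 0 < q ^ 2 - 1 := by
    have : 2 ^ 2 ≤ q ^ 2 := Nat.pow_le_pow_left hq 2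
    omega
  rw [← h, Nat.add_sub_cancel, Nat.mul_div_cancel _ hq2]

theorem BB_le (q : ℕ) (hq : 5 ≤ q) (m : ℕ) (hm : 2 ≤ m) :
    BB q (m + 1) ≤ 2 * (q ^ (2 * m) - 1) ∧ BB q (m + 1) ≤ 2 * (q ^ (2 * m) - q ^ m) := by
  have h := BB_mul q m (by omega)
  have hq2 : 25 ≤ q ^ 2 := by
    have : 5 ^ 2 ≤ q ^ 2 := Nat.pow_le_pow_left hq 2
    omega
  have hX : 25 ≤ q ^ m := by
    have : q ^ 2 ≤ q ^ m := Nat.pow_le_pow_right (by omega) hm
    omega
  have e : q ^ (2 * m) = q ^ m * q ^ m := by ring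
  set X := q ^ m with hXdef
  have h24 : BB q m * 24 ≤ BB q m * (q ^ 2 - 1) := Nat.mul_le_mul_left _ (by omega)
  rw [e] at h
  have key : BB q m + 2 * X ≤ X * X := by nlinarith
  have hBB : BB q (m + 1) = X * X + BB q m := by
    rw [BB, e]
  rw [e, hBB]
  constructor <;> omega

end Cfsg.Agent.Lib.OddDeg
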