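import Cfsg.Agent.Lib.OddDeg.Defs

/-!
Relations between the elements of `Ω` attached to a tower of hyperbolic planes.
-/

set_option autoImplicit false
set_option linter.unusedSectionVars false
set_option linter.unusedVariables false
set_option linter.unusedSimpArgs false
set_option linter.ambiguousOpen false

namespace Cfsg.Agent.Lib.OddDeg

open Matrix Module Cfsg Cfsg.Geo
open Cfsg.Agent.Lib.Geo.Basic Cfsg.Agent.Lib.Geo.QForm Cfsg.Agent.Lib.QuadFn
open Cfsg.Agent.Lib.GeoOmega.Basic Cfsg.Agent.Lib.GeoOmega.Eichler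
open Cfsg.Agent.Lib.MinDeg Cfsg.Agent.Lib.MinDeg.Hyp Cfsg.Agent.Lib.Classical.MatrixBridge
open scoped MatrixGroups

variable {ι κ κ' κ'' : Type} [Fintype ι] [DecidableEq ι] [Fintype κ] [DecidableEq κ] [Fintype κ'] [DecidableEq κ']
  [Fintype κ''] [DecidableEq κ''] {F : Type*} [Field F] [Fintype F]
  {Q : (ι → F) → F} {Q' : (κ → F) → F} {Q'' : (κ' → F) → F} {Q''' : (κ'' → F) → F}

variable (L : HL Q Q') (M : HL Q' Q'') (K : HL Q'' Q''')

section Two

lemma HL.vec_congr {a a' b b' : F} {c c' : κ → F} (h1 : a = a') (h2 : b = b') (h3 : c = c') : L.vec a b c = L.vec a' b' c' := by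
  rw [h1, h2, h3]

lemma M_pol (α β p p' : F) (c c' : κ' → F) :
    pol Q' (M.vec α β c) (M.vec p p' c') = α * p' + β * p + pol Q'' c c' := M.he.pol_vec _ _ _ _ _ _

lemma M_Q (p p' : F) (c' : κ' → F) : Q' (M.vec p p' c') = p * p' + Q'' c' := M.he.Q_vec _ _ _

lemma M_smul (t p p' : F) (c' : κ' → F) : t • M.vec p p' c' = M.vec (t * p) (t * p') (t • c') := M.he.vec_smul _ _ _ _

lemma M_sub (p p' q q' : F) (c c' : κ' → F) : M.vec p p' c - M.vec q q' c' = M.vec (p - q) (p' - q') (c - c') :=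
  M.he.vec_sub _ _ _ _ _ _

lemma M_add (p p' q q' : F) (c c' : κ' → F) : M.vec p p' c + M.vec q q' c' = M.vec (p + q) (p' + q') (c + c') :=
  M.he.vec_add _ _ _ _ _ _

lemma Q_neg' (hQ : IsNondegenerateQuadraticForm Q) (v : ι → F) : Q (-v) = Q v := by
  have := hQ.smul (-1) v
  simpa using this

lemma x2_vec (p p' : F) (c' : κ' → F) (α β α' β' : F) (c : κ' → F) :
    act (L.x (M.vec p p' c')) (L.vec α β (M.vec α' β' c)) =
      L.vec (α + α' * p' + β' * p + pol Q'' c c' - (p * p' + Q'' c') * β) β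
        (M.vec (α' - β * p) (β' - β * p') (c - β • c')) := by
  rw [L.x_vec, M_pol M, M_Q M, M_smul M, M_sub M]
  congr 1
  ring

lemma y2_vec (p p' : F) (c' : κ' → F) (α β α' β' : F) (c : κ' → F) :
    act (L.y (M.vec p p' c')) (L.vec α β (M.vec α' β' c)) =
      L.vec α (β + α' * p' + β' * p + pol Q'' c c' - (p * p' + Q'' c') * α)
        (M.vec (α' - α * p) (β' - α * p') (c - α • c')) := by
  rw [L.y_vec, M_pol M, M_Q M, M_smul M, M_sub M]
  congr 1
  ring

lemma zz_vec (c' : κ' → F) (α β α' β' : F) (c : κ' → F) :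
    act (L.lf (M.x c')) (L.vec α β (M.vec α' β' c)) =
      L.vec α β (M.vec (α' + pol Q'' c c' - Q'' c' * β') β' (c - β' • c')) := by
  rw [L.lf_vec, M.x_vec]

lemma zm_vec (c' : κ' → F) (α β α' β' : F) (c : κ' → F) :
    act (L.lf (M.y c')) (L.vec α β (M.vec α' β' c)) =
      L.vec α β (M.vec α' (β' + pol Q'' c c' - Q'' c' * α') (c - α' • c')) := by
  rw [L.lf_vec, M.y_vec]

lemma lfl_vec (g : Omega F Q'') (α β α' β' : F) (c : κ' → F) :
    act (L.lf (M.lf g)) (L.vec α β (M.vec α' β' c)) = L.vec α β (M.vec α' β' (act g c)) := by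
  rw [L.lf_vec, M.lf_vec]

lemma AA_vec (t : Fˣ) (α β α' β' : F) (c : κ' → F) :
    act (dG L M.swap t) (L.vec α β (M.vec α' β' c)) =
      L.vec ((t : F) * α) (((t⁻¹ : Fˣ) : F) * β) (M.vec ((t : F) * α') (((t⁻¹ : Fˣ) : F) * β') c) := by
  have h := dG_vec L M.swap t α β β' α' c
  simp only [HL.swap_vec] at h
  exact h

lemma t_inv (t : Fˣ) : ((t⁻¹ : Fˣ) : F) = (t : F)⁻¹ := Units.val_inv_eq_inv_val t

lemma act_zero' (g : Omega F Q) : act g (0 : ι → F) = 0 := Matrix.mulVec_zero _

lemma nW_x_mid (p : F) (c' : κ' → F) :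
    L.x (M.vec p 0 c') * nW L M = nW L M * (L.x (M.vec p 0 0) * L.lf (M.x c')) := by
  apply eq_of_vec L M
  intro α β α' β' c
  simp only [act_mul, nW_vec, x2_vec, zz_vec]
  have nd2 := M.nd'
  refine L.vec_congr ?_ ?_ (M.vec_congr ?_ ?_ ?_)
  all_goals try simp only [pol_zero_right nd2, pol_zero_left nd2, Q_zero nd2, pol_neg_right nd2, Q_neg' nd2, pol_smul_right nd2, pol_smul_left nd2, nd2.smul, t_inv, inv_inv, zero_mul, mul_zero, add_zero, zero_add, sub_zero, smul_zero, neg_zero]
  all_goals first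
    | rfl
    | ring1
    | (field_simp; done)
    | (field_simp; ring1)
    | (funext i; simp only [Pi.sub_apply, Pi.add_apply, Pi.neg_apply, Pi.smul_apply, smul_eq_mul, Pi.zero_apply]; first | ring1 | (field_simp; done) | (field_simp; ring1))

lemma zz_nW (b : κ' → F) :
    L.lf (M.x b) * nW L M = nW L M * L.x (M.vec 0 0 (-b)) := by
  apply eq_of_vec L M
  intro α β α' β' c
  simp only [act_mul, nW_vec, x2_vec, zz_vec]
  have nd2 := M.nd'
  refine L.vec_congr ?_ ?_ (M.vec_congr ?_ ?_ ?_)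
  all_goals try simp only [pol_zero_right nd2, pol_zero_left nd2, Q_zero nd2, pol_neg_right nd2, Q_neg' nd2, pol_smul_right nd2, pol_smul_left nd2, nd2.smul, t_inv, inv_inv, zero_mul, mul_zero, add_zero, zero_add, sub_zero, smul_zero, neg_zero]
  all_goals first
    | rfl
    | ring1
    | (field_simp; done)
    | (field_simp; ring1)
    | (funext i; simp only [Pi.sub_apply, Pi.add_apply, Pi.neg_apply, Pi.smul_apply, smul_eq_mul, Pi.zero_apply]; first | ring1 | (field_simp; done) | (field_simp; ring1))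

lemma X_nW (r : F) :
    L.x (M.vec 0 r 0) * nW L M = nW L M * L.y (M.vec r 0 0) := by
  apply eq_of_vec L M
  intro α β α' β' c
  simp only [act_mul, nW_vec, x2_vec, y2_vec]
  have nd2 := M.nd'
  refine L.vec_congr ?_ ?_ (M.vec_congr ?_ ?_ ?_)
  all_goals try simp only [pol_zero_right nd2, pol_zero_left nd2, Q_zero nd2, pol_neg_right nd2, Q_neg' nd2, pol_smul_right nd2, pol_smul_left nd2, nd2.smul, t_inv, inv_inv, zero_mul, mul_zero, add_zero, zero_add, sub_zero, smul_zero, neg_zero]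
  all_goals first
    | rfl
    | ring1
    | (field_simp; done)
    | (field_simp; ring1)
    | (funext i; simp only [Pi.sub_apply, Pi.add_apply, Pi.neg_apply, Pi.smul_apply, smul_eq_mul, Pi.zero_apply]; first | ring1 | (field_simp; done) | (field_simp; ring1))

lemma lfl_nW (g : Omega F Q'') :
    L.lf (M.lf g) * nW L M = nW L M * L.lf (M.lf g) := by
  apply eq_of_vec L M
  intro α β α' β' c
  simp only [act_mul, nW_vec, lfl_vec]

lemma dd_nW (t : Fˣ) :
    dG L M t * nW L M = nW L M * dG L M t⁻¹ := by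
  apply eq_of_vec L M
  intro α β α' β' c
  simp only [act_mul, nW_vec, dG_vec]
  have nd2 := M.nd'
  refine L.vec_congr ?_ ?_ (M.vec_congr ?_ ?_ ?_)
  all_goals try simp only [pol_zero_right nd2, pol_zero_left nd2, Q_zero nd2, pol_neg_right nd2, Q_neg' nd2, pol_smul_right nd2, pol_smul_left nd2, nd2.smul, t_inv, inv_inv, zero_mul, mul_zero, add_zero, zero_add, sub_zero, smul_zero, neg_zero]
  all_goals first
    | rfl
    | ring1
    | (field_simp; done)
    | (field_simp; ring1)
    | (funext i; simp only [Pi.sub_apply, Pi.add_apply, Pi.neg_apply, Pi.smul_apply, smul_eq_mul, Pi.zero_apply]; first | ring1 | (field_simp; done) | (field_simp; ring1))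

lemma AA_nW (t : Fˣ) :
    dG L M.swap t * nW L M = nW L M * dG L M.swap t := by
  apply eq_of_vec L M
  intro α β α' β' c
  simp only [act_mul, nW_vec, AA_vec]
  have nd2 := M.nd'
  refine L.vec_congr ?_ ?_ (M.vec_congr ?_ ?_ ?_)
  all_goals try simp only [pol_zero_right nd2, pol_zero_left nd2, Q_zero nd2, pol_neg_right nd2, Q_neg' nd2, pol_smul_right nd2, pol_smul_left nd2, nd2.smul, t_inv, inv_inv, zero_mul, mul_zero, add_zero, zero_add, sub_zero, smul_zero, neg_zero]
  all_goals first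
    | rfl
    | ring1
    | (field_simp; done)
    | (field_simp; ring1)
    | (funext i; simp only [Pi.sub_apply, Pi.add_apply, Pi.neg_apply, Pi.smul_apply, smul_eq_mul, Pi.zero_apply]; first | ring1 | (field_simp; done) | (field_simp; ring1))

lemma dd_x (t : Fˣ) (p p' : F) (c' : κ' → F) :
    dG L M t * L.x (M.vec p p' c') = L.x (M.vec p ((t : F) ^ 2 * p') ((t : F) • c')) * dG L M t := by
  have ht : (t : F) ≠ 0 := t.ne_zero
  apply eq_of_vec L M
  intro α β α' β' c
  simp only [act_mul, x2_vec, dG_vec]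
  have nd2 := M.nd'
  refine L.vec_congr ?_ ?_ (M.vec_congr ?_ ?_ ?_)
  all_goals try simp only [pol_zero_right nd2, pol_zero_left nd2, Q_zero nd2, pol_neg_right nd2, Q_neg' nd2, pol_smul_right nd2, pol_smul_left nd2, nd2.smul, t_inv, inv_inv, zero_mul, mul_zero, add_zero, zero_add, sub_zero, smul_zero, neg_zero]
  all_goals first
    | rfl
    | ring1
    | (field_simp; done)
    | (field_simp; ring1)
    | (funext i; simp only [Pi.sub_apply, Pi.add_apply, Pi.neg_apply, Pi.smul_apply, smul_eq_mul, Pi.zero_apply]; first | ring1 | (field_simp; done) | (field_simp; ring1))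

lemma AA_x (t : Fˣ) (p p' : F) (c' : κ' → F) :
    dG L M.swap t * L.x (M.vec p p' c') = L.x (M.vec ((t : F) ^ 2 * p) p' ((t : F) • c')) * dG L M.swap t := by
  have ht : (t : F) ≠ 0 := t.ne_zero
  apply eq_of_vec L M
  intro α β α' β' c
  simp only [act_mul, x2_vec, AA_vec]
  have nd2 := M.nd'
  refine L.vec_congr ?_ ?_ (M.vec_congr ?_ ?_ ?_)
  all_goals try simp only [pol_zero_right nd2, pol_zero_left nd2, Q_zero nd2, pol_neg_right nd2, Q_neg' nd2, pol_smul_right nd2, pol_smul_left nd2, nd2.smul, t_inv, inv_inv, zero_mul, mul_zero, add_zero, zero_add, sub_zero, smul_zero, neg_zero]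
  all_goals first
    | rfl
    | ring1
    | (field_simp; done)
    | (field_simp; ring1)
    | (funext i; simp only [Pi.sub_apply, Pi.add_apply, Pi.neg_apply, Pi.smul_apply, smul_eq_mul, Pi.zero_apply]; first | ring1 | (field_simp; done) | (field_simp; ring1))

lemma AA_zz (t : Fˣ) (b : κ' → F) :
    dG L M.swap t * L.lf (M.x b) = L.lf (M.x ((t : F) • b)) * dG L M.swap t := by
  have ht : (t : F) ≠ 0 := t.ne_zero
  apply eq_of_vec L M
  intro α β α' β' c
  simp only [act_mul, zz_vec, AA_vec]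
  have nd2 := M.nd'
  refine L.vec_congr ?_ ?_ (M.vec_congr ?_ ?_ ?_)
  all_goals try simp only [pol_zero_right nd2, pol_zero_left nd2, Q_zero nd2, pol_neg_right nd2, Q_neg' nd2, pol_smul_right nd2, pol_smul_left nd2, nd2.smul, t_inv, inv_inv, zero_mul, mul_zero, add_zero, zero_add, sub_zero, smul_zero, neg_zero]
  all_goals first
    | rfl
    | ring1
    | (field_simp; done)
    | (field_simp; ring1)
    | (funext i; simp only [Pi.sub_apply, Pi.add_apply, Pi.neg_apply, Pi.smul_apply, smul_eq_mul, Pi.zero_apply]; first | ring1 | (field_simp; done) | (field_simp; ring1))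

lemma dd_zz (t : Fˣ) (b : κ' → F) :
    dG L M t * L.lf (M.x b) = L.lf (M.x (((t⁻¹ : Fˣ) : F) • b)) * dG L M t := by
  have ht : (t : F) ≠ 0 := t.ne_zero
  apply eq_of_vec L M
  intro α β α' β' c
  simp only [act_mul, zz_vec, dG_vec]
  have nd2 := M.nd'
  refine L.vec_congr ?_ ?_ (M.vec_congr ?_ ?_ ?_)
  all_goals try simp only [pol_zero_right nd2, pol_zero_left nd2, Q_zero nd2, pol_neg_right nd2, Q_neg' nd2, pol_smul_right nd2, pol_smul_left nd2, nd2.smul, t_inv, inv_inv, zero_mul, mul_zero, add_zero, zero_add, sub_zero, smul_zero, neg_zero]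
  all_goals first
    | rfl
    | ring1
    | (field_simp; done)
    | (field_simp; ring1)
    | (funext i; simp only [Pi.sub_apply, Pi.add_apply, Pi.neg_apply, Pi.smul_apply, smul_eq_mul, Pi.zero_apply]; first | ring1 | (field_simp; done) | (field_simp; ring1))

lemma AA_zm (t : Fˣ) (b : κ' → F) :
    dG L M.swap t * L.lf (M.y b) = L.lf (M.y (((t⁻¹ : Fˣ) : F) • b)) * dG L M.swap t := by
  have ht : (t : F) ≠ 0 := t.ne_zero
  apply eq_of_vec L M
  intro α β α' β' c
  simp only [act_mul, zm_vec, AA_vec]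
  have nd2 := M.nd'
  refine L.vec_congr ?_ ?_ (M.vec_congr ?_ ?_ ?_)
  all_goals try simp only [pol_zero_right nd2, pol_zero_left nd2, Q_zero nd2, pol_neg_right nd2, Q_neg' nd2, pol_smul_right nd2, pol_smul_left nd2, nd2.smul, t_inv, inv_inv, zero_mul, mul_zero, add_zero, zero_add, sub_zero, smul_zero, neg_zero]
  all_goals first
    | rfl
    | ring1
    | (field_simp; done)
    | (field_simp; ring1)
    | (funext i; simp only [Pi.sub_apply, Pi.add_apply, Pi.neg_apply, Pi.smul_apply, smul_eq_mul, Pi.zero_apply]; first | ring1 | (field_simp; done) | (field_simp; ring1))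

lemma AA_lfl (t : Fˣ) (g : Omega F Q'') :
    dG L M.swap t * L.lf (M.lf g) = L.lf (M.lf g) * dG L M.swap t := by
  apply eq_of_vec L M
  intro α β α' β' c
  simp only [act_mul, lfl_vec, AA_vec]

lemma dd_lfl (t : Fˣ) (g : Omega F Q'') :
    dG L M t * L.lf (M.lf g) = L.lf (M.lf g) * dG L M t := by
  apply eq_of_vec L M
  intro α β α' β' c
  simp only [act_mul, lfl_vec, dG_vec]

lemma AA_dd (s t : Fˣ) :
    dG L M.swap s * dG L M t = dG L M t * dG L M.swap s := by
  apply eq_of_vec L M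
  intro α β α' β' c
  simp only [act_mul, AA_vec, dG_vec]
  have nd2 := M.nd'
  refine L.vec_congr ?_ ?_ (M.vec_congr ?_ ?_ ?_)
  all_goals try simp only [pol_zero_right nd2, pol_zero_left nd2, Q_zero nd2, pol_neg_right nd2, Q_neg' nd2, pol_smul_right nd2, pol_smul_left nd2, nd2.smul, t_inv, inv_inv, zero_mul, mul_zero, add_zero, zero_add, sub_zero, smul_zero, neg_zero]
  all_goals first
    | rfl
    | ring1
    | (field_simp; done)
    | (field_simp; ring1)
    | (funext i; simp only [Pi.sub_apply, Pi.add_apply, Pi.neg_apply, Pi.smul_apply, smul_eq_mul, Pi.zero_apply]; first | ring1 | (field_simp; done) | (field_simp; ring1))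

/-- The relation between the opposite root groups in `SL₂`. -/
lemma nW_rel (r : Fˣ) :
    (nW L M)⁻¹ * L.x (M.vec 0 r 0) * nW L M =
      L.x (M.vec 0 (-((r⁻¹ : Fˣ) : F)) 0) * dG L M r⁻¹ * nW L M * L.x (M.vec 0 (-((r⁻¹ : Fˣ) : F)) 0) := by
  have hr : (r : F) ≠ 0 := r.ne_zero
  rw [mul_assoc, X_nW, ← mul_assoc, inv_mul_cancel, one_mul]
  apply eq_of_vec L M
  intro α β α' β' c
  simp only [act_mul, y2_vec, x2_vec, nW_vec, dG_vec]
  have nd2 := M.nd'
  refine L.vec_congr ?_ ?_ (M.vec_congr ?_ ?_ ?_)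
  all_goals try simp only [pol_zero_right nd2, pol_zero_left nd2, Q_zero nd2, pol_neg_right nd2, Q_neg' nd2, pol_smul_right nd2, pol_smul_left nd2, nd2.smul, t_inv, inv_inv, zero_mul, mul_zero, add_zero, zero_add, sub_zero, smul_zero, neg_zero]
  all_goals first
    | rfl
    | ring1
    | (field_simp; done)
    | (field_simp; ring1)

lemma lfl_x (g : Omega F Q'') (p p' : F) : L.lf (M.lf g) * L.x (M.vec p p' 0) = L.x (M.vec p p' 0) * L.lf (M.lf g) := by
  have h := L.lf_x (M.lf g) (M.vec p p' 0)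
  rw [M.lf_vec, act_zero', mul_inv_eq_iff_eq_mul] at h
  exact h

end Two

end Cfsg.Agent.Lib.OddDeg
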