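import Cfsg.Agent.Lib.OddDeg.Rel

/-!
Relations between the elements of `Ω` attached to a tower of three hyperbolic planes, and the short Weyl elements.
-/

set_option autoImplicit false
set_option linter.unusedSectionVars false
set_option linter.unusedVariables false
set_option linter.unusedSimpArgs false
set_option linter.ambiguousOpen false

namespace Cfsg.Agent.Lib.OddDeg

open Matrix Module Cfsg Cfsg.Geo
open Cfsg.Agent.Lib.Geo.Basic Cfsg.Agent.Lib.Geo.QForm Cfsg.Agent.Lib.QuadFn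
open Cfsg.Agent.Lib.GeoOmega.Basic Cfsg.Agent.Lib.GeoOmega.Eichler
open Cfsg.Agent.Lib.MinDeg Cfsg.Agent.Lib.MinDeg.Hyp Cfsg.Agent.Lib.Classical.MatrixBridge
open scoped MatrixGroups

variable {ι κ κ' κ'' : Type} [Fintype ι] [DecidableEq ι] [Fintype κ] [DecidableEq κ] [Fintype κ'] [DecidableEq κ']
  [Fintype κ''] [DecidableEq κ''] {F : Type*} [Field F] [Fintype F]
  {Q : (ι → F) → F} {Q' : (κ → F) → F} {Q'' : (κ' → F) → F} {Q''' : (κ'' → F) → F}

variable (L : HL Q Q') (M : HL Q' Q'') (K : HL Q'' Q''')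

lemma dG_inv (t : Fˣ) : (dG L M t)⁻¹ = dG L M t⁻¹ := by
  apply inv_eq_of_mul_eq_one_right
  rw [← dG_mul, mul_inv_cancel, dG_one]

lemma dG_comm (s t : Fˣ) : dG L M s * dG L M t = dG L M t * dG L M s := by
  rw [← dG_mul, ← dG_mul, mul_comm]

/-- The torus element `(1, t, t)`. -/
noncomputable abbrev E2 (t : Fˣ) : Omega F Q := L.lf (dG M K.swap t)

/-- The torus element `(t, 1, t)`. -/
noncomputable def E1 (t : Fˣ) : Omega F Q := dG L M t * E2 L M K t

lemma eq_of_vec3 {g g' : Omega F Q}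
    (h : ∀ α β α' β' a b (e : κ'' → F), act g (L.vec α β (M.vec α' β' (K.vec a b e))) =
      act g' (L.vec α β (M.vec α' β' (K.vec a b e)))) : g = g' := by
  apply eq_of_vec L M
  intro α β α' β' c
  rw [← K.he.vec_coord c]
  exact h _ _ _ _ _ _ _

lemma E2_vec (t : Fˣ) (α β α' β' a b : F) (e : κ'' → F) :
    act (E2 L M K t) (L.vec α β (M.vec α' β' (K.vec a b e))) =
      L.vec α β (M.vec ((t : F) * α') (((t⁻¹ : Fˣ) : F) * β') (K.vec ((t : F) * a) (((t⁻¹ : Fˣ) : F) * b) e)) := by
  rw [L.lf_vec, AA_vec]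

lemma d2_vec (t : Fˣ) (α β α' β' a b : F) (e : κ'' → F) :
    act (L.lf (dG M K t)) (L.vec α β (M.vec α' β' (K.vec a b e))) =
      L.vec α β (M.vec ((t : F) * α') (((t⁻¹ : Fˣ) : F) * β') (K.vec (((t⁻¹ : Fˣ) : F) * a) ((t : F) * b) e)) := by
  rw [L.lf_vec, dG_vec]

lemma E1_vec (t : Fˣ) (α β α' β' a b : F) (e : κ'' → F) :
    act (E1 L M K t) (L.vec α β (M.vec α' β' (K.vec a b e))) =
      L.vec ((t : F) * α) (((t⁻¹ : Fˣ) : F) * β) (M.vec α' β' (K.vec ((t : F) * a) (((t⁻¹ : Fˣ) : F) * b) e)) := by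
  have ht : (t : F) ≠ 0 := t.ne_zero
  rw [E1, act_mul, E2_vec, dG_vec]
  simp only [t_inv, ← mul_assoc, inv_mul_cancel₀ ht, mul_inv_cancel₀ ht, one_mul]

lemma nm_vec (α β α' β' a b : F) (e : κ'' → F) :
    act (L.lf (nW M K)) (L.vec α β (M.vec α' β' (K.vec a b e))) =
      L.vec α β (M.vec a b (K.vec (-α') (-β') e)) := by
  rw [L.lf_vec, nW_vec]

lemma k1_vec (c' : κ'' → F) (α β α' β' a b : F) (e : κ'' → F) :
    act (L.lf (M.lf (K.x c'))) (L.vec α β (M.vec α' β' (K.vec a b e))) =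
      L.vec α β (M.vec α' β' (K.vec (a + pol Q''' e c' - Q''' c' * b) b (e - b • c'))) := by
  rw [lfl_vec, K.x_vec]

lemma k2_vec (c' : κ'' → F) (α β α' β' a b : F) (e : κ'' → F) :
    act (L.lf (M.lf (K.y c'))) (L.vec α β (M.vec α' β' (K.vec a b e))) =
      L.vec α β (M.vec α' β' (K.vec a (b + pol Q''' e c' - Q''' c' * a) (e - a • c'))) := by
  rw [lfl_vec, K.y_vec]

lemma zz3_vec (p p' : F) (c' : κ'' → F) (α β α' β' a b : F) (e : κ'' → F) :
    act (L.lf (M.x (K.vec p p' c'))) (L.vec α β (M.vec α' β' (K.vec a b e))) =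
      L.vec α β (M.vec (α' + a * p' + b * p + pol Q''' e c' - (p * p' + Q''' c') * β') β'
        (K.vec (a - β' * p) (b - β' * p') (e - β' • c'))) := by
  rw [L.lf_vec, x2_vec]

lemma w1_vec (α β α' β' : F) (c : κ' → F) :
    act (L.wS (M.vec 1 1 0)) (L.vec α β (M.vec α' β' c)) = L.vec (-β) (-α) (M.vec (-β') (-α') c) := by
  have nd2 := M.nd'
  have hq : Q' (M.vec 1 1 0) = 1 := by
    rw [M_Q M, Q_zero nd2]
    ring
  rw [L.wS_vec (by rw [hq]; exact one_ne_zero), hq, M_pol M, M_smul M, M_sub M, pol_zero_right nd2]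
  refine L.vec_congr ?_ ?_ (M.vec_congr ?_ ?_ ?_)
  · ring
  · ring
  · ring
  · ring
  · simp

lemma w1_sq : L.wS (M.vec 1 1 0) * L.wS (M.vec 1 1 0) = 1 := by
  apply eq_of_vec L M
  intro α β α' β' c
  simp only [act_mul, w1_vec, act_one, neg_neg]

lemma w1_inv : (L.wS (M.vec 1 1 0))⁻¹ = L.wS (M.vec 1 1 0) := inv_eq_of_mul_eq_one_left (w1_sq L M)

lemma w1_x (p p' : F) (c : κ' → F) :
    L.wS (M.vec 1 1 0) * L.x (M.vec p p' c) = L.y (M.vec p' p (-c)) * L.wS (M.vec 1 1 0) := by
  apply eq_of_vec L M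
  intro α β α' β' c
  simp only [act_mul, w1_vec, x2_vec, y2_vec]
  have nd2 := M.nd'
  refine L.vec_congr ?_ ?_ (M.vec_congr ?_ ?_ ?_)
  all_goals try simp only [pol_zero_right nd2, pol_zero_left nd2, Q_zero nd2, pol_neg_right nd2, Q_neg' nd2, pol_smul_right nd2, pol_smul_left nd2, nd2.smul, t_inv, inv_inv, zero_mul, mul_zero, add_zero, zero_add, sub_zero, smul_zero, neg_zero]
  all_goals first
    | rfl
    | ring1
    | (field_simp; done)
    | (field_simp; ring1)
    | (funext i; simp only [Pi.sub_apply, Pi.add_apply, Pi.neg_apply, Pi.smul_apply, smul_eq_mul, Pi.zero_apply]; first | ring1 | (field_simp; done) | (field_simp; ring1))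

lemma w1_y (p p' : F) (c : κ' → F) :
    L.wS (M.vec 1 1 0) * L.y (M.vec p p' c) = L.x (M.vec p' p (-c)) * L.wS (M.vec 1 1 0) := by
  apply eq_of_vec L M
  intro α β α' β' c
  simp only [act_mul, w1_vec, x2_vec, y2_vec]
  have nd2 := M.nd'
  refine L.vec_congr ?_ ?_ (M.vec_congr ?_ ?_ ?_)
  all_goals try simp only [pol_zero_right nd2, pol_zero_left nd2, Q_zero nd2, pol_neg_right nd2, Q_neg' nd2, pol_smul_right nd2, pol_smul_left nd2, nd2.smul, t_inv, inv_inv, zero_mul, mul_zero, add_zero, zero_add, sub_zero, smul_zero, neg_zero]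
  all_goals first
    | rfl
    | ring1
    | (field_simp; done)
    | (field_simp; ring1)
    | (funext i; simp only [Pi.sub_apply, Pi.add_apply, Pi.neg_apply, Pi.smul_apply, smul_eq_mul, Pi.zero_apply]; first | ring1 | (field_simp; done) | (field_simp; ring1))

lemma w1_zz (c : κ' → F) :
    L.wS (M.vec 1 1 0) * L.lf (M.x c) = L.lf (M.y (-c)) * L.wS (M.vec 1 1 0) := by
  apply eq_of_vec L M
  intro α β α' β' c
  simp only [act_mul, w1_vec, zz_vec, zm_vec]
  have nd2 := M.nd'
  refine L.vec_congr ?_ ?_ (M.vec_congr ?_ ?_ ?_)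
  all_goals try simp only [pol_zero_right nd2, pol_zero_left nd2, Q_zero nd2, pol_neg_right nd2, Q_neg' nd2, pol_smul_right nd2, pol_smul_left nd2, nd2.smul, t_inv, inv_inv, zero_mul, mul_zero, add_zero, zero_add, sub_zero, smul_zero, neg_zero]
  all_goals first
    | rfl
    | ring1
    | (field_simp; done)
    | (field_simp; ring1)
    | (funext i; simp only [Pi.sub_apply, Pi.add_apply, Pi.neg_apply, Pi.smul_apply, smul_eq_mul, Pi.zero_apply]; first | ring1 | (field_simp; done) | (field_simp; ring1))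

lemma w1_zm (c : κ' → F) :
    L.wS (M.vec 1 1 0) * L.lf (M.y c) = L.lf (M.x (-c)) * L.wS (M.vec 1 1 0) := by
  apply eq_of_vec L M
  intro α β α' β' c
  simp only [act_mul, w1_vec, zz_vec, zm_vec]
  have nd2 := M.nd'
  refine L.vec_congr ?_ ?_ (M.vec_congr ?_ ?_ ?_)
  all_goals try simp only [pol_zero_right nd2, pol_zero_left nd2, Q_zero nd2, pol_neg_right nd2, Q_neg' nd2, pol_smul_right nd2, pol_smul_left nd2, nd2.smul, t_inv, inv_inv, zero_mul, mul_zero, add_zero, zero_add, sub_zero, smul_zero, neg_zero]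
  all_goals first
    | rfl
    | ring1
    | (field_simp; done)
    | (field_simp; ring1)
    | (funext i; simp only [Pi.sub_apply, Pi.add_apply, Pi.neg_apply, Pi.smul_apply, smul_eq_mul, Pi.zero_apply]; first | ring1 | (field_simp; done) | (field_simp; ring1))

lemma w1_dd (t : Fˣ) :
    dG L M t * L.wS (M.vec 1 1 0) = L.wS (M.vec 1 1 0) * dG L M t⁻¹ := by
  have ht : (t : F) ≠ 0 := t.ne_zero
  apply eq_of_vec L M
  intro α β α' β' c
  simp only [act_mul, w1_vec, dG_vec]
  have nd2 := M.nd'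
  refine L.vec_congr ?_ ?_ (M.vec_congr ?_ ?_ ?_)
  all_goals try simp only [pol_zero_right nd2, pol_zero_left nd2, Q_zero nd2, pol_neg_right nd2, Q_neg' nd2, pol_smul_right nd2, pol_smul_left nd2, nd2.smul, t_inv, inv_inv, zero_mul, mul_zero, add_zero, zero_add, sub_zero, smul_zero, neg_zero]
  all_goals first
    | rfl
    | ring1
    | (field_simp; done)
    | (field_simp; ring1)
    | (funext i; simp only [Pi.sub_apply, Pi.add_apply, Pi.neg_apply, Pi.smul_apply, smul_eq_mul, Pi.zero_apply]; first | ring1 | (field_simp; done) | (field_simp; ring1))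

lemma w1_AA (t : Fˣ) :
    dG L M.swap t * L.wS (M.vec 1 1 0) = L.wS (M.vec 1 1 0) * dG L M.swap t⁻¹ := by
  have ht : (t : F) ≠ 0 := t.ne_zero
  apply eq_of_vec L M
  intro α β α' β' c
  simp only [act_mul, w1_vec, AA_vec]
  have nd2 := M.nd'
  refine L.vec_congr ?_ ?_ (M.vec_congr ?_ ?_ ?_)
  all_goals try simp only [pol_zero_right nd2, pol_zero_left nd2, Q_zero nd2, pol_neg_right nd2, Q_neg' nd2, pol_smul_right nd2, pol_smul_left nd2, nd2.smul, t_inv, inv_inv, zero_mul, mul_zero, add_zero, zero_add, sub_zero, smul_zero, neg_zero]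
  all_goals first
    | rfl
    | ring1
    | (field_simp; done)
    | (field_simp; ring1)
    | (funext i; simp only [Pi.sub_apply, Pi.add_apply, Pi.neg_apply, Pi.smul_apply, smul_eq_mul, Pi.zero_apply]; first | ring1 | (field_simp; done) | (field_simp; ring1))

lemma wS_eq (r : Fˣ) :
    L.wS (M.vec 1 (r : F) 0) = L.wS (M.vec 1 1 0) * dG L M.swap r := by
  have ht : (r : F) ≠ 0 := r.ne_zero
  have hq : Q' (M.vec 1 (r : F) 0) = r := by
    rw [M_Q M, Q_zero M.nd']
    ring
  apply eq_of_vec L M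
  intro α β α' β' c
  rw [act_mul, AA_vec, w1_vec, L.wS_vec (by rw [hq]; exact ht), hq, M_pol M, M_smul M, M_sub M, pol_zero_right M.nd']
  have nd2 := M.nd'
  refine L.vec_congr ?_ ?_ (M.vec_congr ?_ ?_ ?_)
  all_goals try simp only [pol_zero_right nd2, pol_zero_left nd2, Q_zero nd2, pol_neg_right nd2, Q_neg' nd2, pol_smul_right nd2, pol_smul_left nd2, nd2.smul, t_inv, inv_inv, zero_mul, mul_zero, add_zero, zero_add, sub_zero, smul_zero, neg_zero]
  all_goals first
    | rfl
    | ring1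
    | (field_simp; done)
    | (field_simp; ring1)
    | (funext i; simp only [Pi.sub_apply, Pi.add_apply, Pi.neg_apply, Pi.smul_apply, smul_eq_mul, Pi.zero_apply]; first | ring1 | (field_simp; done) | (field_simp; ring1))

lemma E2_nW (t : Fˣ) :
    E2 L M K t * nW L M = nW L M * E1 L M K t := by
  apply eq_of_vec3 L M K
  intro α β α' β' a b e
  simp only [act_mul, nW_vec, E2_vec, E1_vec]
  have nd3 := K.nd'
  refine L.vec_congr ?_ ?_ (M.vec_congr ?_ ?_ (K.vec_congr ?_ ?_ ?_))
  all_goals try simp only [pol_zero_right nd3, pol_zero_left nd3, Q_zero nd3, pol_neg_right nd3, Q_neg' nd3, pol_smul_right nd3, pol_smul_left nd3, nd3.smul, t_inv, inv_inv, zero_mul, mul_zero, add_zero, zero_add, sub_zero, smul_zero, neg_zero]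
  all_goals first
    | rfl
    | ring1
    | (field_simp; done)
    | (field_simp; ring1)
    | (funext i; simp only [Pi.sub_apply, Pi.add_apply, Pi.neg_apply, Pi.smul_apply, smul_eq_mul, Pi.zero_apply]; first | ring1 | (field_simp; done) | (field_simp; ring1))

lemma E1_nW (t : Fˣ) :
    E1 L M K t * nW L M = nW L M * E2 L M K t := by
  apply eq_of_vec3 L M K
  intro α β α' β' a b e
  simp only [act_mul, nW_vec, E2_vec, E1_vec]

lemma E2_dd (s t : Fˣ) :
    E2 L M K s * dG L M t = dG L M t * E2 L M K s := by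
  apply eq_of_vec3 L M K
  intro α β α' β' a b e
  simp only [act_mul, E2_vec, dG_vec]
  have nd3 := K.nd'
  refine L.vec_congr ?_ ?_ (M.vec_congr ?_ ?_ (K.vec_congr ?_ ?_ ?_))
  all_goals try simp only [pol_zero_right nd3, pol_zero_left nd3, Q_zero nd3, pol_neg_right nd3, Q_neg' nd3, pol_smul_right nd3, pol_smul_left nd3, nd3.smul, t_inv, inv_inv, zero_mul, mul_zero, add_zero, zero_add, sub_zero, smul_zero, neg_zero]
  all_goals first
    | rfl
    | ring1
    | (field_simp; done)
    | (field_simp; ring1)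
    | (funext i; simp only [Pi.sub_apply, Pi.add_apply, Pi.neg_apply, Pi.smul_apply, smul_eq_mul, Pi.zero_apply]; first | ring1 | (field_simp; done) | (field_simp; ring1))

lemma E2_AA (s t : Fˣ) :
    E2 L M K s * dG L M.swap t = dG L M.swap t * E2 L M K s := by
  apply eq_of_vec3 L M K
  intro α β α' β' a b e
  simp only [act_mul, E2_vec, AA_vec]
  have nd3 := K.nd'
  refine L.vec_congr ?_ ?_ (M.vec_congr ?_ ?_ (K.vec_congr ?_ ?_ ?_))
  all_goals try simp only [pol_zero_right nd3, pol_zero_left nd3, Q_zero nd3, pol_neg_right nd3, Q_neg' nd3, pol_smul_right nd3, pol_smul_left nd3, nd3.smul, t_inv, inv_inv, zero_mul, mul_zero, add_zero, zero_add, sub_zero, smul_zero, neg_zero]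
  all_goals first
    | rfl
    | ring1
    | (field_simp; done)
    | (field_simp; ring1)
    | (funext i; simp only [Pi.sub_apply, Pi.add_apply, Pi.neg_apply, Pi.smul_apply, smul_eq_mul, Pi.zero_apply]; first | ring1 | (field_simp; done) | (field_simp; ring1))

lemma E1_nm (t : Fˣ) :
    E1 L M K t * L.lf (nW M K) = L.lf (nW M K) * dG L M.swap t := by
  apply eq_of_vec3 L M K
  intro α β α' β' a b e
  simp only [act_mul, E1_vec, nm_vec, AA_vec]
  have nd3 := K.nd'
  refine L.vec_congr ?_ ?_ (M.vec_congr ?_ ?_ (K.vec_congr ?_ ?_ ?_))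
  all_goals try simp only [pol_zero_right nd3, pol_zero_left nd3, Q_zero nd3, pol_neg_right nd3, Q_neg' nd3, pol_smul_right nd3, pol_smul_left nd3, nd3.smul, t_inv, inv_inv, zero_mul, mul_zero, add_zero, zero_add, sub_zero, smul_zero, neg_zero]
  all_goals first
    | rfl
    | ring1
    | (field_simp; done)
    | (field_simp; ring1)
    | (funext i; simp only [Pi.sub_apply, Pi.add_apply, Pi.neg_apply, Pi.smul_apply, smul_eq_mul, Pi.zero_apply]; first | ring1 | (field_simp; done) | (field_simp; ring1))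

lemma E2_nm (t : Fˣ) :
    E2 L M K t * L.lf (nW M K) = L.lf (nW M K) * E2 L M K t := by
  apply eq_of_vec3 L M K
  intro α β α' β' a b e
  simp only [act_mul, E2_vec, nm_vec]
  have nd3 := K.nd'
  refine L.vec_congr ?_ ?_ (M.vec_congr ?_ ?_ (K.vec_congr ?_ ?_ ?_))
  all_goals try simp only [pol_zero_right nd3, pol_zero_left nd3, Q_zero nd3, pol_neg_right nd3, Q_neg' nd3, pol_smul_right nd3, pol_smul_left nd3, nd3.smul, t_inv, inv_inv, zero_mul, mul_zero, add_zero, zero_add, sub_zero, smul_zero, neg_zero]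
  all_goals first
    | rfl
    | ring1
    | (field_simp; done)
    | (field_simp; ring1)
    | (funext i; simp only [Pi.sub_apply, Pi.add_apply, Pi.neg_apply, Pi.smul_apply, smul_eq_mul, Pi.zero_apply]; first | ring1 | (field_simp; done) | (field_simp; ring1))

lemma E1_AA (s t : Fˣ) :
    E1 L M K s * dG L M.swap t = dG L M.swap t * E1 L M K s := by
  apply eq_of_vec3 L M K
  intro α β α' β' a b e
  simp only [act_mul, E1_vec, AA_vec]
  have nd3 := K.nd'
  refine L.vec_congr ?_ ?_ (M.vec_congr ?_ ?_ (K.vec_congr ?_ ?_ ?_))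
  all_goals try simp only [pol_zero_right nd3, pol_zero_left nd3, Q_zero nd3, pol_neg_right nd3, Q_neg' nd3, pol_smul_right nd3, pol_smul_left nd3, nd3.smul, t_inv, inv_inv, zero_mul, mul_zero, add_zero, zero_add, sub_zero, smul_zero, neg_zero]
  all_goals first
    | rfl
    | ring1
    | (field_simp; done)
    | (field_simp; ring1)
    | (funext i; simp only [Pi.sub_apply, Pi.add_apply, Pi.neg_apply, Pi.smul_apply, smul_eq_mul, Pi.zero_apply]; first | ring1 | (field_simp; done) | (field_simp; ring1))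

lemma E1_k1 (t : Fˣ) (c : κ'' → F) :
    E1 L M K t * L.lf (M.lf (K.x c)) = L.lf (M.lf (K.x ((t : F) • c))) * E1 L M K t := by
  have ht : (t : F) ≠ 0 := t.ne_zero
  apply eq_of_vec3 L M K
  intro α β α' β' a b e
  simp only [act_mul, E1_vec, k1_vec]
  have nd3 := K.nd'
  refine L.vec_congr ?_ ?_ (M.vec_congr ?_ ?_ (K.vec_congr ?_ ?_ ?_))
  all_goals try simp only [pol_zero_right nd3, pol_zero_left nd3, Q_zero nd3, pol_neg_right nd3, Q_neg' nd3, pol_smul_right nd3, pol_smul_left nd3, nd3.smul, t_inv, inv_inv, zero_mul, mul_zero, add_zero, zero_add, sub_zero, smul_zero, neg_zero]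
  all_goals first
    | rfl
    | ring1
    | (field_simp; done)
    | (field_simp; ring1)
    | (funext i; simp only [Pi.sub_apply, Pi.add_apply, Pi.neg_apply, Pi.smul_apply, smul_eq_mul, Pi.zero_apply]; first | ring1 | (field_simp; done) | (field_simp; ring1))

lemma E1_k2 (t : Fˣ) (c : κ'' → F) :
    E1 L M K t * L.lf (M.lf (K.y c)) = L.lf (M.lf (K.y (((t⁻¹ : Fˣ) : F) • c))) * E1 L M K t := by
  have ht : (t : F) ≠ 0 := t.ne_zero
  apply eq_of_vec3 L M K
  intro α β α' β' a b e
  simp only [act_mul, E1_vec, k2_vec]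
  have nd3 := K.nd'
  refine L.vec_congr ?_ ?_ (M.vec_congr ?_ ?_ (K.vec_congr ?_ ?_ ?_))
  all_goals try simp only [pol_zero_right nd3, pol_zero_left nd3, Q_zero nd3, pol_neg_right nd3, Q_neg' nd3, pol_smul_right nd3, pol_smul_left nd3, nd3.smul, t_inv, inv_inv, zero_mul, mul_zero, add_zero, zero_add, sub_zero, smul_zero, neg_zero]
  all_goals first
    | rfl
    | ring1
    | (field_simp; done)
    | (field_simp; ring1)
    | (funext i; simp only [Pi.sub_apply, Pi.add_apply, Pi.neg_apply, Pi.smul_apply, smul_eq_mul, Pi.zero_apply]; first | ring1 | (field_simp; done) | (field_simp; ring1))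

lemma E1_zz (t : Fˣ) (p p' : F) (c : κ'' → F) :
    E1 L M K t * L.lf (M.x (K.vec p p' c)) = L.lf (M.x (K.vec ((t : F) * p) (((t⁻¹ : Fˣ) : F) * p') c)) * E1 L M K t := by
  have ht : (t : F) ≠ 0 := t.ne_zero
  apply eq_of_vec3 L M K
  intro α β α' β' a b e
  simp only [act_mul, E1_vec, zz3_vec]
  have nd3 := K.nd'
  refine L.vec_congr ?_ ?_ (M.vec_congr ?_ ?_ (K.vec_congr ?_ ?_ ?_))
  all_goals try simp only [pol_zero_right nd3, pol_zero_left nd3, Q_zero nd3, pol_neg_right nd3, Q_neg' nd3, pol_smul_right nd3, pol_smul_left nd3, nd3.smul, t_inv, inv_inv, zero_mul, mul_zero, add_zero, zero_add, sub_zero, smul_zero, neg_zero]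
  all_goals first
    | rfl
    | ring1
    | (field_simp; done)
    | (field_simp; ring1)
    | (funext i; simp only [Pi.sub_apply, Pi.add_apply, Pi.neg_apply, Pi.smul_apply, smul_eq_mul, Pi.zero_apply]; first | ring1 | (field_simp; done) | (field_simp; ring1))

lemma lw_AA (t : Fˣ) :
    dG L M.swap t * L.lf (M.wS (K.vec 1 1 0)) = L.lf (M.wS (K.vec 1 1 0)) * dG L M t := by
  have ht : (t : F) ≠ 0 := t.ne_zero
  apply eq_of_vec3 L M K
  intro α β α' β' a b e
  simp only [act_mul, AA_vec, dG_vec]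
  rw [L.lf_vec, L.lf_vec, w1_vec, w1_vec]
  simp only [AA_vec, dG_vec]
  have nd3 := K.nd'
  refine L.vec_congr ?_ ?_ (M.vec_congr ?_ ?_ (K.vec_congr ?_ ?_ ?_))
  all_goals try simp only [pol_zero_right nd3, pol_zero_left nd3, Q_zero nd3, pol_neg_right nd3, Q_neg' nd3, pol_smul_right nd3, pol_smul_left nd3, nd3.smul, t_inv, inv_inv, zero_mul, mul_zero, add_zero, zero_add, sub_zero, smul_zero, neg_zero]
  all_goals first
    | rfl
    | ring1
    | (field_simp; done)
    | (field_simp; ring1)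
    | (funext i; simp only [Pi.sub_apply, Pi.add_apply, Pi.neg_apply, Pi.smul_apply, smul_eq_mul, Pi.zero_apply]; first | ring1 | (field_simp; done) | (field_simp; ring1))

lemma lw_dd (t : Fˣ) :
    dG L M t * L.lf (M.wS (K.vec 1 1 0)) = L.lf (M.wS (K.vec 1 1 0)) * dG L M.swap t := by
  have ht : (t : F) ≠ 0 := t.ne_zero
  apply eq_of_vec3 L M K
  intro α β α' β' a b e
  simp only [act_mul, AA_vec, dG_vec]
  rw [L.lf_vec, L.lf_vec, w1_vec, w1_vec]
  simp only [AA_vec, dG_vec]
  have nd3 := K.nd'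
  refine L.vec_congr ?_ ?_ (M.vec_congr ?_ ?_ (K.vec_congr ?_ ?_ ?_))
  all_goals try simp only [pol_zero_right nd3, pol_zero_left nd3, Q_zero nd3, pol_neg_right nd3, Q_neg' nd3, pol_smul_right nd3, pol_smul_left nd3, nd3.smul, t_inv, inv_inv, zero_mul, mul_zero, add_zero, zero_add, sub_zero, smul_zero, neg_zero]
  all_goals first
    | rfl
    | ring1
    | (field_simp; done)
    | (field_simp; ring1)
    | (funext i; simp only [Pi.sub_apply, Pi.add_apply, Pi.neg_apply, Pi.smul_apply, smul_eq_mul, Pi.zero_apply]; first | ring1 | (field_simp; done) | (field_simp; ring1))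

lemma w1_E2 (t : Fˣ) :
    E2 L M K t * L.wS (M.vec 1 1 0) = L.wS (M.vec 1 1 0) * L.lf (dG M K t⁻¹) := by
  have ht : (t : F) ≠ 0 := t.ne_zero
  apply eq_of_vec3 L M K
  intro α β α' β' a b e
  simp only [act_mul, w1_vec, E2_vec, d2_vec]
  have nd3 := K.nd'
  refine L.vec_congr ?_ ?_ (M.vec_congr ?_ ?_ (K.vec_congr ?_ ?_ ?_))
  all_goals try simp only [pol_zero_right nd3, pol_zero_left nd3, Q_zero nd3, pol_neg_right nd3, Q_neg' nd3, pol_smul_right nd3, pol_smul_left nd3, nd3.smul, t_inv, inv_inv, zero_mul, mul_zero, add_zero, zero_add, sub_zero, smul_zero, neg_zero]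
  all_goals first
    | rfl
    | ring1
    | (field_simp; done)
    | (field_simp; ring1)
    | (funext i; simp only [Pi.sub_apply, Pi.add_apply, Pi.neg_apply, Pi.smul_apply, smul_eq_mul, Pi.zero_apply]; first | ring1 | (field_simp; done) | (field_simp; ring1))

lemma w1_d2 (t : Fˣ) :
    L.lf (dG M K t) * L.wS (M.vec 1 1 0) = L.wS (M.vec 1 1 0) * E2 L M K t⁻¹ := by
  have ht : (t : F) ≠ 0 := t.ne_zero
  apply eq_of_vec3 L M K
  intro α β α' β' a b e
  simp only [act_mul, w1_vec, E2_vec, d2_vec]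
  have nd3 := K.nd'
  refine L.vec_congr ?_ ?_ (M.vec_congr ?_ ?_ (K.vec_congr ?_ ?_ ?_))
  all_goals try simp only [pol_zero_right nd3, pol_zero_left nd3, Q_zero nd3, pol_neg_right nd3, Q_neg' nd3, pol_smul_right nd3, pol_smul_left nd3, nd3.smul, t_inv, inv_inv, zero_mul, mul_zero, add_zero, zero_add, sub_zero, smul_zero, neg_zero]
  all_goals first
    | rfl
    | ring1
    | (field_simp; done)
    | (field_simp; ring1)
    | (funext i; simp only [Pi.sub_apply, Pi.add_apply, Pi.neg_apply, Pi.smul_apply, smul_eq_mul, Pi.zero_apply]; first | ring1 | (field_simp; done) | (field_simp; ring1))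

end Cfsg.Agent.Lib.OddDeg
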