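import Cfsg.Agent.Lib.OddDeg.Tower

/-!
The short Weyl elements attached to nonsingular vectors.
-/

set_option autoImplicit false
set_option linter.unusedSectionVars false
set_option linter.unusedVariables false
set_option linter.unusedSimpArgs false
set_option linter.ambiguousOpen false

namespace Cfsg.Agent.Lib.OddDeg

open Matrix Module Cfsg Cfsg.Geo
open Cfsg.Agent.Lib.Geo.Basic Cfsg.Agent.Lib.Geo.QForm Cfsg.Agent.Lib.QuadFn
open Cfsg.Agent.Lib.GeoOmega.Basic Cfsg.Agent.Lib.GeoOmega.Eichler Cfsg.Agent.Lib.GeoOmega.Levi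
open Cfsg.Agent.Lib.MinDeg Cfsg.Agent.Lib.MinDeg.Hyp Cfsg.Agent.Lib.Classical.MatrixBridge
open scoped MatrixGroups

variable {ι κ κ' κ'' : Type} [Fintype ι] [DecidableEq ι] [Fintype κ] [DecidableEq κ] [Fintype κ'] [DecidableEq κ']
  [Fintype κ''] [DecidableEq κ''] {F : Type*} [Field F] [Fintype F]
  {Q : (ι → F) → F} {Q' : (κ → F) → F} {Q'' : (κ' → F) → F} {Q''' : (κ'' → F) → F}

variable (L : HL Q Q') (M : HL Q' Q'') (K : HL Q'' Q''')

/-- The reflection along a nonsingular vector. -/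
def Rfl (Q' : (κ → F) → F) (d c : κ → F) : κ → F := c - (pol Q' c d / Q' d) • d

section Rf

variable (hQ' : IsNondegenerateQuadraticForm Q') {d : κ → F} (hd : Q' d ≠ 0)

include hQ' hd

lemma Rfl_eq (c : κ → F) : Rfl Q' d c = (rf hQ' d).1 *ᵥ c := by
  rw [rf_mulVec, Rfl, div_eq_inv_mul]

lemma pol_Rfl (c b : κ → F) : pol Q' (Rfl Q' d c) (Rfl Q' d b) = pol Q' c b := by
  rw [Rfl_eq hQ' hd, Rfl_eq hQ' hd]
  exact pol_isometry _ (rf_mem hQ' d) c b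

lemma Q_Rfl (b : κ → F) : Q' (Rfl Q' d b) = Q' b := by
  rw [Rfl_eq hQ' hd]
  exact (mem_isometryGroup_iff Q' _).mp (rf_mem hQ' d) b

lemma Rfl_sub (b c : κ → F) : Rfl Q' d (b - c) = Rfl Q' d b - Rfl Q' d c := by
  rw [Rfl_eq hQ' hd, Rfl_eq hQ' hd, Rfl_eq hQ' hd, Matrix.mulVec_sub]

lemma Rfl_smul (t : F) (b : κ → F) : Rfl Q' d (t • b) = t • Rfl Q' d b := by
  rw [Rfl_eq hQ' hd, Rfl_eq hQ' hd, Matrix.mulVec_smul]

lemma Rfl_Rfl (c : κ → F) : Rfl Q' d (Rfl Q' d c) = c := by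
  have h2 : pol Q' d d = 2 * Q' d := pol_self hQ' d
  simp only [Rfl, pol_sub_left hQ', pol_smul_left hQ', h2]
  funext i
  simp only [Pi.sub_apply, Pi.smul_apply, smul_eq_mul]
  field_simp
  ring

end Rf

lemma wS_vec' {d : κ → F} (hd : Q' d ≠ 0) (α β : F) (c : κ → F) :
    act (L.wS d) (L.vec α β c) = L.vec (-β / Q' d) (-(Q' d * α)) (Rfl Q' d c) := L.wS_vec hd α β c

lemma wS_sq {d : κ → F} (hd : Q' d ≠ 0) : L.wS d * L.wS d = 1 := by
  apply L.ext_vec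
  intro α β c
  rw [act_mul, wS_vec' L hd, wS_vec' L hd, act_one, Rfl_Rfl L.nd' hd]
  refine L.vec_congr ?_ ?_ rfl
  · field_simp
  · field_simp

lemma wS_inv {d : κ → F} (hd : Q' d ≠ 0) : (L.wS d)⁻¹ = L.wS d := inv_eq_of_mul_eq_one_left (wS_sq L hd)

/-- Conjugation of the root groups by the short Weyl elements. -/
lemma wS_x {d : κ → F} (hd : Q' d ≠ 0) (b : κ → F) :
    L.wS d * L.x b = L.y ((-(Q' d)) • Rfl Q' d b) * L.wS d := by
  have nd := L.nd'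
  apply L.ext_vec
  intro α β c
  simp only [act_mul, wS_vec' L hd, L.x_vec, L.y_vec]
  simp only [pol_smul_right nd, pol_Rfl nd hd, nd.smul, Q_Rfl nd hd]
  refine L.vec_congr rfl ?_ ?_
  · field_simp
    ring
  · rw [Rfl_sub nd hd, Rfl_smul nd hd]
    funext i
    simp only [Pi.sub_apply, Pi.smul_apply, smul_eq_mul]
    field_simp

/-- Conjugation of the smaller `Ω` by the short Weyl elements. -/
lemma wS_lf {d : κ → F} (hd : Q' d ≠ 0) (g : Omega F Q') :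
    ∃ g' : Omega F Q', L.wS d * L.lf g = L.lf g' * L.wS d := by
  have nd := L.nd'
  set r : isometryGroup F Q' := ⟨rf nd d, rf_mem nd d⟩ with hr
  have hmem : r * g.1 * r⁻¹ ∈ Omega F Q' := by
    have hn : (Omega F Q').Normal := by
      unfold Omega
      infer_instance
    exact hn.conj_mem g.1 g.2 r
  refine ⟨⟨_, hmem⟩, ?_⟩
  apply L.ext_vec
  intro α β c
  simp only [act_mul, wS_vec' L hd, L.lf_vec]
  refine L.vec_congr rfl rfl ?_
  have hrr : ∀ v, (r⁻¹).1.1 *ᵥ v = Rfl Q' d v := by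
    intro v
    have h1 : r.1.1 *ᵥ Rfl Q' d v = v := by
      have := Rfl_eq nd hd (Rfl Q' d v)
      rw [Rfl_Rfl nd hd] at this
      exact this.symm
    conv_lhs => rw [← h1]
    exact inv_mulVec_mulVec r.1 _
  have e : act (⟨r * g.1 * r⁻¹, hmem⟩ : Omega F Q') (Rfl Q' d c) = Rfl Q' d (act g c) := by
    show ((r * g.1 * r⁻¹).1).1 *ᵥ _ = _
    simp only [Subgroup.coe_mul, Units.val_mul, ← Matrix.mulVec_mulVec]
    rw [hrr, Rfl_Rfl nd hd]
    exact (Rfl_eq nd hd _).symm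
  rw [e]

section Mid

variable {d' : κ' → F} (hd : Q'' d' ≠ 0)

lemma Qd (hd' : Q'' d' ≠ 0) : Q' (M.vec 0 0 d') ≠ 0 := by
  rw [M_Q M]
  simpa using hd'

include hd in
lemma w0_vec (α β α' β' : F) (c : κ' → F) :
    act (L.wS (M.vec 0 0 d')) (L.vec α β (M.vec α' β' c)) =
      L.vec (-β / Q'' d') (-(Q'' d' * α)) (M.vec α' β' (Rfl Q'' d' c)) := by
  have hq : Q' (M.vec 0 0 d') = Q'' d' := by
    rw [M_Q M]
    ring
  rw [wS_vec' L (Qd M hd), hq, Rfl, M_pol M, hq, M_smul M, M_sub M]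
  refine L.vec_congr rfl rfl (M.vec_congr ?_ ?_ ?_)
  · ring
  · ring
  · simp [Rfl]

include hd

lemma w0_zz (b : κ' → F) :
    L.wS (M.vec 0 0 d') * L.lf (M.x b) = L.lf (M.x (Rfl Q'' d' b)) * L.wS (M.vec 0 0 d') := by
  have nd := M.nd'
  apply eq_of_vec L M
  intro α β α' β' c
  simp only [act_mul, w0_vec L M hd, zz_vec]
  rw [pol_Rfl nd hd, Q_Rfl nd hd, Rfl_sub nd hd, Rfl_smul nd hd]

lemma AA_w0 (t : Fˣ) :
    dG L M.swap t * L.wS (M.vec 0 0 d') = L.wS (M.vec 0 0 d') * dG L M t⁻¹ := by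
  have ht : (t : F) ≠ 0 := t.ne_zero
  apply eq_of_vec L M
  intro α β α' β' c
  simp only [act_mul, w0_vec L M hd, AA_vec, dG_vec]
  refine L.vec_congr ?_ ?_ (M.vec_congr ?_ ?_ rfl)
  all_goals simp only [t_inv, inv_inv]
  all_goals first
    | ring1
    | (field_simp; done)
    | (field_simp; ring1)

end Mid

section Low

variable {d₀ : κ'' → F} (hd : Q''' d₀ ≠ 0)

lemma Qd0 : Q'' (K.vec 0 0 d₀) = Q''' d₀ := by
  rw [M_Q K]
  ring

lemma Rfl_K (a b : F) (e : κ'' → F) (hd : Q''' d₀ ≠ 0) :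
    Rfl Q'' (K.vec 0 0 d₀) (K.vec a b e) = K.vec a b (Rfl Q''' d₀ e) := by
  simp only [Rfl]
  rw [Qd0 K, M_pol K, M_smul K, M_sub K]
  refine K.vec_congr ?_ ?_ ?_
  · ring
  · ring
  · simp [Rfl]

include hd

lemma w0_k1 (c : κ'' → F) :
    L.wS (M.vec 0 0 (K.vec 0 0 d₀)) * L.lf (M.lf (K.x c)) =
      L.lf (M.lf (K.x (Rfl Q''' d₀ c))) * L.wS (M.vec 0 0 (K.vec 0 0 d₀)) := by
  have nd := K.nd'
  have hd' : Q'' (K.vec 0 0 d₀) ≠ 0 := by
    rw [Qd0 K]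
    exact hd
  apply eq_of_vec3 L M K
  intro α β α' β' a b e
  simp only [act_mul, w0_vec L M hd', k1_vec, Rfl_K K _ _ _ hd]
  rw [pol_Rfl nd hd, Q_Rfl nd hd, Rfl_sub nd hd, Rfl_smul nd hd]

lemma w0_k2 (c : κ'' → F) :
    L.wS (M.vec 0 0 (K.vec 0 0 d₀)) * L.lf (M.lf (K.y c)) =
      L.lf (M.lf (K.y (Rfl Q''' d₀ c))) * L.wS (M.vec 0 0 (K.vec 0 0 d₀)) := by
  have nd := K.nd'
  have hd' : Q'' (K.vec 0 0 d₀) ≠ 0 := by
    rw [Qd0 K]
    exact hd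
  apply eq_of_vec3 L M K
  intro α β α' β' a b e
  simp only [act_mul, w0_vec L M hd', k2_vec, Rfl_K K _ _ _ hd]
  rw [pol_Rfl nd hd, Q_Rfl nd hd, Rfl_sub nd hd, Rfl_smul nd hd]

end Low

end Cfsg.Agent.Lib.OddDeg
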