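import Cfsg.Agent.Lib.OddDeg.Move
import Cfsg.Agent.Lib.OddDeg.SingConn
import Cfsg.Agent.Lib.OddDeg.Supp
import Cfsg.Agent.Lib.SLDeg.Res
import Cfsg.Agent.Lib.MinDeg.Count

/-!
The fixed space of the radical splits under the second radical: every non-zero singular vector
is a weight as soon as one non-trivial weight occurs.
-/

set_option autoImplicit false
set_option linter.unusedSectionVars false
set_option linter.unusedVariables false
set_option linter.unusedSimpArgs false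
set_option linter.ambiguousOpen false

namespace Cfsg.Agent.Lib.OddDeg

open Matrix Module Cfsg Cfsg.Geo
open Cfsg.Agent.Lib.Geo.Basic Cfsg.Agent.Lib.Geo.QForm Cfsg.Agent.Lib.QuadFn
open Cfsg.Agent.Lib.GeoOmega.Basic Cfsg.Agent.Lib.GeoOmega.Eichler
open Cfsg.Agent.Lib.MinDeg Cfsg.Agent.Lib.MinDeg.Hyp Cfsg.Agent.Lib.Classical.MatrixBridge
open Cfsg.Agent.Lib.WtSpace.Basic Cfsg.Agent.Lib.MinDeg.Wt Cfsg.Agent.Lib.MinDeg.Count
open Cfsg.Agent.Lib.SLDeg.Res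
open scoped _root_.Classical MatrixGroups

variable {ι κ κ' κ'' : Type} [Fintype ι] [DecidableEq ι] [Fintype κ] [DecidableEq κ] [Fintype κ'] [DecidableEq κ']
  [Fintype κ''] [DecidableEq κ''] {F : Type*} [Field F] [Fintype F]
  {Q : (ι → F) → F} {Q' : (κ → F) → F} {Q'' : (κ' → F) → F} {Q''' : (κ'' → F) → F}

variable (L : HL Q Q') (M : HL Q' Q'') (K : HL Q'' Q''')
  {V : Type*} [AddCommGroup V] [Module ℂ V] [FiniteDimensional ℂ V]
  (ρ : Representation ℂ (Omega F Q) V)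

/-- The vectors fixed by the two radicals. -/
def Uzsp : Submodule ℂ V where
  carrier := {u | (∀ b, ρ (L.x b) u = u) ∧ ∀ b, ρ (L.lf (M.x b)) u = u}
  add_mem' {a b} ha hb := ⟨fun c => by rw [map_add, ha.1, hb.1], fun c => by rw [map_add, ha.2, hb.2]⟩
  zero_mem' := ⟨fun c => map_zero _, fun c => map_zero _⟩
  smul_mem' c {x} hx := ⟨fun b => by rw [map_smul, hx.1], fun b => by rw [map_smul, hx.2]⟩

theorem mem_Uzsp {u : V} : u ∈ Uzsp L M ρ ↔ (∀ b, ρ (L.x b) u = u) ∧ ∀ b, ρ (L.lf (M.x b)) u = u :=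
  Iff.rfl

namespace Split

/-- The vectors with a given weight under the second radical, in the fixed space of the first. -/
def PP (ψ : AddChar F ℂ) (s : κ' → F) : Prop :=
  ∃ w : V, w ≠ 0 ∧ (∀ b, ρ (L.x b) w = w) ∧ ∀ b, ρ (L.lf (M.x b)) w = ψ (pol Q'' s b) • w

lemma rmul {G : Type*} [Group G] (R : Representation ℂ G V) (g h : G) (v : V) :
    R (g * h) v = R g (R h v) := by
  rw [map_mul]
  rfl

lemma rinj {G : Type*} [Group G] (R : Representation ℂ G V) (g : G) {v : V} (h : R g v = 0) : v = 0 := by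
  have h1 : R g⁻¹ (R g v) = v := by
    rw [← rmul, inv_mul_cancel, map_one]
    rfl
  rw [← h1, h, map_zero]

/-- `L.lf g` preserves the fixed space of `L.x`. -/
lemma lf_fix (g : Omega F Q') {w : V} (hw : ∀ b, ρ (L.x b) w = w) (b : κ → F) :
    ρ (L.x b) (ρ (L.lf g) w) = ρ (L.lf g) w := by
  have h1 : L.lf g * L.x (act g⁻¹ b) * (L.lf g)⁻¹ = L.x b := by
    rw [L.lf_x, act_act_inv]
  have h3 : L.x b * L.lf g = L.lf g * L.x (act g⁻¹ b) := by
    rw [← h1]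
    group
  rw [← rmul, h3, rmul, hw]

variable {ψ : AddChar F ℂ}

/-- The weights are moved by the smaller orthogonal group. -/
lemma PP_act (g : Omega F Q'') {s : κ' → F} (h : PP L M ρ ψ s) : PP L M ρ ψ (act g s) := by
  obtain ⟨w, hw0, hw1, hw2⟩ := h
  refine ⟨ρ (L.lf (M.lf g)) w, fun h0 => hw0 (rinj ρ _ h0), lf_fix L ρ _ hw1, ?_⟩
  intro b
  have h1 : M.lf g * M.x (act g⁻¹ b) * (M.lf g)⁻¹ = M.x b := by
    rw [M.lf_x, act_act_inv]
  have h2 : L.lf (M.x b) * L.lf (M.lf g) = L.lf (M.lf g) * L.lf (M.x (act g⁻¹ b)) := by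
    rw [← h1, ← map_mul, ← map_mul]
    congr 1
    group
  rw [← rmul, h2, rmul, hw2, map_smul]
  congr 2
  have h3 := pol_isometry g.1.1 g.1.2 s (act g⁻¹ b)
  change pol Q'' (act g s) (act g (act g⁻¹ b)) = _ at h3
  rw [act_act_inv] at h3
  exact h3.symm

/-- The torus moves the weights on a line. -/
lemma PP_torus (t : Fˣ) {s : κ' → F} (h : PP L M ρ ψ s) :
    PP L M ρ ψ (((t⁻¹ : Fˣ) : F) • s) := by
  have nd2 := M.nd'
  obtain ⟨w, hw0, hw1, hw2⟩ := h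
  have ht : (t : F) ≠ 0 := t.ne_zero
  refine ⟨ρ (dG L M.swap t) w, fun h0 => hw0 (rinj ρ _ h0), ?_, ?_⟩
  · intro b
    have e : M.vec ((t : F) ^ 2 * (((t : F) ^ 2)⁻¹ * b M.he.p0)) (b M.he.p1)
        ((t : F) • (((t⁻¹ : Fˣ) : F) • M.he.dn b)) = b := by
      rw [← mul_assoc, mul_inv_cancel₀ (pow_ne_zero 2 ht), one_mul, smul_smul]
      have e2 : (t : F) * ((t⁻¹ : Fˣ) : F) = 1 := by simp
      rw [e2, one_smul]
      exact M.he.vec_coord b
    have h1 := AA_x L M t (((t : F) ^ 2)⁻¹ * b M.he.p0) (b M.he.p1) (((t⁻¹ : Fˣ) : F) • M.he.dn b)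
    rw [e] at h1
    rw [← rmul, ← h1, rmul, hw1]
  · intro b
    have e : (t : F) • (((t⁻¹ : Fˣ) : F) • b) = b := by
      rw [smul_smul]
      have e2 : (t : F) * ((t⁻¹ : Fˣ) : F) = 1 := by simp
      rw [e2, one_smul]
    have h1 := AA_zz L M t (((t⁻¹ : Fˣ) : F) • b)
    rw [e] at h1
    rw [← rmul, ← h1, rmul, hw2, map_smul, pol_smul_left nd2, pol_smul_right nd2]

/-- The projections for the second radical preserve the fixed space of the first. -/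
lemma EZ_fix (ψ : AddChar F ℂ) (c : κ' → F) {v : V} (hv : ∀ b, ρ (L.x b) v = v) (b : κ → F) :
    ρ (L.x b) (EE (Q' := Q'') ρ (fun a => L.lf (M.x a)) ψ c v) =
      EE (Q' := Q'') ρ (fun a => L.lf (M.x a)) ψ c v := by
  simp only [EE, ee, LinearMap.smul_apply, LinearMap.sum_apply, tau, map_smul, map_sum]
  congr 1
  refine Finset.sum_congr rfl fun a _ => ?_
  congr 1
  exact lf_fix L ρ _ hv b

end Split

open Split

/-- The fixed space of `L.x` contains `Uzsp` and a weight vector for each singular vector. -/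
theorem U_split_core {ψ : AddChar F ℂ} (hψ : ψ 1 ≠ 1)
    (hsupp : ∀ {w : V}, (∀ b, ρ (L.x b) w = w) → ∀ {s : κ' → F}, s ≠ 0 →
      (∀ b, ρ (L.lf (M.x b)) w = ψ (pol Q'' s b) • w) → w ≠ 0 → Q'' s = 0)
    (hd : ∃ d : κ'' → F, Q''' d ≠ 0)
    (hnz : ¬ ∀ v ∈ Vc (Q' := Q') ρ L.x ψ 0, ρ (L.lf (M.x K.he.P0)) v = v) :
    (Lv Q'' 0).card + finrank ℂ (Uzsp L M ρ) ≤ finrank ℂ (Vc (Q' := Q') ρ L.x ψ 0) := by
  have nd1 := L.nd'
  have nd2 := M.nd'
  have hx : ∀ b b', L.x (b + b') = L.x b * L.x b' := L.x_add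
  have hzf : ∀ b b', (fun a => L.lf (M.x a)) (b + b') =
      (fun a => L.lf (M.x a)) b * (fun a => L.lf (M.x a)) b' := by
    intro b b'
    simp only [M.x_add, map_mul]
  have hUmem : ∀ v, v ∈ Vc (Q' := Q') ρ L.x ψ 0 ↔ ∀ b, ρ (L.x b) v = v := by
    intro v
    rw [mem_Vc nd1 hψ hx]
    simp [pol_zero_left nd1]
  -- one non-trivial weight
  obtain ⟨v, hvU, hvn⟩ : ∃ v ∈ Vc (Q' := Q') ρ L.x ψ 0, ρ (L.lf (M.x K.he.P0)) v ≠ v := by
    by_contra hc
    push Not at hc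
    exact hnz hc
  have hvU' := (hUmem v).mp hvU
  obtain ⟨s₁, hs₁, hE⟩ : ∃ s₁, s₁ ≠ 0 ∧ EE (Q' := Q'') ρ (fun a => L.lf (M.x a)) ψ s₁ v ≠ 0 := by
    by_contra hc
    push Not at hc
    exact hvn (fix_of_EE hzf nd2 hψ hc _)
  have hP₁ : PP L M ρ ψ s₁ :=
    ⟨_, hE, EZ_fix L M ρ ψ s₁ hvU', fun b => x_EE (ρ := ρ) (x := fun a => L.lf (M.x a)) hzf nd2 hψ b s₁ v⟩
  have hQ₁ : Q'' s₁ = 0 := by
    obtain ⟨w, hw0, hw1, hw2⟩ := hP₁
    exact hsupp hw1 hs₁ hw2 hw0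
  -- all singular vectors are weights
  have hall : ∀ s, s ≠ 0 → Q'' s = 0 → PP L M ρ ψ s := by
    intro s hs hQs
    refine sing_conn K hd (PP L M ρ ψ) (fun b s h => PP_act L M ρ _ h) (fun b s h => PP_act L M ρ _ h)
      ?_ hs₁ hs hQ₁ hQs hP₁
    intro α β hα hβ hP
    have h1 := PP_torus L M ρ (Units.mk0 (α / β) (div_ne_zero hα hβ)) hP
    have e : (((Units.mk0 (α / β) (div_ne_zero hα hβ))⁻¹ : Fˣ) : F) • K.vec α 0 0 = K.vec β 0 0 := by
      rw [K.he.vec_smul]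
      simp only [Units.val_inv_eq_inv_val, Units.val_mk0, mul_zero, smul_zero]
      congr 1
      field_simp
    rwa [e] at h1
  -- the representation on the fixed space
  have hUinv : ∀ g : Omega F Q', ∀ v ∈ Vc (Q' := Q') ρ L.x ψ 0,
      (ρ.comp L.lf) g v ∈ Vc (Q' := Q') ρ L.x ψ 0 := by
    intro g v hv
    rw [hUmem] at hv ⊢
    exact lf_fix L ρ g hv
  let R0 : Representation ℂ (Omega F Q') (Vc (Q' := Q') ρ L.x ψ 0) :=
    subRep (ρ.comp L.lf) _ hUinv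
  have hR0 : ∀ g (v : Vc (Q' := Q') ρ L.x ψ 0), ((R0 g v : Vc (Q' := Q') ρ L.x ψ 0) : V) = ρ (L.lf g) v :=
    fun _ _ => rfl
  have hR0mem : ∀ (s : κ' → F) (u : Vc (Q' := Q') ρ L.x ψ 0),
      u ∈ Vc (Q' := Q'') R0 M.x ψ s ↔ ∀ b, ρ (L.lf (M.x b)) u = ψ (pol Q'' s b) • (u : V) := by
    intro s u
    rw [mem_Vc nd2 hψ M.x_add]
    constructor
    · intro h b
      have := congrArg Subtype.val (h b)
      simpa only [hR0, Submodule.coe_smul] using this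
    · intro h b
      apply Subtype.ext
      simpa only [hR0, Submodule.coe_smul] using h b
  have hsum := finrank_eq_sum_Vc (ρ := R0) (x := M.x) (ψ := ψ) nd2 hψ M.x_add
  -- the term of the zero weight
  have hzero : finrank ℂ (Vc (Q' := Q'') R0 M.x ψ 0) = finrank ℂ (Uzsp L M ρ) := by
    have e : (Vc (Q' := Q'') R0 M.x ψ 0).map (Vc (Q' := Q') ρ L.x ψ 0).subtype = Uzsp L M ρ := by
      ext u
      constructor
      · rintro ⟨a, ha, rfl⟩
        have ha' := (hR0mem 0 a).mp ha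
        refine ⟨(hUmem _).mp a.2, fun b => ?_⟩
        have := ha' b
        simpa [pol_zero_left nd2] using this
      · intro hu
        refine ⟨⟨u, (hUmem _).mpr hu.1⟩, ?_, rfl⟩
        rw [SetLike.mem_coe, hR0mem]
        intro b
        have := hu.2 b
        simpa [pol_zero_left nd2] using this
    rw [← e, Submodule.finrank_map_subtype_eq]
  have hone : ∀ s ∈ Lv Q'' 0, 1 ≤ finrank ℂ (Vc (Q' := Q'') R0 M.x ψ s) := by
    intro s hs
    rw [mem_Lv] at hs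
    obtain ⟨w, hw0, hw1, hw2⟩ := hall s hs.1 hs.2
    rw [Submodule.one_le_finrank_iff]
    intro h0
    have hmem : (⟨w, (hUmem w).mpr hw1⟩ : Vc (Q' := Q') ρ L.x ψ 0) ∈ Vc (Q' := Q'') R0 M.x ψ s :=
      (hR0mem s _).mpr hw2
    rw [h0, Submodule.mem_bot] at hmem
    exact hw0 (congrArg Subtype.val hmem)
  have h0notin : (0 : κ' → F) ∉ Lv Q'' 0 := by
    rw [mem_Lv]
    simp
  calc (Lv Q'' 0).card + finrank ℂ (Uzsp L M ρ)
      ≤ ∑ c ∈ Lv Q'' 0, finrank ℂ (Vc (Q' := Q'') R0 M.x ψ c) + finrank ℂ (Vc (Q' := Q'') R0 M.x ψ 0) := by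
        rw [hzero]
        apply Nat.add_le_add_right
        calc (Lv Q'' 0).card = ∑ c ∈ Lv Q'' 0, 1 := by simp
          _ ≤ _ := Finset.sum_le_sum hone
    _ = ∑ c ∈ insert 0 (Lv Q'' 0), finrank ℂ (Vc (Q' := Q'') R0 M.x ψ c) := by
        rw [Finset.sum_insert h0notin, add_comm]
    _ ≤ ∑ c, finrank ℂ (Vc (Q' := Q'') R0 M.x ψ c) :=
        Finset.sum_le_sum_of_subset (Finset.subset_univ _)
    _ = finrank ℂ (Vc (Q' := Q') ρ L.x ψ 0) := hsum.symm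

/-- M18. -/
theorem U_split {ψ : AddChar F ℂ} (hψ : ψ 1 ≠ 1)
    (hw : ∀ c, c ≠ 0 → finrank ℂ (Vc (Q' := Q') ρ L.x ψ c) = if Q' c = 0 then 1 else 0)
    (hd : ∃ d : κ'' → F, Q''' d ≠ 0)
    (hnz : ¬ ∀ v ∈ Vc (Q' := Q') ρ L.x ψ 0, ρ (L.lf (M.x K.he.P0)) v = v) :
    (Lv Q'' 0).card + finrank ℂ (Uzsp L M ρ) ≤ finrank ℂ (Vc (Q' := Q') ρ L.x ψ 0) :=
  U_split_core L M K ρ hψ (fun hU _ hs hz hne => supp_singular L M ρ hψ hw hU hs hz hne) hd hnz

end Cfsg.Agent.Lib.OddDeg
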