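import Cfsg.Agent.Lib.OddDeg.Rel
import Cfsg.Agent.Lib.MinDeg.Step

/-!
The step `MinDeg.Step` for bundled hyperbolic extensions: no hypothesis `hperp''` is needed, since the Eichler
transformations lie in `Ω` as soon as the field has at least three elements.
-/

set_option autoImplicit false
set_option linter.unusedSectionVars false
set_option linter.unusedVariables false
set_option linter.unusedSimpArgs false
set_option linter.ambiguousOpen false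

namespace Cfsg.Agent.Lib.OddDeg

open Matrix Module Cfsg Cfsg.Geo
open Cfsg.Agent.Lib.Geo.Basic Cfsg.Agent.Lib.Geo.QForm Cfsg.Agent.Lib.QuadFn
open Cfsg.Agent.Lib.GeoOmega.Basic Cfsg.Agent.Lib.GeoOmega.Eichler
open Cfsg.Agent.Lib.MinDeg Cfsg.Agent.Lib.MinDeg.Hyp Cfsg.Agent.Lib.MinDeg.Wt Cfsg.Agent.Lib.MinDeg.Count
open Cfsg.Agent.Lib.MinDeg.Trans Cfsg.Agent.Lib.MinDeg.Key Cfsg.Agent.Lib.MinDeg.Gen
open scoped _root_.Classical MatrixGroups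

variable {ι κ κ' κ'' : Type} [Fintype ι] [DecidableEq ι] [Fintype κ] [DecidableEq κ] [Fintype κ'] [DecidableEq κ']
  [Fintype κ''] [DecidableEq κ''] {F : Type*} [Field F] [Fintype F]
  {Q : (ι → F) → F} {Q' : (κ → F) → F} {Q'' : (κ' → F) → F} {Q''' : (κ'' → F) → F}
  (L : HL Q Q') (M : HL Q' Q'') (K : HL Q'' Q''')
  {V : Type*} [AddCommGroup V] [Module ℂ V] [FiniteDimensional ℂ V]
  (ρ : Representation ℂ (Omega F Q) V) {ψ : AddChar F ℂ} (hψ : ψ 1 ≠ 1)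

include hψ

/-- The long root element in the smaller group is a commutator of elements fixing a weight, so it acts trivially
on a line of this weight. -/
theorem line_fix' {c : κ → F} (hc1 : finrank ℂ (Vc (Q' := Q') ρ L.x ψ c) = 1)
    (hfix : (M.x K.he.P0).1.1.1 *ᵥ c = c)
    (hP5 : ∀ c₂ : κ'' → F, Q''' c₂ = Q' c → ∃ u₁ u₂ : κ'' → F, pol Q''' c₂ u₁ = 0 ∧ pol Q''' c₂ u₂ = 0 ∧ pol Q''' u₁ u₂ = 1)
    {v : V} (hv : v ∈ Vc (Q' := Q') ρ L.x ψ c) :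
    ρ (L.lf (M.x K.he.P0)) v = v := by
  -- coordinates of the weight
  obtain ⟨α, β, c₁, rfl⟩ : ∃ α β c₁, c = M.vec α β c₁ := ⟨_, _, _, (M.he.vec_coord c).symm⟩
  have hfix' : act (M.x K.he.P0) (M.vec α β c₁) = M.vec α β c₁ := hfix
  rw [M.x_vec] at hfix'
  have h1 := congrFun hfix' M.he.p0
  have h2 := congrArg M.he.dn hfix'
  simp only [HE.vec_p0, HE.dn_vec] at h1 h2
  have hβ : β = 0 := by
    have h3 := congrFun h2 K.he.p0
    simpa [HE.P0] using h3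
  subst hβ
  have h4 : c₁ K.he.p1 = 0 := by
    have h5 : pol Q'' c₁ K.he.P0 = 0 := by
      simpa using h1
    rwa [K.he.pol_left_P0 K.nd'] at h5
  obtain ⟨α₁, c₂, rfl⟩ : ∃ α₁ c₂, c₁ = K.vec α₁ 0 c₂ :=
    ⟨c₁ K.he.p0, K.he.dn c₁, by rw [← h4]; exact (K.he.vec_coord c₁).symm⟩
  have hQc : Q''' c₂ = Q' (M.vec α 0 (K.vec α₁ 0 c₂)) := by
    rw [show Q' (M.vec α 0 (K.vec α₁ 0 c₂)) = _ from M.he.Q_vec _ _ _, show Q'' (K.vec α₁ 0 c₂) = _ from K.he.Q_vec _ _ _]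
    ring
  obtain ⟨u₁, u₂, hu₁, hu₂, hu₁₂⟩ := hP5 c₂ hQc
  -- the two elements
  set a := M.x (K.vec 0 0 u₁) with ha
  set b := M.lf (K.x u₂) with hb
  have hcomm : M.x K.he.P0 = b * a * b⁻¹ * a⁻¹ := by
    have h5 : b * a * b⁻¹ = M.x (K.he.P0 + K.vec 0 0 u₁) := by
      rw [ha, hb, M.lf_x]
      congr 1
      rw [K.x_vec]
      have e : K.he.P0 + K.vec 0 0 u₁ = K.vec 1 0 u₁ := by
        rw [HE.P0]
        show K.he.vec 1 0 0 + K.he.vec 0 0 u₁ = _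
        rw [K.he.vec_add]
        simp
      rw [e]
      simp [hu₁₂]
    have h6 : M.x (K.he.P0 + K.vec 0 0 u₁) = M.x K.he.P0 * a := M.x_add _ _
    rw [h5, h6]
    group
  have e : L.lf (b * a * b⁻¹ * a⁻¹) = L.lf b * L.lf a * (L.lf b)⁻¹ * (L.lf a)⁻¹ := by
    simp only [map_mul, map_inv]
  rw [hcomm, e]
  have hh := line_comm (ρ := ρ) (x := L.x) (fun b b' => L.x_add b b') L.nd' hψ hc1
    (γ₁ := L.lf b) (γ₂ := L.lf a) b.1.2 a.1.2 (fun b₀ => L.lf_x b b₀) (fun b₀ => L.lf_x a b₀)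
    ?_ ?_ hv
  · exact hh
  · show act b _ = _
    rw [hb, M.lf_vec, K.x_vec]
    simp [hu₂]
  · show act a _ = _
    rw [ha, M.x_vec, show pol Q'' (K.vec α₁ 0 c₂) (K.vec 0 0 u₁) = _ from K.he.pol_vec _ _ _ _ _ _]
    simp [hu₁]

variable {a₀ : F} (hw : ∀ c, c ≠ 0 → finrank ℂ (Vc (Q' := Q') ρ L.x ψ c) = if Q' c = a₀ then 1 else 0)

include hw

/-- The trace of the root element. -/
theorem trace_root' : LinearMap.trace ℂ V (ρ (L.x M.he.P0)) =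
    (finrank ℂ V : ℂ) - ((Fintype.card F ^ (Fintype.card κ' + 1) : ℕ) : ℂ) := by
  have hx := L.x_add
  rw [trace_single hx L.nd' hψ hw, finrank_single hx L.nd' hψ hw]
  have h1 : ∑ c ∈ Lv Q' a₀, ψ (pol Q' c M.he.P0) = ∑ c ∈ Lv Q' a₀, ψ (c M.he.p1) :=
    Finset.sum_congr rfl fun c _ => by rw [M.he.pol_left_P0 M.nd']
  rw [h1, sum_Lv M.he L.nd' hψ a₀]
  push_cast
  ring

/-- If the long root element of the smaller group acts trivially on the fixed space, there is a numerical relation. -/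
theorem count_of_triv' (hperp : ∀ b : κ → F, ∃ c, pol Q' c b = 0 ∧ Q' c ≠ 0)
    (hperp' : ∀ b : κ' → F, ∃ c, pol Q'' c b = 0 ∧ Q'' c ≠ 0)
    (hP5 : ∀ c₂ : κ'' → F, Q''' c₂ = a₀ → ∃ u₁ u₂ : κ'' → F, pol Q''' c₂ u₁ = 0 ∧ pol Q''' c₂ u₂ = 0 ∧ pol Q''' u₁ u₂ = 1)
    (htriv : ∀ v ∈ Vc (Q' := Q') ρ L.x ψ 0, ρ (L.lf (M.x K.he.P0)) v = v) :
    (Lv Q' a₀).card = Fintype.card F ^ (Fintype.card κ' + 1) +
      ((Lv Q' a₀).filter (fun c => (M.x K.he.P0).1.1.1 *ᵥ c = c)).card := by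
  have hx := L.x_add
  set γ := L.lf (M.x K.he.P0) with hγ
  have h1 := trace_root' L M ρ hψ hw
  have hconj : IsConj (L.x M.he.P0) γ :=
    isConj_root L.he M.he K.he L.nd L.nd' M.nd' hperp hperp'
  have h2 : LinearMap.trace ℂ V (ρ γ) = LinearMap.trace ℂ V (ρ (L.x M.he.P0)) := by
    obtain ⟨c, hc⟩ := isConj_iff.1 hconj
    rw [← hc]
    have h3 : ρ (c * L.x M.he.P0 * c⁻¹) = ρ c * (ρ (L.x M.he.P0) * ρ c⁻¹) := by
      rw [map_mul, map_mul, mul_assoc]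
    rw [h3, LinearMap.trace_mul_comm, mul_assoc, ← map_mul, inv_mul_cancel, map_one, mul_one]
  have h3 := trace_move hx L.nd' hψ hw (γ := γ) (M.x K.he.P0).1.2
    (fun b => L.lf_x _ b) (fun c hc hfix v hv => by
      refine line_fix' L M K ρ hψ ?_ hfix ?_ hv
      · rw [hw c (mem_Lv.1 hc).1, if_pos (mem_Lv.1 hc).2]
      · rw [(mem_Lv.1 hc).2]
        exact hP5)
  rw [trace_fix L.nd' hψ hx htriv] at h3
  rw [h2, h1, finrank_single hx L.nd' hψ hw] at h3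
  have h4 : ((Lv Q' a₀).card : ℂ) = ((Fintype.card F ^ (Fintype.card κ' + 1) : ℕ) : ℂ) +
      (((Lv Q' a₀).filter (fun c => (M.x K.he.P0).1.1.1 *ᵥ c = c)).card : ℂ) := by
    push_cast at h3 ⊢
    linear_combination h3
  exact_mod_cast h4

omit hw hψ

/-- The long root element of the smaller group does not act trivially on the fixed space of the radical. -/
theorem nontriv_aux (hperp : ∀ b : κ → F, ∃ c, pol Q' c b = 0 ∧ Q' c ≠ 0)
    (hperp' : ∀ b : κ' → F, ∃ c, pol Q'' c b = 0 ∧ Q'' c ≠ 0) (hψ : ψ 1 ≠ 1)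
    (hw : ∀ c, c ≠ 0 → finrank ℂ (Vc (Q' := Q') ρ L.x ψ c) = if Q' c = 0 then 1 else 0)
    (hP5 : ∀ c₂ : κ'' → F, Q''' c₂ = 0 → ∃ u₁ u₂ : κ'' → F, pol Q''' c₂ u₁ = 0 ∧ pol Q''' c₂ u₂ = 0 ∧ pol Q''' u₁ u₂ = 1)
    (hcard : (Lv Q' 0).card < Fintype.card F ^ (Fintype.card κ' + 1)) :
    ¬ ∀ v ∈ Vc (Q' := Q') ρ L.x ψ 0, ρ (L.lf (M.x K.he.P0)) v = v := by
  intro htriv
  have h1 := count_of_triv' L M K ρ hψ hw hperp hperp' hP5 htriv
  omega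

end Cfsg.Agent.Lib.OddDeg

namespace Cfsg.Agent.Lib.OddDeg

open Matrix Module Cfsg Cfsg.Geo
open Cfsg.Agent.Lib.Geo.Basic Cfsg.Agent.Lib.Geo.QForm Cfsg.Agent.Lib.QuadFn
open Cfsg.Agent.Lib.GeoOmega.Basic Cfsg.Agent.Lib.GeoOmega.Eichler
open Cfsg.Agent.Lib.MinDeg Cfsg.Agent.Lib.MinDeg.Hyp Cfsg.Agent.Lib.MinDeg.Wt Cfsg.Agent.Lib.MinDeg.Count
open Cfsg.Agent.Lib.MinDeg.Trans Cfsg.Agent.Lib.MinDeg.Key Cfsg.Agent.Lib.MinDeg.Gen
open scoped _root_.Classical MatrixGroups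

/-- The long root element of the smaller group does not act trivially on the fixed space of the radical. -/
theorem nontriv' {ι κ κ' κ'' : Type} [Fintype ι] [DecidableEq ι] [Fintype κ] [DecidableEq κ] [Fintype κ'] [DecidableEq κ']
    [Fintype κ''] [DecidableEq κ''] {F : Type*} [Field F] [Fintype F]
    {Q : (ι → F) → F} {Q' : (κ → F) → F} {Q'' : (κ' → F) → F} {Q''' : (κ'' → F) → F}
    (L : HL Q Q') (M : HL Q' Q'') (K : HL Q'' Q''')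
    (hperp : ∀ b : κ → F, ∃ c, pol Q' c b = 0 ∧ Q' c ≠ 0)
    (hperp' : ∀ b : κ' → F, ∃ c, pol Q'' c b = 0 ∧ Q'' c ≠ 0)
    {V : Type*} [AddCommGroup V] [Module ℂ V] [FiniteDimensional ℂ V]
    (ρ : Representation ℂ (Omega F Q) V) {ψ : AddChar F ℂ} (hψ : ψ 1 ≠ 1)
    (hw : ∀ c, c ≠ 0 → finrank ℂ (Vc (Q' := Q') ρ L.x ψ c) = if Q' c = 0 then 1 else 0)
    (hP5 : ∀ c₂ : κ'' → F, Q''' c₂ = 0 → ∃ u₁ u₂ : κ'' → F, pol Q''' c₂ u₁ = 0 ∧ pol Q''' c₂ u₂ = 0 ∧ pol Q''' u₁ u₂ = 1)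
    (hcard : (Lv Q' 0).card < Fintype.card F ^ (Fintype.card κ' + 1)) :
    ¬ ∀ v ∈ Vc (Q' := Q') ρ L.x ψ 0, ρ (L.lf (M.x K.he.P0)) v = v :=
  nontriv_aux L M K ρ hperp hperp' hψ hw hP5 hcard

end Cfsg.Agent.Lib.OddDeg
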