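import Cfsg.Agent.Lib.OddDeg.WX
import Cfsg.Agent.Lib.OddDeg.Gen2
import Cfsg.Agent.Lib.OddDeg.XApply
import Cfsg.Agent.Lib.OddDeg.Split

/-!
At least three independent vectors are fixed by the radicals `x` and `z`.
-/

set_option autoImplicit false
set_option linter.unusedSectionVars false
set_option linter.unusedVariables false
set_option linter.unusedSimpArgs false
set_option linter.ambiguousOpen false

namespace Cfsg.Agent.Lib.OddDeg

open Matrix Module Cfsg Cfsg.Geo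
open Cfsg.Agent.Lib.Geo.Basic Cfsg.Agent.Lib.Geo.QForm Cfsg.Agent.Lib.QuadFn
open Cfsg.Agent.Lib.GeoOmega.Basic Cfsg.Agent.Lib.GeoOmega.Eichler
open Cfsg.Agent.Lib.MinDeg Cfsg.Agent.Lib.MinDeg.Hyp Cfsg.Agent.Lib.Classical.MatrixBridge
open Cfsg.Agent.Lib.WtSpace.Basic Cfsg.Agent.Lib.MinDeg.Wt Cfsg.Agent.Lib.MinDeg.Count Cfsg.Agent.Lib.MinDeg.Key
open scoped _root_.Classical MatrixGroups

variable {ι κ κ' κ'' : Type} [Fintype ι] [DecidableEq ι] [Fintype κ] [DecidableEq κ] [Fintype κ'] [DecidableEq κ']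
  [Fintype κ''] [DecidableEq κ''] {F : Type*} [Field F] [Fintype F]
  {Q : (ι → F) → F} {Q' : (κ → F) → F} {Q'' : (κ' → F) → F} {Q''' : (κ'' → F) → F}

variable (L : HL Q Q') (M : HL Q' Q'') (K : HL Q'' Q''')
  {V : Type*} [AddCommGroup V] [Module ℂ V] [FiniteDimensional ℂ V] (ρ : Representation ℂ (Omega F Q) V)
  {ψ : AddChar F ℂ} (hψ : ψ 1 ≠ 1)
  (hw : ∀ c, c ≠ 0 → finrank ℂ (Vc (Q' := Q') ρ L.x ψ c) = if Q' c = 0 then 1 else 0)


omit [FiniteDimensional ℂ V] in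
/-- Three non-zero pairwise orthogonal vectors in a subspace. -/
lemma three_of_orth [FiniteDimensional ℂ V] {ρ : Representation ℂ (Omega F Q) V} (I : IH ρ) (S : Submodule ℂ V) {a b c : V} (ha : a ∈ S) (hb : b ∈ S) (hc : c ∈ S)
    (ha0 : a ≠ 0) (hb0 : b ≠ 0) (hc0 : c ≠ 0) (hba : I.B b a = 0) (hca : I.B c a = 0) (hcb : I.B c b = 0) :
    3 ≤ finrank ℂ S := by
  have hab : I.B a b = 0 := by rw [I.symm b a, hba, star_zero]
  have hac : I.B a c = 0 := by rw [I.symm c a, hca, star_zero]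
  have hbc : I.B b c = 0 := by rw [I.symm c b, hcb, star_zero]
  have hli : LinearIndependent ℂ ![(⟨a, ha⟩ : S), ⟨b, hb⟩, ⟨c, hc⟩] := by
    apply LinearIndependent.of_comp S.subtype
    rw [Fintype.linearIndependent_iff]
    intro g hg
    have h0 : g 0 • a + g 1 • b + g 2 • c = 0 := by
      have := hg
      simpa [Fin.sum_univ_three] using this
    have e1 := congrArg (fun v => I.B v a) h0
    have e2 := congrArg (fun v => I.B v b) h0
    have e3 := congrArg (fun v => I.B v c) h0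
    simp only [I.add_left, I.smul_left, I.zero_left, hba, hca, hab, hac, hbc, hcb, mul_zero, add_zero, zero_add] at e1 e2 e3
    have g0 : g 0 = 0 := (mul_eq_zero.1 e1).resolve_right (I.self_ne_zero ha0)
    have g1 : g 1 = 0 := (mul_eq_zero.1 e2).resolve_right (I.self_ne_zero hb0)
    have g2 : g 2 = 0 := (mul_eq_zero.1 e3).resolve_right (I.self_ne_zero hc0)
    intro i
    fin_cases i
    · exact g0
    · exact g1
    · exact g2
  have := hli.fintype_card_le_finrank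
  simpa using this

omit [FiniteDimensional ℂ V] in
lemma fix_inv {g : Omega F Q} {u : V} (h : ρ g u = u) : ρ g⁻¹ u = u := by
  conv_lhs => rw [← h]
  exact rho_inv_rho ρ g u

/-- The subgroup of `Ω(Q')` fixing a vector after lifting. -/
def lfStab (u : V) : Subgroup (Omega F Q') where
  carrier := {g | ρ (L.lf g) u = u}
  mul_mem' := by
    intro a b ha hb
    simp only [Set.mem_setOf_eq] at ha hb ⊢
    rw [map_mul, rho_mul, hb, ha]
  one_mem' := by
    simp only [Set.mem_setOf_eq]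
    rw [map_one, map_one]
    rfl
  inv_mem' := by
    intro a ha
    simp only [Set.mem_setOf_eq] at ha ⊢
    rw [map_inv]
    exact fix_inv ρ ha

omit [FiniteDimensional ℂ V] in
lemma mem_lfStab {u : V} {g : Omega F Q'} : g ∈ lfStab L ρ u ↔ ρ (L.lf g) u = u := Iff.rfl

omit [FiniteDimensional ℂ V] in
/-- A vector fixed by the two opposite root groups is fixed by the Weyl element and the torus. -/
lemma lf_fix_aux {K₁ : HL Q'' Q'''} {u : V} (hz : ∀ b, ρ (L.lf (M.x b)) u = u) (hzm : ∀ b, ρ (L.lf (M.y b)) u = u) :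
    nW M K₁ ∈ lfStab L ρ u ∧ ∀ t, dG M K₁ t ∈ lfStab L ρ u := by
  have hx : ∀ b, M.x b ∈ lfStab L ρ u := hz
  have hy : ∀ b, M.y b ∈ lfStab L ρ u := hzm
  have hn : nW M K₁ ∈ lfStab L ρ u := (lfStab L ρ u).mul_mem ((lfStab L ρ u).mul_mem (hx _) (hy _)) (hx _)
  refine ⟨hn, fun t => ?_⟩
  have h := nW_rel M K₁ t⁻¹
  simp only [inv_inv] at h
  set X := M.x (K₁.vec 0 ((t⁻¹ : Fˣ) : F) 0) with hX
  set X' := M.x (K₁.vec 0 (-((t : F))) 0) with hX'
  have e : dG M K₁ t = X'⁻¹ * ((nW M K₁)⁻¹ * X * nW M K₁) * X'⁻¹ * (nW M K₁)⁻¹ := by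
    rw [h]
    group
  rw [e]
  have hS := lfStab L ρ u
  exact (lfStab L ρ u).mul_mem ((lfStab L ρ u).mul_mem ((lfStab L ρ u).mul_mem ((lfStab L ρ u).inv_mem (hx _))
    ((lfStab L ρ u).mul_mem ((lfStab L ρ u).mul_mem ((lfStab L ρ u).inv_mem hn) (hx _)) hn)) ((lfStab L ρ u).inv_mem (hx _)))
    ((lfStab L ρ u).inv_mem hn)

/-- The relation between the tori. -/
lemma dG_rel (t : Fˣ) : L.lf (dG M K t) = dG L M t⁻¹ * E2 L M K t⁻¹ * dG L M.swap t := by
  have ht : (t : F) ≠ 0 := t.ne_zero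
  apply eq_of_vec3 L M K
  intro α β α' β' a b e
  simp only [act_mul, d2_vec, E2_vec, AA_vec, dG_vec, t_inv, inv_inv, Units.val_inv_eq_inv_val]
  refine L.vec_congr ?_ ?_ (M.vec_congr ?_ ?_ (K.vec_congr ?_ ?_ ?_))
  all_goals first
    | rfl
    | ring1
    | (field_simp; done)
    | (field_simp; ring1)

/-- The relation between the tori, the other way. -/
lemma dG_rel' (t : Fˣ) : dG L M t = dG L M.swap t * E2 L M K t⁻¹ * L.lf (dG M K t⁻¹) := by
  have ht : (t : F) ≠ 0 := t.ne_zero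
  apply eq_of_vec3 L M K
  intro α β α' β' a b e
  simp only [act_mul, d2_vec, E2_vec, AA_vec, dG_vec, t_inv, inv_inv, Units.val_inv_eq_inv_val]
  refine L.vec_congr ?_ ?_ (M.vec_congr ?_ ?_ (K.vec_congr ?_ ?_ ?_))
  all_goals first
    | rfl
    | ring1
    | (field_simp; done)
    | (field_simp; ring1)

omit [FiniteDimensional ℂ V] in
/-- In an irreducible nontrivial representation there are no nonzero fixed vectors. -/
lemma no_fixed_om (hirr : ρ.IsIrreducible) (hnt : ∃ g, ρ g ≠ 1) (u : V) (hu : ∀ g, ρ g u = u) : u = 0 := by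
  by_contra hu0
  obtain ⟨g, hg⟩ := hnt
  let L : Subrepresentation ρ := ⟨Submodule.span ℂ {u}, fun g v hv => by
    obtain ⟨c, rfl⟩ := Submodule.mem_span_singleton.1 hv
    rw [map_smul, hu]
    exact Submodule.smul_mem _ _ (Submodule.mem_span_singleton_self u)⟩
  rcases hirr.eq_bot_or_eq_top L with h | h
  · have h1 : L.toSubmodule = ⊥ := congrArg Subrepresentation.toSubmodule h
    have h2 : u ∈ L.toSubmodule := Submodule.mem_span_singleton_self u
    rw [h1, Submodule.mem_bot] at h2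
    exact hu0 h2
  · have h1 : L.toSubmodule = ⊤ := congrArg Subrepresentation.toSubmodule h
    apply hg
    apply LinearMap.ext
    intro v
    have h2 : v ∈ L.toSubmodule := by rw [h1]; trivial
    obtain ⟨c, rfl⟩ := Submodule.mem_span_singleton.1 h2
    rw [map_smul, hu]
    rfl

omit [FiniteDimensional ℂ V] in
/-- A vector fixed by `x` stays so under a lift. -/
lemma x_fix_lf {u : V} (hx : ∀ b, ρ (L.x b) u = u) (g : Omega F Q') (b : κ → F) : ρ (L.x b) (ρ (L.lf g) u) = ρ (L.lf g) u := by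
  have h : ∀ b : κ → F, L.x b * L.lf g = L.lf g * L.x (act g⁻¹ b) := by
    intro b
    have h1 := L.lf_x g (act g⁻¹ b)
    rw [act_act_inv, mul_inv_eq_iff_eq_mul] at h1
    exact h1.symm
  exact fix_of_rel ρ (X := L.x) h hx b

omit [FiniteDimensional ℂ V] in
/-- The vector `w'` is fixed by `z`. -/
lemma zf_wX {u : V} (hz : ∀ b, ρ (L.lf (M.x b)) u = u) (hk : ∀ c, ρ (L.lf (M.lf (K.x c))) u = u) (b : κ' → F) :
    ρ (L.lf (M.x b)) (wX M K (ρ.comp L.lf) u) = wX M K (ρ.comp L.lf) u := by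
  set R : Representation ℂ (Omega F Q') V := ρ.comp L.lf with hR
  have hRa : ∀ g v, R g v = ρ (L.lf g) v := fun g v => rfl
  obtain ⟨p, p', c, rfl⟩ := K_coord K b
  have e0 : K.vec p p' c = K.vec p 0 c + K.vec 0 p' 0 := by
    rw [M_add K]
    refine K.vec_congr (by ring) (by ring) (by simp)
  have e1 : M.x (K.vec p p' c) = M.x (K.vec p 0 c) * M.x (K.vec 0 p' 0) := by
    rw [e0, M.x_add]
  have h1 : R (M.x (K.vec p 0 c)) (R (nW M K) u) = R (nW M K) u := by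
    rw [← rho_mul, nW_x_mid M K p c, rho_mul, rho_mul, hRa (M.lf (K.x c)), hk, hRa (M.x (K.vec p 0 0)), hz]
  have h2 : ∀ r : F, R (M.x (K.vec p 0 c)) (R (M.x (K.vec 0 r 0)) (R (nW M K) u)) = R (M.x (K.vec 0 r 0)) (R (nW M K) u) := by
    intro r
    rw [← rho_mul, M.x_comm, rho_mul, h1]
  have h3 : R (M.x (K.vec 0 p' 0)) (wX M K R u) = wX M K R u := by
    simp only [wX, map_sum]
    have e2 : ∀ r : F, R (M.x (K.vec 0 p' 0)) (R (M.x (K.vec 0 r 0)) (R (nW M K) u)) = R (M.x (K.vec 0 (p' + r) 0)) (R (nW M K) u) := by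
      intro r
      rw [← rho_mul, ← M.x_add, M_add K]
      congr 3
      refine K.vec_congr (by ring) rfl (by simp)
    rw [Finset.sum_congr rfl (fun r _ => e2 r)]
    exact Equiv.sum_comp (Equiv.addLeft p') (fun r => R (M.x (K.vec 0 r 0)) (R (nW M K) u))
  have h4 : R (M.x (K.vec p 0 c)) (wX M K R u) = wX M K R u := by
    simp only [wX, map_sum]
    exact Finset.sum_congr rfl (fun r _ => h2 r)
  show R (M.x (K.vec p p' c)) (wX M K R u) = wX M K R u
  rw [e1, rho_mul, h3, h4]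

include hψ hw in
/-- Three independent fixed vectors, given a vector fixed by the opposite `z`. -/
theorem Uz_three_of (I : IH ρ) (hirr : ρ.IsIrreducible) (hn : 7 ≤ Fintype.card ι) (hU' : ∀ a, ∃ c, Q' c = a)
    (hnt : ∃ b, ρ (L.x b) ≠ 1) (h2 : ringChar F ≠ 2) (hG : GaussF Q''' ψ) (hG2 : GaussF Q'' ψ)
    (hdm : ∃ d : κ' → F, Q'' d ≠ 0) (hd3 : ∃ d : κ'' → F, Q''' d ≠ 0) {u : V} {χd χA θ : Fˣ → ℂ} (hu0 : u ≠ 0)
    (hC : InC L M K ρ u) (hT : TE L M K ρ u χd χA θ) (hzm : ∀ b, ρ (L.lf (M.y b)) u = u) :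
    3 ≤ finrank ℂ (Uzsp L M ρ) := by
  have hn1 := (lf_fix_aux L M ρ (K₁ := K) hC.hz hzm).1
  have hdF : ∀ t, ρ (L.lf (dG M K t)) u = u := (lf_fix_aux L M ρ (K₁ := K) hC.hz hzm).2
  have hEF : ∀ t, ρ (E2 L M K t) u = u := (lf_fix_aux L M ρ (K₁ := K.swap) hC.hz hzm).2
  have hθ1 : ∀ t, θ t = 1 := by
    intro t
    have h := hT.hE t
    rw [hEF t] at h
    have h3 : (θ t - 1) • u = 0 := by
      rw [sub_smul, one_smul, ← h, sub_self]
    have := (smul_eq_zero.1 h3).resolve_right hu0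
    exact sub_eq_zero.1 this
  have hχ : ∀ t, χd t = χA t := by
    intro t
    have h := hT.hd t
    rw [dG_rel' L M K t, rho_mul, rho_mul, hdF, hEF, hT.hA] at h
    have h3 : (χd t - χA t) • u = 0 := by
      rw [sub_smul, ← h, sub_self]
    have := (smul_eq_zero.1 h3).resolve_right hu0
    exact sub_eq_zero.1 this
  obtain ⟨b₀, hb₀⟩ := hnt
  have hext : ∃ t, χA t ≠ 1 := by
    by_contra hcon
    push Not at hcon
    have hy := (X_apply_top L M K ρ hψ hw I h2 hG2 hdm hC.hx hC.hz hzm hT.hA hEF hdF).1 hcon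
    have hfix := fix_of_xy L hn hU' hC.hx hy
    exact hu0 (no_fixed_om ρ hirr ⟨_, hb₀⟩ u hfix)
  obtain ⟨t₀, ht₀⟩ := hext
  set u₂ := wX L M ρ u with hu₂def
  have hu₂ : u₂ ≠ 0 := wX_ne L M ρ I hu0 (fun r => hC.hx _) hT.hd
  have hC₂ : InC L M K ρ u₂ := wX_inC L M K ρ hC
  have hT₂ : TE L M K ρ u₂ (fun t => χd t⁻¹) χA (fun t => χd t * θ t) := wX_TE L M K ρ hT
  have hθ₂ : χd t₀ * θ t₀ ≠ 1 := by
    rw [hθ1, mul_one, hχ]
    exact ht₀
  have hB₂ : I.B u₂ u = 0 := by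
    have h := I.inv (E2 L M K t₀) u₂ u
    rw [hT₂.hE, hEF, I.smul_left] at h
    have h3 : (χd t₀ * θ t₀ - 1) * I.B u₂ u = 0 := by
      rw [sub_mul, one_mul, h, sub_self]
    exact (mul_eq_zero.1 h3).resolve_left (sub_ne_zero.2 hθ₂)
  have hB₃ : I.B (ρ (L.lf (nW M K)) u₂) u₂ = 0 :=
    (X_apply_z L M K ρ hψ hw I h2 hG hd3 hC₂ hT₂).2 ⟨t₀, hθ₂⟩
  -- the representation of the smaller group
  set R : Representation ℂ (Omega F Q') V := ρ.comp L.lf with hR
  have hRa : ∀ g v, R g v = ρ (L.lf g) v := fun g v => rfl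
  have hd₂ : ∀ t, ∃ μ : ℂ, R (dG M K t) u₂ = μ • u₂ := by
    intro t
    refine ⟨(fun t => χd t⁻¹) t⁻¹ * ((fun t => χd t * θ t) t⁻¹ * χA t), ?_⟩
    rw [hRa, dG_rel L M K t, rho_mul, rho_mul, hT₂.hA, map_smul, hT₂.hE, map_smul, map_smul, hT₂.hd, smul_smul, smul_smul]
    congr 1
    ring
  choose μ hμ using hd₂
  set w' := wX M K R u₂ with hw'def
  have hw'0 : w' ≠ 0 := wX_ne M K R (I.comp L.lf) hu₂ (fun r => hC₂.hz _) hμ
  have hw'x : ∀ b, ρ (L.x b) w' = w' := by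
    intro b
    simp only [hw'def, wX, map_sum]
    refine Finset.sum_congr rfl fun r _ => ?_
    rw [hRa, hRa]
    exact x_fix_lf L ρ (x_fix_lf L ρ hC₂.hx _) _ b
  have hw'z : ∀ b, ρ (L.lf (M.x b)) w' = w' := fun b => zf_wX L M K ρ hC₂.hz hC₂.k1 b
  have hsum : ∀ y : V, (∀ b, ρ (L.lf (M.x b)) y = y) → I.B w' y = (Fintype.card F : ℂ) * I.B (R (nW M K) u₂) y := by
    intro y hy
    simp only [hw'def, wX]
    rw [I.sum_left]
    have e : ∀ r : F, I.B (R (M.x (K.vec 0 r 0)) (R (nW M K) u₂)) y = I.B (R (nW M K) u₂) y := by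
      intro r
      rw [hRa (M.x _), I.adj, fix_inv ρ (hy _)]
    rw [Finset.sum_congr rfl (fun r _ => e r), Finset.sum_const, Finset.card_univ, nsmul_eq_mul]
  have hB₄ : I.B w' u₂ = 0 := by
    rw [hsum u₂ hC₂.hz, hRa, hB₃, mul_zero]
  have hB₅ : I.B w' u = 0 := by
    rw [hsum u hC.hz, hRa, I.adj, fix_inv ρ hn1, hB₂, mul_zero]
  exact three_of_orth I (Uzsp L M ρ) (a := u) (b := u₂) (c := w') ⟨hC.hx, hC.hz⟩ ⟨hC₂.hx, hC₂.hz⟩ ⟨hw'x, hw'z⟩ hu0 hu₂ hw'0 hB₂ hB₅ hB₄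

end Cfsg.Agent.Lib.OddDeg
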