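import Cfsg.Agent.Lib.OddDeg.Rel
import Cfsg.Agent.Lib.MinDeg.Step

/-!
The weights of the radical of a point stabiliser in a representation of small degree are the singular vectors,
each of multiplicity one, when the torus moves the non-zero norms.
-/

set_option autoImplicit false
set_option linter.unusedSectionVars false
set_option linter.unusedVariables false
set_option linter.unusedSimpArgs false
set_option linter.ambiguousOpen false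

namespace Cfsg.Agent.Lib.OddDeg

open Matrix Module Cfsg Cfsg.Geo
open Cfsg.Agent.Lib.Geo.Basic Cfsg.Agent.Lib.Geo.QForm Cfsg.Agent.Lib.QuadFn
open Cfsg.Agent.Lib.GeoOmega.Basic Cfsg.Agent.Lib.GeoOmega.Eichler
open Cfsg.Agent.Lib.MinDeg Cfsg.Agent.Lib.MinDeg.Hyp Cfsg.Agent.Lib.Classical.MatrixBridge
open Cfsg.Agent.Lib.WtSpace.Basic Cfsg.Agent.Lib.MinDeg.Wt Cfsg.Agent.Lib.MinDeg.Count Cfsg.Agent.Lib.MinDeg.Key
open scoped _root_.Classical MatrixGroups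

variable {ι κ κ' κ'' : Type} [Fintype ι] [DecidableEq ι] [Fintype κ] [DecidableEq κ] [Fintype κ'] [DecidableEq κ']
  [Fintype κ''] [DecidableEq κ''] {F : Type*} [Field F] [Fintype F]
  {Q : (ι → F) → F} {Q' : (κ → F) → F} {Q'' : (κ' → F) → F} {Q''' : (κ'' → F) → F}

/-- An element whose conjugation acts on the abelian group by `f` moves the weight spaces. -/
lemma Vc_move_w {G : Type*} [Group G] {V : Type*} [AddCommGroup V] [Module ℂ V] [FiniteDimensional ℂ V]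
    {ρ : Representation ℂ G V} {x : (κ → F) → G} (hx : ∀ b b', x (b + b') = x b * x b')
    (hQ' : IsNondegenerateQuadraticForm Q') {ψ : AddChar F ℂ} (hψ : ψ 1 ≠ 1) {g : G} {f : (κ → F) → (κ → F)}
    {c c' : κ → F} (hf : ∀ b, g⁻¹ * x b * g = x (f b)) (hc : ∀ b, pol Q' c (f b) = pol Q' c' b) {v : V}
    (hv : v ∈ Vc (Q' := Q') ρ x ψ c) : ρ g v ∈ Vc (Q' := Q') ρ x ψ c' := by
  rw [mem_Vc hQ' hψ hx] at hv ⊢
  intro b
  have h1 : x b * g = g * x (f b) := by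
    rw [← hf b]
    group
  have h2 : ρ (x b) (ρ g v) = ρ (x b * g) v := by rw [map_mul]; rfl
  have h3 : ρ (g * x (f b)) v = ρ g (ρ (x (f b)) v) := by rw [map_mul]; rfl
  rw [h2, h1, h3, hv, map_smul, hc]

/-- The weights in a representation of small degree, when the torus moves the non-zero norms. -/
theorem weights_F1 (L : HL Q Q') (M : HL Q' Q'') (hperp : ∀ b : κ → F, ∃ c, pol Q' c b = 0 ∧ Q' c ≠ 0)
    (hperp' : ∀ b : κ' → F, ∃ c, pol Q'' c b = 0 ∧ Q'' c ≠ 0) (hU : ∀ a, ∃ c, Q'' c = a)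
    {V : Type*} [AddCommGroup V] [Module ℂ V] [FiniteDimensional ℂ V]
    (ρ : Representation ℂ (Omega F Q) V) {ψ : AddChar F ℂ} (hψ : ψ 1 ≠ 1) (ht : ∃ t : Fˣ, (t : F) ^ 2 ≠ 1)
    {T : ℕ} (hT1 : finrank ℂ V < T) (hT0 : T ≤ 2 * (Lv Q' 0).card) (hTa : ∀ a, a ≠ 0 → T ≤ 2 * (Lv Q' a).card)
    (hnt : ∃ b, ρ (L.x b) ≠ 1) :
    ∀ c, c ≠ 0 → finrank ℂ (Vc (Q' := Q') ρ L.x ψ c) = if Q' c = 0 then 1 else 0 := by
  have hx := L.x_add
  have hQ' := L.nd'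
  have htr : ∀ c c' : κ → F, c ≠ 0 → c' ≠ 0 → Q' c = Q' c' →
      ∃ (γ : Omega F Q) (A : GL κ F), A ∈ isometryGroup F Q' ∧ (∀ b, γ * L.x b * γ⁻¹ = L.x (A.1 *ᵥ b)) ∧ A.1 *ᵥ c = c' :=
    fun c c' hc hc' hcc => Step.htr_of L.he M.he L.nd L.nd' M.nd' hperp hperp' hU c c' hc hc' hcc
  have hlevel : ∀ {c c' : κ → F}, c ≠ 0 → c' ≠ 0 → Q' c = Q' c' →
      finrank ℂ (Vc (Q' := Q') ρ L.x ψ c) = finrank ℂ (Vc (Q' := Q') ρ L.x ψ c') :=
    fun hc hc' hcc => finrank_level hx hQ' hψ htr hc hc' hcc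
  have hsum := finrank_eq_sum_Vc (Q' := Q') (ρ := ρ) (x := L.x) hQ' hψ hx
  have hle : ∀ S : Finset (κ → F), ∑ c ∈ S, finrank ℂ (Vc (Q' := Q') ρ L.x ψ c) ≤ finrank ℂ V := by
    intro S
    rw [hsum]
    exact Finset.sum_le_sum_of_subset (Finset.subset_univ S)
  -- the lower bound on a level
  have hlow : ∀ c, c ≠ 0 → finrank ℂ (Vc (Q' := Q') ρ L.x ψ c) ≠ 0 →
      (Lv Q' (Q' c)).card ≤ ∑ d ∈ Lv Q' (Q' c), finrank ℂ (Vc (Q' := Q') ρ L.x ψ d) := by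
    intro c hc hne
    rw [Finset.card_eq_sum_ones]
    refine Finset.sum_le_sum fun d hd => ?_
    rw [hlevel (mem_Lv.1 hd).1 hc (mem_Lv.1 hd).2]
    omega
  -- non-singular vectors are not weights
  have hA : ∀ c, c ≠ 0 → Q' c ≠ 0 → finrank ℂ (Vc (Q' := Q') ρ L.x ψ c) = 0 := by
    intro c hc hQc
    by_contra hne
    obtain ⟨t, ht⟩ := ht
    have ht0 : (t : F) ≠ 0 := t.ne_zero
    obtain ⟨a₁, a₂, e, rfl⟩ : ∃ a₁ a₂ e, c = M.vec a₁ a₂ e := ⟨_, _, _, (M.he.vec_coord c).symm⟩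
    set c' : κ → F := M.vec a₁ (((t : F) ^ 2)⁻¹ * a₂) ((t : F)⁻¹ • e) with hc'
    have hQc' : Q' c' = ((t : F) ^ 2)⁻¹ * Q' (M.vec a₁ a₂ e) := by
      rw [hc', M_Q M, M_Q M, M.nd'.smul]
      field_simp
    have hf : ∀ b : κ → F, (dG L M.swap t)⁻¹ * L.x b * dG L M.swap t =
        L.x (M.vec (((t : F) ^ 2)⁻¹ * b M.he.p0) (b M.he.p1) ((t : F)⁻¹ • M.he.dn b)) := by
      intro b
      have h1 := AA_x L M t (((t : F) ^ 2)⁻¹ * b M.he.p0) (b M.he.p1) ((t : F)⁻¹ • M.he.dn b)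
      have e1 : M.vec ((t : F) ^ 2 * (((t : F) ^ 2)⁻¹ * b M.he.p0)) (b M.he.p1) ((t : F) • (t : F)⁻¹ • M.he.dn b) = b := by
        rw [mul_inv_cancel_left₀ (pow_ne_zero 2 ht0), smul_smul, mul_inv_cancel₀ ht0, one_smul]
        exact M.he.vec_coord b
      rw [e1] at h1
      rw [mul_assoc, inv_mul_eq_iff_eq_mul, h1]
    have hmv : ∀ v ∈ Vc (Q' := Q') ρ L.x ψ (M.vec a₁ a₂ e), ρ (dG L M.swap t) v ∈ Vc (Q' := Q') ρ L.x ψ c' := by
      intro v hv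
      refine Vc_move_w hx hQ' hψ hf (fun b => ?_) hv
      obtain ⟨P, P', D, rfl⟩ : ∃ P P' D, b = M.vec P P' D := ⟨_, _, _, (M.he.vec_coord b).symm⟩
      rw [hc']
      simp only [HE.vec_p0, HE.vec_p1, HE.dn_vec]
      rw [M_pol M, M_pol M, pol_smul_left M.nd', pol_smul_right M.nd']
      ring
    have hfr : finrank ℂ (Vc (Q' := Q') ρ L.x ψ (M.vec a₁ a₂ e)) ≤ finrank ℂ (Vc (Q' := Q') ρ L.x ψ c') :=
      finrank_le_of_map (inj_rho (ρ := ρ) (dG L M.swap t)) hmv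
    have hsq : ((t : F) ^ 2)⁻¹ ≠ 1 := by
      intro h
      apply ht
      rw [← inv_inv ((t : F) ^ 2), h, inv_one]
    have hQne : Q' c' ≠ Q' (M.vec a₁ a₂ e) := by
      rw [hQc']
      intro h
      apply hsq
      exact mul_right_cancel₀ hQc (by rw [h, one_mul])
    have hQc'0 : Q' c' ≠ 0 := by
      rw [hQc']
      exact mul_ne_zero (inv_ne_zero (pow_ne_zero 2 ht0)) hQc
    have hc'0 : c' ≠ 0 := by
      intro h
      rw [h] at hQc'0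
      exact hQc'0 (Q_zero hQ')
    have hne' : finrank ℂ (Vc (Q' := Q') ρ L.x ψ c') ≠ 0 := by omega
    have hdisj : Disjoint (Lv Q' (Q' (M.vec a₁ a₂ e))) (Lv Q' (Q' c')) := by
      rw [Finset.disjoint_left]
      intro d hd hd'
      exact hQne (by rw [← (mem_Lv.1 hd').2, (mem_Lv.1 hd).2])
    have h2 := hle (Lv Q' (Q' (M.vec a₁ a₂ e)) ∪ Lv Q' (Q' c'))
    rw [Finset.sum_union hdisj] at h2
    have h3 := hlow _ hc hne
    have h4 := hlow _ hc'0 hne'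
    have h5 := hTa _ hQc
    have h6 := hTa _ hQc'0
    omega
  have hex : ∃ c, c ≠ 0 ∧ finrank ℂ (Vc (Q' := Q') ρ L.x ψ c) ≠ 0 := by
    by_contra hcon
    push Not at hcon
    obtain ⟨b, hb⟩ := hnt
    exact hb (rho_eq_one_of hQ' hψ hx hcon b)
  obtain ⟨c₁, hc₁, hfr⟩ := hex
  have hQ1 : Q' c₁ = 0 := by
    by_contra h
    exact hfr (hA c₁ hc₁ h)
  have hmem : c₁ ∈ Lv Q' 0 := mem_Lv.2 ⟨hc₁, hQ1⟩
  have hconst : ∀ c ∈ Lv Q' 0, finrank ℂ (Vc (Q' := Q') ρ L.x ψ c) = finrank ℂ (Vc (Q' := Q') ρ L.x ψ c₁) := by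
    intro c hc
    exact hlevel (mem_Lv.1 hc).1 hc₁ (by rw [(mem_Lv.1 hc).2, hQ1])
  have h1 := hle (Lv Q' 0)
  rw [Finset.sum_congr rfl hconst, Finset.sum_const, smul_eq_mul] at h1
  have hμ : finrank ℂ (Vc (Q' := Q') ρ L.x ψ c₁) = 1 := by
    by_contra hne
    have h2 : 2 ≤ finrank ℂ (Vc (Q' := Q') ρ L.x ψ c₁) := by omega
    have h3 : (Lv Q' 0).card * 2 ≤ (Lv Q' 0).card * finrank ℂ (Vc (Q' := Q') ρ L.x ψ c₁) :=
      Nat.mul_le_mul_left _ h2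
    omega
  intro c hc
  split_ifs with hcq
  · rw [← hμ]
    exact hconst c (mem_Lv.2 ⟨hc, hcq⟩)
  · exact hA c hc hcq

end Cfsg.Agent.Lib.OddDeg
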