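import Cfsg.Agent.Lib.OddDeg.Odd
import Cfsg.Agent.Lib.OddDeg.Weights
import Cfsg.Agent.Lib.OddDeg.Step2
import Cfsg.Agent.Lib.OddDeg.Split
import Cfsg.Agent.Lib.OddDeg.CFix
import Cfsg.Agent.Lib.OddDeg.UzThree
import Cfsg.Agent.Lib.SLDeg.Main
import Cfsg.Agent.Lib.MinDeg.Gen

/-!
The induction for the minimal degree of `Ω` in odd dimension.
-/

set_option autoImplicit false
set_option linter.unusedSectionVars false
set_option linter.unusedVariables false
set_option linter.unusedSimpArgs false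
set_option linter.ambiguousOpen false

namespace Cfsg.Agent.Lib.OddDeg

open Matrix Module Cfsg Cfsg.Geo
open Cfsg.Agent.Lib.Geo.Basic Cfsg.Agent.Lib.Geo.QForm Cfsg.Agent.Lib.QuadFn
open Cfsg.Agent.Lib.GeoOmega.Basic Cfsg.Agent.Lib.GeoOmega.Eichler
open Cfsg.Agent.Lib.MinDeg Cfsg.Agent.Lib.MinDeg.Hyp Cfsg.Agent.Lib.MinDeg.Wt Cfsg.Agent.Lib.MinDeg.Count
open Cfsg.Agent.Lib.MinDeg.Key Cfsg.Agent.Lib.MinDeg.Gen
open Cfsg.Agent.Lib.SLDeg.Res
open scoped _root_.Classical MatrixGroups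

variable {F : Type*} [Field F] [Fintype F] (hodd : Odd (Fintype.card F)) (h5 : 5 ≤ Fintype.card F)

include hodd in
lemma two_ne : (2 : F) ≠ 0 := by
  intro h
  have hc : ringChar F = 2 := by
    have := CharTwo.of_one_ne_zero_of_two_eq_zero (R := F) one_ne_zero h
    exact ringChar.eq F 2
  have := FiniteField.even_card_of_char_two hc
  exact (Nat.not_even_iff_odd.mpr hodd) (Nat.even_iff.mpr this)

include hodd in
lemma ringChar_ne : ringChar F ≠ 2 := by
  intro hc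
  have := FiniteField.even_card_of_char_two hc
  exact (Nat.not_even_iff_odd.mpr hodd) (Nat.even_iff.mpr this)

include h5 in
lemma exists_sq_ne : ∃ t : Fˣ, (t : F) ^ 2 ≠ 1 := by
  by_contra hc
  push Not at hc
  have hp : ∀ x : F, x ∈ ({0} : Finset F) ∪ (Polynomial.X ^ 2 - 1 : Polynomial F).roots.toFinset := by
    intro x
    by_cases hx : x = 0
    · simp [hx]
    · have h1 := hc (Units.mk0 x hx)
      simp only [Units.val_mk0] at h1
      have hne : (Polynomial.X ^ 2 - 1 : Polynomial F) ≠ 0 := Polynomial.X_pow_sub_C_ne_zero (by norm_num) (1 : F)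
      simp [hne, h1, sub_eq_zero]
  have hc2 : Fintype.card F ≤ 3 := by
    have h1 : (Finset.univ : Finset F) ⊆ ({0} : Finset F) ∪ (Polynomial.X ^ 2 - 1 : Polynomial F).roots.toFinset :=
      fun x _ => hp x
    have h2 := Finset.card_le_card h1
    have h3 := Finset.card_union_le ({0} : Finset F) (Polynomial.X ^ 2 - 1 : Polynomial F).roots.toFinset
    have h4 : (Polynomial.X ^ 2 - 1 : Polynomial F).roots.toFinset.card ≤ 2 := by
      refine (Multiset.toFinset_card_le _).trans ?_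
      have := Polynomial.card_roots' (Polynomial.X ^ 2 - 1 : Polynomial F)
      have e : (Polynomial.X ^ 2 - 1 : Polynomial F).natDegree = 2 := by
        have := Polynomial.natDegree_X_pow_sub_C (n := 2) (r := (1 : F))
        simpa using this
      omega
    simp only [Finset.card_univ, Finset.card_singleton] at h2 h3
    omega
  omega

variable (F)

/-- The form in `m` planes. -/
abbrev Qo (m : ℕ) : (Unit ⊕ (Fin m ⊕ Fin m) → F) → F := quadFormOdd m F

variable {F}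

/-- The tower. -/
noncomputable def Lo (m : ℕ) : HL (Qo F (m + 1)) (Qo F m) := hlO m hodd (by omega)

/-- The statement to be proved. -/
def Good (m : ℕ) : Prop :=
  ∀ (V : Type) [AddCommGroup V] [Module ℂ V] [FiniteDimensional ℂ V]
    (ρ : Representation ℂ (Omega F (Qo F (m + 3))) V), ρ ((Lo hodd h5 (m + 2)).x (Lo hodd h5 (m + 1)).he.P0) ≠ 1 →
    BB (Fintype.card F) (m + 3) ≤ finrank ℂ V

include hodd in
lemma perpQ (m : ℕ) (b : Unit ⊕ (Fin (m + 1) ⊕ Fin (m + 1)) → F) :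
    ∃ c, pol (Qo F (m + 1)) c b = 0 ∧ Qo F (m + 1) c ≠ 0 := perp_odd (two_ne hodd) m b

lemma card_i (m : ℕ) : 7 ≤ Fintype.card (Unit ⊕ (Fin (m + 3) ⊕ Fin (m + 3))) := by
  rw [card_idx]
  omega

/-- A representation in which the root element is trivial is trivial. -/
theorem triv_root (m : ℕ) {V : Type*} [AddCommGroup V] [Module ℂ V]
    (ρ : Representation ℂ (Omega F (Qo F (m + 3))) V)
    (hz : ρ ((Lo hodd h5 (m + 2)).x (Lo hodd h5 (m + 1)).he.P0) = 1) (g : Omega F (Qo F (m + 3))) : ρ g = 1 :=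
  triv_of_z (Lo hodd h5 (m + 2)).he (Lo hodd h5 (m + 1)).he (Lo hodd h5 (m + 2)).nd (Lo hodd h5 (m + 2)).nd'
    (Lo hodd h5 (m + 1)).nd' (perpQ hodd (m + 1)) (perpQ hodd m) (univ_odd m) (univ_odd (m + 1)) ρ (card_i m) hz g

/-- It suffices to treat irreducible representations. -/
theorem good_of_irr (m : ℕ) (H : ∀ (V : Type) [AddCommGroup V] [Module ℂ V] [FiniteDimensional ℂ V]
    (ρ : Representation ℂ (Omega F (Qo F (m + 3))) V), ρ.IsIrreducible →
    ρ ((Lo hodd h5 (m + 2)).x (Lo hodd h5 (m + 1)).he.P0) ≠ 1 → BB (Fintype.card F) (m + 3) ≤ finrank ℂ V) :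
    Good hodd h5 m := by
  intro V _ _ _ ρ hz
  obtain ⟨S, hS, hirr, g, hg⟩ := exists_irr_sub ρ ⟨_, hz⟩
  refine le_trans (H S (subRep ρ S hS) hirr ?_) (Submodule.finrank_le S)
  intro h0
  exact hg (triv_root hodd h5 m _ h0 g)

include hodd in
theorem gaussF_all {ψ : AddChar F ℂ} (hψ : ψ 1 ≠ 1) (m : ℕ) : GaussF (Qo F m) ψ := by
  induction m with
  | zero => exact gaussF_odd0 (ringChar_ne hodd) hψ
  | succ m ih =>
    have h3 : 3 ≤ Fintype.card F := by
      have h4 : 2 ≤ Fintype.card F := Fintype.one_lt_card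
      rcases hodd with ⟨k, hk⟩
      omega
    exact gaussF_step hψ (hlO m hodd h3).he ih

/-- Complements of the fixed vectors. -/
theorem compl_bound {G : Type*} [Group G] [Fintype G] {W : Type*} [AddCommGroup W] [Module ℂ W] [FiniteDimensional ℂ W]
    (R : Representation ℂ G W) {u : W} (hu0 : u ≠ 0) (hu : ∀ g, R g u = u) (z : G) (hz : R z ≠ 1) :
    ∃ (S : Submodule ℂ W) (hS : ∀ g, ∀ v ∈ S, R g v ∈ S), finrank ℂ S + 1 ≤ finrank ℂ W ∧ subRep R S hS z ≠ 1 := by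
  have hcard : (Fintype.card G : ℂ) ≠ 0 := by exact_mod_cast Fintype.card_ne_zero
  let P : Module.End ℂ W := ∑ g : G, R g
  have hPa : ∀ v, P v = ∑ g : G, R g v := fun v => by simp only [P, LinearMap.sum_apply]
  have hPR : ∀ h v, P (R h v) = P v := by
    intro h v
    rw [hPa, hPa, ← Equiv.sum_comp (Equiv.mulRight h) (fun g : G => R g v)]
    refine Finset.sum_congr rfl fun g _ => ?_
    simp [map_mul]
  have hRP : ∀ h v, R h (P v) = P v := by
    intro h v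
    rw [hPa, map_sum, ← Equiv.sum_comp (Equiv.mulLeft h) (fun g : G => R g v)]
    refine Finset.sum_congr rfl fun g _ => ?_
    simp [map_mul]
  have hfix : ∀ v, (∀ g, R g v = v) → P v = (Fintype.card G : ℂ) • v := by
    intro v hv
    rw [hPa]
    simp only [hv, Finset.sum_const, Finset.card_univ, Nat.cast_smul_eq_nsmul]
  refine ⟨LinearMap.ker P, fun g v hv => ?_, ?_, ?_⟩
  · rw [LinearMap.mem_ker] at hv ⊢
    rw [hPR, hv]
  · have hne : LinearMap.ker P ≠ ⊤ := by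
      intro ht
      have h1 : u ∈ LinearMap.ker P := by rw [ht]; trivial
      rw [LinearMap.mem_ker, hfix u hu] at h1
      exact hu0 ((smul_eq_zero.1 h1).resolve_left hcard)
    have := Submodule.finrank_lt hne
    omega
  · intro h1
    apply hz
    apply LinearMap.ext
    intro v
    set v₁ := v - (Fintype.card G : ℂ)⁻¹ • P v with hv₁
    have hv₁m : v₁ ∈ LinearMap.ker P := by
      rw [LinearMap.mem_ker, hv₁, map_sub, map_smul, hfix (P v) (fun g => hRP g v), smul_smul, inv_mul_cancel₀ hcard, one_smul, sub_self]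
    have h2 : R z v₁ = v₁ := by
      have := LinearMap.congr_fun h1 ⟨v₁, hv₁m⟩
      exact congrArg Subtype.val this
    have h3 : v = v₁ + (Fintype.card G : ℂ)⁻¹ • P v := by
      rw [hv₁]
      abel
    rw [h3, map_add, map_smul, h2, hRP]
    rfl

section Core

/-- Singular vectors and the other hypotheses at the lowest level. -/
lemma exists_nonsing (m : ℕ) : ∃ d : Unit ⊕ (Fin m ⊕ Fin m) → F, Qo F m d ≠ 0 := by
  refine ⟨fun i => Sum.elim (fun _ => 1) (fun _ => 0) i, ?_⟩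
  simp [quadFormOdd]

include hodd in
/-- Two vectors orthogonal to a singular vector with polar product one. -/
lemma hP5 (m : ℕ) (c₂ : Unit ⊕ (Fin m ⊕ Fin m) → F) (hc : Qo F m c₂ = 0) :
    ∃ u₁ u₂ : Unit ⊕ (Fin m ⊕ Fin m) → F, pol (Qo F m) c₂ u₁ = 0 ∧ pol (Qo F m) c₂ u₂ = 0 ∧ pol (Qo F m) u₁ u₂ = 1 := by
  have h2 := two_ne (F := F) hodd
  have nd : IsNondegenerateQuadraticForm (Qo F m) := Cfsg.Agent.Lib.GeoOmega.Planes.quadFormOdd_nondeg m F h2
  cases m with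
  | zero =>
    have hc0 : c₂ = 0 := by
      funext i
      rcases i with ⟨⟩ | i
      · have : c₂ (Sum.inl ()) ^ 2 = 0 := by simpa [quadFormOdd] using hc
        simpa using this
      · rcases i with i | i <;> exact i.elim0
    subst hc0
    have he : (fun i => Sum.elim (fun _ => (1 : F)) (fun _ => 0) i : Unit ⊕ (Fin 0 ⊕ Fin 0) → F) ≠ 0 := by
      intro h0
      have := congrFun h0 (Sum.inl ())
      simp at this
    obtain ⟨u₁, hu₁⟩ := HE.exists_pol_eq nd he (1 : F)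
    exact ⟨u₁, _, pol_zero_left nd _, pol_zero_left nd _, hu₁⟩
  | succ m =>
    haveI : Nonempty (Unit ⊕ (Fin m ⊕ Fin m)) := ⟨Sum.inl ()⟩
    have h3 : 3 ≤ Fintype.card F := by
      have := hodd
      have h4 : 2 ≤ Fintype.card F := Fintype.one_lt_card
      rcases hodd with ⟨k, hk⟩
      omega
    exact exists_u (hlO m hodd h3).he (Cfsg.Agent.Lib.GeoOmega.Planes.quadFormOdd_nondeg m F h2) c₂

variable {V : Type*} [AddCommGroup V] [Module ℂ V] [FiniteDimensional ℂ V]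
  (m : ℕ) (ρ : Representation ℂ (Omega F (Qo F (m + 3))) V) {ψ : AddChar F ℂ} (hψ : ψ 1 ≠ 1)

/-- The tower at the given level. -/
noncomputable abbrev L0 (m : ℕ) := Lo hodd h5 (m + 2)
noncomputable abbrev M0 (m : ℕ) := Lo hodd h5 (m + 1)
noncomputable abbrev K0 (m : ℕ) := Lo hodd h5 m

include hψ in
theorem setup_w (hz : ρ ((Lo hodd h5 (m + 2)).x (Lo hodd h5 (m + 1)).he.P0) ≠ 1)
    (hk : finrank ℂ V < BB (Fintype.card F) (m + 3)) :
    ∀ c, c ≠ 0 → finrank ℂ (Vc (Q' := Qo F (m + 2)) ρ (Lo hodd h5 (m + 2)).x ψ c) = if Qo F (m + 2) c = 0 then 1 else 0 := by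
  have h2 := two_ne (F := F) hodd
  obtain ⟨hb1, hb2⟩ : BB (Fintype.card F) (m + 3) ≤ 2 * (Fintype.card F ^ (2 * (m + 2)) - 1) ∧
      BB (Fintype.card F) (m + 3) ≤ 2 * (Fintype.card F ^ (2 * (m + 2)) - Fintype.card F ^ (m + 2)) :=
    BB_le (Fintype.card F) h5 (m + 2) (by omega)
  refine weights_F1 (Lo hodd h5 (m + 2)) (Lo hodd h5 (m + 1)) (perpQ hodd (m + 1)) (perpQ hodd m) (univ_odd m) ρ hψ
    (exists_sq_ne h5) hk ?_ ?_ ⟨_, hz⟩
  · have : (Lv (Qo F (m + 2)) 0).card + 1 = _ := card_Lv_zero_odd h2 (m + 2)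
    omega
  · intro a ha
    have : _ ≤ (Lv (Qo F (m + 2)) a).card + _ := card_Lv_ne_odd h2 (m + 2) ha
    omega

variable {m ρ}

variable (hw : ∀ c, c ≠ 0 → finrank ℂ (Vc (Q' := Qo F (m + 2)) ρ (Lo hodd h5 (m + 2)).x ψ c) = if Qo F (m + 2) c = 0 then 1 else 0)

include hψ hw

theorem setup_fin : finrank ℂ V + 1 = finrank ℂ (Vc (Q' := Qo F (m + 2)) ρ (Lo hodd h5 (m + 2)).x ψ 0) + Fintype.card F ^ (2 * (m + 2)) := by
  have h2 := two_ne (F := F) hodd
  have h1 := finrank_single (fun b b' => (Lo hodd h5 (m + 2)).x_add b b') (Lo hodd h5 (m + 2)).nd' hψ hw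
  have h3 : (Lv (Qo F (m + 2)) 0).card + 1 = _ := card_Lv_zero_odd h2 (m + 2)
  omega

theorem setup_nz : ¬ ∀ v ∈ Vc (Q' := Qo F (m + 2)) ρ (Lo hodd h5 (m + 2)).x ψ 0,
    ρ ((Lo hodd h5 (m + 2)).lf ((Lo hodd h5 (m + 1)).x (Lo hodd h5 m).he.P0)) v = v := by
  have h2 := two_ne (F := F) hodd
  refine nontriv' (Lo hodd h5 (m + 2)) (Lo hodd h5 (m + 1)) (Lo hodd h5 m) (perpQ hodd (m + 1)) (perpQ hodd m) ρ hψ hw (hP5 hodd m) ?_
  have h3 : (Lv (Qo F (m + 2)) 0).card + 1 = _ := card_Lv_zero_odd h2 (m + 2)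
  rw [card_idx]
  have e : 2 * (m + 1) + 1 + 1 = 2 * (m + 2) := by ring
  rw [e]
  omega

theorem setup_U0 : ∃ u : V, u ≠ 0 ∧ ∀ b, ρ ((Lo hodd h5 (m + 2)).x b) u = u := by
  have h := setup_nz hodd h5 hψ hw
  push Not at h
  obtain ⟨v, hv, hne⟩ := h
  have hx := fun b b' => (Lo hodd h5 (m + 2)).x_add b b'
  have nd := (Lo hodd h5 (m + 2)).nd'
  refine ⟨v, ?_, ?_⟩
  · rintro rfl
    exact hne (map_zero _)
  · intro b
    rw [(mem_Vc nd hψ hx).1 hv b, pol_zero_left nd]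
    simp

end Core

/-- The base of the induction. -/
theorem good_zero : Good hodd h5 0 := by
  apply good_of_irr
  intro V _ _ _ ρ hirr hz
  by_contra hk
  push Not at hk
  obtain ⟨ψ, hψ⟩ := Cfsg.Agent.Lib.SLDeg.Wt.exists_psi (F := F)
  have h2 := two_ne (F := F) hodd
  have hw := setup_w hodd h5 0 ρ hψ hz hk
  have hfin : finrank ℂ V + 1 = finrank ℂ (Vc (Q' := Qo F 2) ρ (Lo hodd h5 2).x ψ 0) + Fintype.card F ^ (2 * 2) :=
    setup_fin hodd h5 hψ hw
  have hnz := setup_nz hodd h5 hψ hw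
  obtain ⟨I⟩ := exists_IH ρ
  have hsp := U_split (Lo hodd h5 2) (Lo hodd h5 1) (Lo hodd h5 0) ρ hψ hw (exists_nonsing 0) hnz
  obtain ⟨u, χd, χA, θ, hu0, hC, hT, hzm⟩ := exists_uc (Lo hodd h5 2) (Lo hodd h5 1) (Lo hodd h5 0) ρ hψ hw I hirr (card_i 0)
    (univ_odd _) (perpQ hodd 0) (univ_odd 0) (exists_sq_ne h5) ⟨_, hz⟩ (setup_U0 hodd h5 hψ hw)
    (exists_nonsing 0).choose_spec (ringChar_ne hodd) (gaussF_all hodd hψ 0)
  have h3 := Uz_three_of (Lo hodd h5 2) (Lo hodd h5 1) (Lo hodd h5 0) ρ hψ hw I hirr (card_i 0) (univ_odd _) ⟨_, hz⟩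
    (ringChar_ne hodd) (gaussF_all hodd hψ 0) (gaussF_all hodd hψ 1) (exists_nonsing 1) (exists_nonsing 0) hu0 hC hT hzm
  have h4 : (Lv (Qo F 1) 0).card + 1 = _ := card_Lv_zero_odd h2 1
  have e : BB (Fintype.card F) 3 = Fintype.card F ^ (2 * 2) + Fintype.card F ^ (2 * 1) + 1 := by
    simp [BB]
    ring
  have hk' : finrank ℂ V < BB (Fintype.card F) 3 := hk
  rw [e] at hk'
  omega

/-- The inductive step. -/
theorem good_succ (m : ℕ) (IH : Good hodd h5 m) : Good hodd h5 (m + 1) := by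
  apply good_of_irr
  intro V _ _ _ ρ hirr hz
  by_contra hk
  push Not at hk
  obtain ⟨ψ, hψ⟩ := Cfsg.Agent.Lib.SLDeg.Wt.exists_psi (F := F)
  have h2 := two_ne (F := F) hodd
  have hw := setup_w hodd h5 (m + 1) ρ hψ hz hk
  have hfin := setup_fin hodd h5 hψ hw
  have hnz := setup_nz hodd h5 hψ hw
  obtain ⟨I⟩ := exists_IH ρ
  set L := Lo hodd h5 (m + 1 + 2) with hL
  set M := Lo hodd h5 (m + 1 + 1) with hM
  set K := Lo hodd h5 (m + 1) with hK
  obtain ⟨u, χd, χA, θ, hu0, hC, hT, hzm⟩ := exists_uc L M K ρ hψ hw I hirr (card_i (m + 1)) (univ_odd _) (perpQ hodd (m + 1))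
    (univ_odd (m + 1)) (exists_sq_ne h5) ⟨_, hz⟩ (setup_U0 hodd h5 hψ hw) (exists_nonsing (m + 1)).choose_spec (ringChar_ne hodd)
    (gaussF_all hodd hψ (m + 1))
  -- the fixed space and its representation
  have hx := fun b b' => L.x_add b b'
  have nd := L.nd'
  have hst : ∀ (g : Omega F (Qo F (m + 1 + 2))), ∀ v ∈ Vc (Q' := Qo F (m + 1 + 2)) ρ L.x ψ 0,
      (ρ.comp L.lf) g v ∈ Vc (Q' := Qo F (m + 1 + 2)) ρ L.x ψ 0 := by
    intro g v hv
    have := move_mem nd hψ hx g.1.2 (fun b₀ => L.lf_x g b₀) hv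
    rwa [Matrix.mulVec_zero] at this
  let R0 : Representation ℂ (Omega F (Qo F (m + 1 + 2))) (Vc (Q' := Qo F (m + 1 + 2)) ρ L.x ψ 0) := subRep (ρ.comp L.lf) _ hst
  have huU : u ∈ Vc (Q' := Qo F (m + 1 + 2)) ρ L.x ψ 0 := by
    rw [mem_Vc nd hψ hx]
    intro b
    rw [hC.hx, pol_zero_left nd]
    simp
  have hfixu : ∀ g, R0 g ⟨u, huU⟩ = ⟨u, huU⟩ := by
    intro g
    apply Subtype.ext
    exact fix_of_xy M (ρ := ρ.comp L.lf) (card_i m) (univ_odd _) hC.hz hzm g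
  have hnz' : R0 (M.x K.he.P0) ≠ 1 := by
    intro h0
    apply hnz
    intro v hv
    exact congrArg Subtype.val (LinearMap.congr_fun h0 ⟨v, hv⟩)
  obtain ⟨S, hS, hfr, hne⟩ := compl_bound R0 (u := ⟨u, huU⟩) (fun h => hu0 (congrArg Subtype.val h)) hfixu _ hnz'
  have hb := IH S (subRep R0 S hS) hne
  have e : BB (Fintype.card F) (m + 1 + 3) = Fintype.card F ^ (2 * (m + 3)) + BB (Fintype.card F) (m + 3) := rfl
  have e2 : 2 * (m + 1 + 2) = 2 * (m + 3) := by ring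
  rw [e2] at hfin
  rw [e] at hk
  omega

/-- The main theorem. -/
theorem good_all (m : ℕ) : Good hodd h5 m := by
  induction m with
  | zero => exact good_zero hodd h5
  | succ m ih => exact good_succ hodd h5 m ih

include hodd in
/-- The bound. -/
theorem main_bound (h3 : 3 < Fintype.card F) (n : ℕ) (hn : 3 ≤ n) (k : ℕ)
    (ρ : Representation ℂ (Cfsg.Omega F (Cfsg.quadFormOdd n F)) (Fin k → ℂ)) (hirr : ρ.IsIrreducible) (hk : 2 ≤ k) :
    (Fintype.card F ^ (2 * n) - 1) / (Fintype.card F ^ 2 - 1) ≤ k := by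
  obtain ⟨m, rfl⟩ : ∃ m, n = m + 3 := ⟨n - 3, by omega⟩
  have h5 : 5 ≤ Fintype.card F := by
    rcases hodd with ⟨r, hr⟩
    omega
  have h1 := BB_eq (Fintype.card F) (m + 3) (by omega)
  rw [h1]
  obtain ⟨g, hg⟩ := Cfsg.Agent.Lib.SLDeg.Main.exists_ne_one_of_irr ρ hirr hk
  have hz : ρ ((Lo hodd h5 (m + 2)).x (Lo hodd h5 (m + 1)).he.P0) ≠ 1 := fun h0 => hg (triv_root hodd h5 m ρ h0 g)
  have := good_all hodd h5 m (Fin k → ℂ) ρ hz
  simpa using this

end Cfsg.Agent.Lib.OddDeg
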