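import Cfsg.Agent.Lib.OddDeg.Rel2
import Cfsg.Agent.Lib.OddDeg.Form

/-!
The space of vectors fixed by the root groups in a tower, and the action of the torus on it.
-/

set_option autoImplicit false
set_option linter.unusedSectionVars false
set_option linter.unusedVariables false
set_option linter.unusedSimpArgs false
set_option linter.ambiguousOpen false

namespace Cfsg.Agent.Lib.OddDeg

open Matrix Module Cfsg Cfsg.Geo
open Cfsg.Agent.Lib.Geo.Basic Cfsg.Agent.Lib.Geo.QForm Cfsg.Agent.Lib.QuadFn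
open Cfsg.Agent.Lib.GeoOmega.Basic Cfsg.Agent.Lib.GeoOmega.Eichler
open Cfsg.Agent.Lib.MinDeg Cfsg.Agent.Lib.MinDeg.Hyp Cfsg.Agent.Lib.Classical.MatrixBridge
open scoped MatrixGroups

variable {ι κ κ' κ'' : Type} [Fintype ι] [DecidableEq ι] [Fintype κ] [DecidableEq κ] [Fintype κ'] [DecidableEq κ']
  [Fintype κ''] [DecidableEq κ''] {F : Type*} [Field F] [Fintype F]
  {Q : (ι → F) → F} {Q' : (κ → F) → F} {Q'' : (κ' → F) → F} {Q''' : (κ'' → F) → F}

variable (L : HL Q Q') (M : HL Q' Q'') (K : HL Q'' Q''')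
  {V : Type*} [AddCommGroup V] [Module ℂ V] (ρ : Representation ℂ (Omega F Q) V)

/-- The action of a product. -/
lemma rho_mul {G : Type*} [Group G] (R : Representation ℂ G V) (g h : G) (v : V) : R (g * h) v = R g (R h v) := by
  rw [map_mul]
  rfl

lemma rho_inv_rho {G : Type*} [Group G] (R : Representation ℂ G V) (g : G) (v : V) : R g⁻¹ (R g v) = v := by
  rw [← rho_mul, inv_mul_cancel, map_one]
  rfl

lemma rho_rho_inv {G : Type*} [Group G] (R : Representation ℂ G V) (g : G) (v : V) : R g (R g⁻¹ v) = v := by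
  rw [← rho_mul, mul_inv_cancel, map_one]
  rfl

/-- Transport of a fixed family by a relation. -/
lemma fix_of_rel {G : Type*} [Group G] (R : Representation ℂ G V) {α : Type*} {X : α → G} {f : α → α} {g : G} {u : V}
    (h : ∀ b, X b * g = g * X (f b)) (hu : ∀ b, R (X b) u = u) (b : α) : R (X b) (R g u) = R g u := by
  rw [← rho_mul, h, rho_mul, hu]

/-- Inverting a relation. -/
lemma rel_conv {G : Type*} [Group G] {a a' g g' : G} (h : g' * a = a' * g') (hg : g * g' = 1) : a * g = g * a' := by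
  have hg' : g' * g = 1 := by
    rw [eq_inv_of_mul_eq_one_right hg]
    exact inv_mul_cancel g
  have : a = g * a' * g' := by
    rw [mul_assoc, ← h, ← mul_assoc, hg, one_mul]
  rw [this, mul_assoc, hg', mul_one]

lemma dG_mul_inv (t : Fˣ) : dG L M t * dG L M t⁻¹ = 1 := by
  rw [← dG_mul, mul_inv_cancel, dG_one]

/-- The vectors fixed by the root groups `x`, `z` and the root groups of the third plane. -/
structure InC (u : V) : Prop where
  hx : ∀ b, ρ (L.x b) u = u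
  hz : ∀ b, ρ (L.lf (M.x b)) u = u
  k1 : ∀ c, ρ (L.lf (M.lf (K.x c))) u = u
  k2 : ∀ c, ρ (L.lf (M.lf (K.y c))) u = u

/-- The eigenvalues of the torus. -/
structure TE (u : V) (χd χA θ : Fˣ → ℂ) : Prop where
  hd : ∀ t, ρ (dG L M t) u = χd t • u
  hA : ∀ t, ρ (dG L M.swap t) u = χA t • u
  hE : ∀ t, ρ (E2 L M K t) u = θ t • u

/-- The subspace of fixed vectors. -/
def Csp : Submodule ℂ V where
  carrier := {u | InC L M K ρ u}
  add_mem' := by
    intro u v hu hv
    exact ⟨fun b => by rw [map_add, hu.hx, hv.hx], fun b => by rw [map_add, hu.hz, hv.hz],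
      fun b => by rw [map_add, hu.k1, hv.k1], fun b => by rw [map_add, hu.k2, hv.k2]⟩
  zero_mem' := ⟨fun b => map_zero _, fun b => map_zero _, fun b => map_zero _, fun b => map_zero _⟩
  smul_mem' := by
    intro c u hu
    exact ⟨fun b => by rw [map_smul, hu.hx], fun b => by rw [map_smul, hu.hz],
      fun b => by rw [map_smul, hu.k1], fun b => by rw [map_smul, hu.k2]⟩

lemma mem_Csp {u : V} : u ∈ Csp L M K ρ ↔ InC L M K ρ u := Iff.rfl

/-- All vectors of `κ` in coordinates. -/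
lemma M_coord (b : κ → F) : ∃ p p' c, b = M.vec p p' c := ⟨_, _, _, (M.he.vec_coord b).symm⟩

lemma K_coord (b : κ' → F) : ∃ p p' c, b = K.vec p p' c := ⟨_, _, _, (K.he.vec_coord b).symm⟩

variable {L M K ρ} in
theorem InC.dd {u : V} (hu : InC L M K ρ u) (t : Fˣ) : InC L M K ρ (ρ (dG L M t) u) := by
  refine ⟨?_, ?_, ?_, ?_⟩
  · intro b
    obtain ⟨p, p', c, rfl⟩ := M_coord M b
    rw [← rho_mul, rel_conv (dd_x L M t⁻¹ p p' c) (dG_mul_inv L M t), rho_mul, hu.hx]
  · intro b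
    exact fix_of_rel ρ (X := fun b => L.lf (M.x b)) (fun b => rel_conv (dd_zz L M t⁻¹ b) (dG_mul_inv L M t)) hu.hz b
  · intro c
    exact fix_of_rel ρ (X := fun c => L.lf (M.lf (K.x c))) (f := id) (fun b => (dd_lfl L M t _).symm) hu.k1 c
  · intro c
    exact fix_of_rel ρ (X := fun c => L.lf (M.lf (K.y c))) (f := id) (fun b => (dd_lfl L M t _).symm) hu.k2 c

variable {L M K ρ} in
theorem InC.AA {u : V} (hu : InC L M K ρ u) (t : Fˣ) : InC L M K ρ (ρ (dG L M.swap t) u) := by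
  refine ⟨?_, ?_, ?_, ?_⟩
  · intro b
    obtain ⟨p, p', c, rfl⟩ := M_coord M b
    rw [← rho_mul, rel_conv (AA_x L M t⁻¹ p p' c) (dG_mul_inv L M.swap t), rho_mul, hu.hx]
  · intro b
    exact fix_of_rel ρ (X := fun b => L.lf (M.x b)) (fun b => rel_conv (AA_zz L M t⁻¹ b) (dG_mul_inv L M.swap t)) hu.hz b
  · intro c
    exact fix_of_rel ρ (X := fun c => L.lf (M.lf (K.x c))) (f := id) (fun b => (AA_lfl L M t _).symm) hu.k1 c
  · intro c
    exact fix_of_rel ρ (X := fun c => L.lf (M.lf (K.y c))) (f := id) (fun b => (AA_lfl L M t _).symm) hu.k2 c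

lemma E2_mul_inv (t : Fˣ) : E2 L M K t * E2 L M K t⁻¹ = 1 := by
  rw [E2, E2, ← map_mul, dG_mul_inv, map_one]

lemma E2_x (t : Fˣ) (b : κ → F) : E2 L M K t * L.x b = L.x (act (dG M K.swap t) b) * E2 L M K t := by
  have h := L.lf_x (dG M K.swap t) b
  rw [mul_inv_eq_iff_eq_mul] at h
  exact h

lemma E2_zz (t : Fˣ) (p p' : F) (c : κ'' → F) :
    E2 L M K t * L.lf (M.x (K.vec p p' c)) = L.lf (M.x (K.vec ((t : F) ^ 2 * p) p' ((t : F) • c))) * E2 L M K t := by
  rw [E2, ← map_mul, ← map_mul, AA_x]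

lemma E2_k1 (t : Fˣ) (c : κ'' → F) :
    E2 L M K t * L.lf (M.lf (K.x c)) = L.lf (M.lf (K.x ((t : F) • c))) * E2 L M K t := by
  rw [E2, ← map_mul, ← map_mul, AA_zz]

lemma E2_k2 (t : Fˣ) (c : κ'' → F) :
    E2 L M K t * L.lf (M.lf (K.y c)) = L.lf (M.lf (K.y (((t⁻¹ : Fˣ) : F) • c))) * E2 L M K t := by
  rw [E2, ← map_mul, ← map_mul, AA_zm]

variable {L M K ρ} in
theorem InC.E2 {u : V} (hu : InC L M K ρ u) (t : Fˣ) : InC L M K ρ (ρ (E2 L M K t) u) := by
  refine ⟨?_, ?_, ?_, ?_⟩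
  · intro b
    exact fix_of_rel ρ (X := L.x) (fun b => rel_conv (E2_x L M K t⁻¹ b) (E2_mul_inv L M K t)) hu.hx b
  · intro b
    obtain ⟨p, p', c, rfl⟩ := K_coord K b
    rw [← rho_mul, rel_conv (E2_zz L M K t⁻¹ p p' c) (E2_mul_inv L M K t), rho_mul, hu.hz]
  · intro c
    exact fix_of_rel ρ (X := fun c => L.lf (M.lf (K.x c))) (fun b => rel_conv (E2_k1 L M K t⁻¹ b) (E2_mul_inv L M K t)) hu.k1 c
  · intro c
    exact fix_of_rel ρ (X := fun c => L.lf (M.lf (K.y c))) (fun b => rel_conv (E2_k2 L M K t⁻¹ b) (E2_mul_inv L M K t)) hu.k2 c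

end Cfsg.Agent.Lib.OddDeg
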