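import Cfsg.Agent.Lib.OddDeg.Rel2
import Cfsg.Agent.Lib.OddDeg.Proj
import Cfsg.Agent.Lib.OddDeg.Gauss
import Cfsg.Agent.Lib.MinDeg.Key

/-!
The dichotomy for a vector fixed by the Eichler transformations: either it is also fixed by the opposite
transformations, or it is orthogonal to its image under the Weyl element exchanging two planes.
-/

set_option autoImplicit false
set_option linter.unusedSectionVars false
set_option linter.unusedVariables false
set_option linter.unusedSimpArgs false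
set_option linter.ambiguousOpen false

namespace Cfsg.Agent.Lib.OddDeg

open Matrix Module Cfsg Cfsg.Geo
open Cfsg.Agent.Lib.Geo.Basic Cfsg.Agent.Lib.Geo.QForm Cfsg.Agent.Lib.QuadFn
open Cfsg.Agent.Lib.GeoOmega.Basic Cfsg.Agent.Lib.GeoOmega.Eichler
open Cfsg.Agent.Lib.MinDeg Cfsg.Agent.Lib.MinDeg.Hyp Cfsg.Agent.Lib.Classical.MatrixBridge
open Cfsg.Agent.Lib.MinDeg.Wt Cfsg.Agent.Lib.MinDeg.Count
open scoped _root_.Classical MatrixGroups

variable {ι κ κ' : Type} [Fintype ι] [DecidableEq ι] [Fintype κ] [DecidableEq κ] [Fintype κ'] [DecidableEq κ']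
  {F : Type*} [Field F] [Fintype F]
  {Q : (ι → F) → F} {Q' : (κ → F) → F} {Q'' : (κ' → F) → F}

variable (L : HL Q Q') (M : HL Q' Q'')

/-- The Weyl element `w₁`. -/
noncomputable abbrev w1 : Omega F Q := L.wS (M.vec 1 1 0)

section num

variable {F : Type*} [Field F] [Fintype F]

/-- The numerical part of the dichotomy. -/
lemma dich_num (h2 : ringChar F ≠ 2) (θ : Fˣ → ℂ) (h1 : θ 1 = 1) (hmul : ∀ s t, θ (s * t) = θ s * θ t)
    {γ P M₀ N : ℂ} (hN : N ≠ 0)
    (h : ∀ r : Fˣ, θ r * γ = P + M₀ * N * ((quadraticChar F (r : F) : ℤ) : ℂ)) :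
    ((∀ t, θ t = 1) → M₀ = 0) ∧ ((∃ t, θ t ≠ 1) → P = 0) := by
  obtain ⟨a, ha⟩ := FiniteField.exists_nonsquare h2
  have ha0 : a ≠ 0 := by
    rintro rfl
    exact ha (IsSquare.zero)
  set r₀ : Fˣ := Units.mk0 a ha0 with hr₀
  have e0 : (quadraticChar F (r₀ : F) : ℤ) = -1 := (quadraticChar_neg_one_iff_not_isSquare).2 ha
  have e1 : (quadraticChar F ((1 : Fˣ) : F) : ℤ) = 1 := by simp
  have e2 : (quadraticChar F ((r₀ * r₀ : Fˣ) : F) : ℤ) = 1 := by
    rw [Units.val_mul, ← pow_two]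
    exact quadraticChar_sq_one' ha0
  have s0 := h r₀
  have s1 := h 1
  have s2 := h (r₀ * r₀)
  rw [e0] at s0
  rw [e1, h1] at s1
  rw [e2, hmul] at s2
  push_cast at s0 s1 s2
  rw [one_mul] at s1
  by_cases hM : M₀ = 0
  · subst hM
    refine ⟨fun _ => rfl, ?_⟩
    rintro ⟨t, ht⟩
    have s3 := h t
    simp only [zero_mul, add_zero] at s0 s1 s2 s3
    have : (θ t - 1) * γ = 0 := by linear_combination s3 - s1
    have hγ : γ = 0 := (mul_eq_zero.mp this).resolve_left (sub_ne_zero.mpr ht)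
    rw [← s1]
    exact hγ
  · have hMN : M₀ * N ≠ 0 := mul_ne_zero hM hN
    have hγ : γ ≠ 0 := by
      rintro rfl
      apply hMN
      have c1 : P + M₀ * N = 0 := by linear_combination -s1
      have c2 : P - M₀ * N = 0 := by linear_combination -s0
      have : (2 : ℂ) * (M₀ * N) = 0 := by linear_combination c1 - c2
      simpa using this
    have hsq : θ r₀ * θ r₀ = 1 := by
      have : (θ r₀ * θ r₀ - 1) * γ = 0 := by linear_combination s2 - s1
      have := (mul_eq_zero.mp this).resolve_right hγ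
      linear_combination this
    have hP : P = 0 := by
      have c : (4 : ℂ) * (M₀ * N) * P = 0 := by
        have c1 : (θ r₀ * γ) * (θ r₀ * γ) = γ * γ := by
          calc (θ r₀ * γ) * (θ r₀ * γ) = (θ r₀ * θ r₀) * (γ * γ) := by ring
            _ = γ * γ := by rw [hsq, one_mul]
        rw [s0] at c1
        rw [s1] at c1
        linear_combination -c1
      have h4 : (4 : ℂ) * (M₀ * N) ≠ 0 := mul_ne_zero (by norm_num) hMN
      exact (mul_eq_zero.mp c).resolve_left h4
    have hne : θ r₀ ≠ 1 := by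
      intro h3
      apply hMN
      have c1 : γ = M₀ * N := by
        rw [s1, hP]
        ring
      have c2 : γ = - (M₀ * N) := by
        have c3 := s0
        rw [h3, one_mul, hP] at c3
        rw [c3]
        ring
      have : (2 : ℂ) * (M₀ * N) = 0 := by linear_combination c2 - c1
      simpa using this
    exact ⟨fun h3 => absurd (h3 r₀) hne, fun _ => hP⟩

end num

section main

variable {V : Type*} [AddCommGroup V] [Module ℂ V] [FiniteDimensional ℂ V] {ρ : Representation ℂ (Omega F Q) V}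

/-- The dichotomy for a vector fixed by the Eichler transformations (M10). -/
theorem X_dich (I : IH ρ) {ψ : AddChar F ℂ} (hψ : ψ 1 ≠ 1) (h2 : ringChar F ≠ 2) (hG : GaussF Q'' ψ) {u : V}
    (hfix : ∀ b, ρ (L.x b) u = u) (θ : Fˣ → ℂ) (hθ : ∀ t, ρ (dG L M.swap t) u = θ t • u)
    (hsupp : ∀ c, c ≠ 0 → Q' c ≠ 0 → EE (Q' := Q') ρ L.x ψ c (ρ (w1 L M) u) = 0) {M₀ : ℂ}
    (hconst : ∀ c ∈ Lv Q' 0, I.B (EE (Q' := Q') ρ L.x ψ c (ρ (w1 L M) u)) (EE (Q' := Q') ρ L.x ψ c (ρ (w1 L M) u)) = M₀) :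
    ((∀ t, θ t = 1) → ∀ b, ρ (L.y b) u = u) ∧ ((∃ t, θ t ≠ 1) → I.B (ρ (nW L M) u) u = 0) := by
  have hQ' := M.he
  have nd1 := L.nd'
  have nd2 := M.nd'
  have hmul : ∀ (g h : Omega F Q) (w : V), ρ (g * h) w = ρ g (ρ h w) := fun g h w => by
    rw [map_mul]
    rfl
  have hone : ∀ w : V, ρ 1 w = w := fun w => by
    rw [map_one]
    rfl
  by_cases hu : u = 0
  · subst hu
    refine ⟨fun _ b => map_zero _, fun _ => I.zero_right _⟩
  have hx : ∀ b b', L.x (b + b') = L.x b * L.x b' := L.x_add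
  set w := w1 L M with hw
  set v := ρ w u with hv
  have hww : ∀ z : V, ρ w (ρ w z) = z := fun z => by
    rw [← hmul, hw, w1_sq, hone]
  -- the expansion
  have hf : ∀ a, I.B (ρ (L.x a) v) v =
      I.B (EE (Q' := Q') ρ L.x ψ 0 v) (EE (Q' := Q') ρ L.x ψ 0 v) + M₀ * ∑ s ∈ Lv Q' 0, ψ (pol Q' s a) := by
    intro a
    rw [B_x_expand I hx nd1 hψ a v,
      Key.sum_split (Q' := Q') 0 _ (fun c hc hq => by rw [hsupp c hc hq, I.zero_left, mul_zero])]
    rw [pol_zero_left nd1, AddChar.map_zero_eq_one, one_mul, Finset.mul_sum]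
    congr 1
    refine Finset.sum_congr rfl fun s hs => ?_
    rw [hconst s hs]
    ring
  -- passing to the opposite group
  have hconj : ∀ (p p' : F) (c : κ' → F), I.B (ρ (L.x (M.vec p p' c)) v) v = I.B (ρ (L.y (M.vec p' p (-c))) u) u := by
    intro p p' c
    rw [← I.inv w (ρ (L.x (M.vec p p' c)) v) v, hv, hww, ← hmul, ← hmul, hw, w1_x, mul_assoc, w1_sq, mul_one]
  -- invariance under x
  have hBx : ∀ e (z : V), I.B (ρ (L.x e) z) u = I.B z u := by
    intro e z
    rw [I.adj, ← L.x_neg, hfix]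
  have hy_wS : ∀ b, I.B (ρ (L.y b) u) u = I.B (ρ (L.wS b) u) u := by
    intro b
    rw [HL.wS, hmul, hmul, hfix, hBx]
  have hy_unit : ∀ r : Fˣ, I.B (ρ (L.y (M.vec 1 r 0)) u) u = θ r * I.B v u := by
    intro r
    rw [hy_wS, wS_eq, hmul, hθ, map_smul, I.smul_left]
  obtain ⟨N, hN, hsing⟩ := sum_sing h2 hψ M.he M.nd hG
  have hval : ∀ r : Fˣ, θ r * I.B v u =
      (I.B (EE (Q' := Q') ρ L.x ψ 0 v) (EE (Q' := Q') ρ L.x ψ 0 v) - M₀) +
        M₀ * N * ((quadraticChar F (r : F) : ℤ) : ℂ) := by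
    intro r
    rw [← hy_unit r]
    have h3 := hconj (r : F) 1 0
    rw [neg_zero] at h3
    rw [← h3, hf]
    have h4 := hsing (r : F) r.ne_zero
    change ∑ s ∈ Lv Q' 0, ψ (pol Q' s (M.vec (r : F) 1 0)) = _ at h4
    rw [h4]
    ring
  have hval0 : I.B (ρ (L.y (M.vec 1 0 0)) u) u =
      I.B (EE (Q' := Q') ρ L.x ψ 0 v) (EE (Q' := Q') ρ L.x ψ 0 v) - M₀ := by
    have h3 := hconj 0 1 0
    rw [neg_zero] at h3
    rw [← h3, hf]
    have h4 := sum_sing0 h2 hψ M.he M.nd hG 1 one_ne_zero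
    change ∑ s ∈ Lv Q' 0, ψ (pol Q' s (M.vec 0 1 0)) = _ at h4
    rw [h4]
    ring
  -- the multiplicativity
  have hθ1 : θ 1 = 1 := by
    have h3 := hθ 1
    rw [dG_one, hone] at h3
    have h4 : (θ 1 - 1) • u = 0 := by
      rw [sub_smul, ← h3, one_smul, sub_self]
    have := (smul_eq_zero.mp h4).resolve_right hu
    linear_combination this
  have hθm : ∀ s t, θ (s * t) = θ s * θ t := by
    intro s t
    have h3 := hθ (s * t)
    rw [dG_mul, hmul, hθ t, map_smul, hθ s, smul_smul] at h3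
    have h4 : (θ (s * t) - θ s * θ t) • u = 0 := by
      rw [sub_smul, ← h3, mul_comm (θ t), sub_self]
    have := (smul_eq_zero.mp h4).resolve_right hu
    linear_combination this
  obtain ⟨d1, d2⟩ := dich_num h2 θ hθ1 hθm hN hval
  refine ⟨fun h3 b => ?_, fun h3 => ?_⟩
  · have hM0 := d1 h3
    -- all nonzero weights vanish
    have hEE : ∀ c, c ≠ 0 → EE (Q' := Q') ρ L.x ψ c v = 0 := by
      intro c hc
      by_cases hq : Q' c = 0
      · apply I.eq_zero_of_self
        rw [hconst c (mem_Lv.2 ⟨hc, hq⟩), hM0]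
      · exact hsupp c hc hq
    have hsum : v = EE (Q' := Q') ρ L.x ψ 0 v := by
      have h4 := sum_EE (ρ := ρ) (x := L.x) (ψ := ψ) nd1 hψ hx
      have h5 := congrArg (fun T : Module.End ℂ V => T v) h4
      simp only [LinearMap.sum_apply, Module.End.one_apply] at h5
      rw [Finset.sum_eq_single 0 (fun c _ hc => hEE c hc) (by simp)] at h5
      exact h5.symm
    have hvfix : ∀ e, ρ (L.x e) v = v := by
      intro e
      have h4 := (mem_Vc (ρ := ρ) nd1 hψ hx).1 (EE_mem (ρ := ρ) nd1 hψ hx 0 v) e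
      rw [← hsum, pol_zero_left nd1, AddChar.map_zero_eq_one, one_smul] at h4
      exact h4
    have hy : ∀ (a a' : F) (d : κ' → F), ρ (L.y (M.vec a a' d)) u = u := by
      intro a a' d
      have h4 := w1_x L M a' a (-d)
      rw [neg_neg] at h4
      have h5 : L.y (M.vec a a' d) = w * L.x (M.vec a' a (-d)) * w := by
        rw [hw, h4, mul_assoc, w1_sq, mul_one]
      rw [h5, hmul, hmul, ← hv, hvfix, hv, hww]
    have h6 := hy (b M.he.p0) (b M.he.p1) (M.he.dn b)
    have h7 : M.vec (b M.he.p0) (b M.he.p1) (M.he.dn b) = b := M.he.vec_coord b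
    rwa [h7] at h6
  · have hP := d2 h3
    rw [hP] at hval0
    rw [nW, hmul, hfix, hmul, hBx]
    exact hval0

end main

end Cfsg.Agent.Lib.OddDeg
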